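import Mathlib.LinearAlgebra.BilinearForm.Properties
import Mathlib.FieldTheory.Finite.Basic
import Mathlib.GroupTheory.Perm.Cycle.Type
import Mathlib.GroupTheory.GroupAction.Quotient
import Mathlib.LinearAlgebra.FiniteDimensional.Lemmas

/-!
# Groups of odd exponent normalised by reflections of an orthogonal space

`B` is a symmetric non-degenerate bilinear form over a finite field of odd characteristic. A group of isometries
all of whose elements have an odd power equal to `±1`, normalised by enough products of reflections, consists of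
scalars. Also: a semilinear similarity fixing all anisotropic lines is a scalar.
-/

set_option autoImplicit false
set_option linter.unusedSectionVars false

namespace CfsgLib.AutOrth.InvCore

open Module

variable {E V : Type*} [Field E] [AddCommGroup V] [Module E V] [FiniteDimensional E V]
variable (B : LinearMap.BilinForm E V)

/-- The restriction of `B` to `S` is non-degenerate. -/
def NondegOn (S : Submodule E V) : Prop := ∀ u ∈ S, u ≠ 0 → ∃ y ∈ S, B u y ≠ 0

/-- The vectors of `S` perpendicular to `a`. -/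
def cut (S : Submodule E V) (a : V) : Submodule E V := S ⊓ LinearMap.ker (B a)

/-- The reflection at `a`. -/
noncomputable def rfl' (a : V) : V →ₗ[E] V := LinearMap.id - (2 / B a a) • (B a).smulRight a

/-- The Eichler map. -/
noncomputable def eich (e w : V) : V →ₗ[E] V :=
  LinearMap.id + (B w).smulRight e - (B e).smulRight w - (B w w / 2) • (B e).smulRight e

lemma rfl'_apply (a x : V) : rfl' B a x = x - (2 * B a x / B a a) • a := by
  simp only [rfl', LinearMap.sub_apply, LinearMap.id_apply, LinearMap.smul_apply, LinearMap.smulRight_apply,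
    smul_smul]
  congr 2
  ring

lemma eich_apply (e w x : V) :
    eich B e w x = x + B w x • e - B e x • w - (B w w / 2 * B e x) • e := by
  simp only [eich, LinearMap.add_apply, LinearMap.sub_apply, LinearMap.id_apply, LinearMap.smul_apply,
    LinearMap.smulRight_apply, smul_smul]

lemma mem_cut {S : Submodule E V} {a x : V} : x ∈ cut B S a ↔ x ∈ S ∧ B a x = 0 := by
  rw [cut, Submodule.mem_inf, LinearMap.mem_ker]

lemma finrank_cut_add (S : Submodule E V) (a : V) : finrank E S ≤ finrank E (cut B S a) + 1 := by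
  have h1 := Submodule.finrank_sup_add_finrank_inf_eq S (LinearMap.ker (B a))
  have h2 := LinearMap.finrank_range_add_finrank_ker (B a)
  have h3 := Submodule.finrank_le (LinearMap.range (B a))
  have h4 := Submodule.finrank_le (S ⊔ LinearMap.ker (B a))
  rw [finrank_self] at h3
  unfold cut
  omega

variable {B} (hs : ∀ x y, B x y = B y x)
include hs

lemma q_add (x y : V) : B (x + y) (x + y) = B x x + B y y + 2 * B x y := by
  simp only [map_add, LinearMap.add_apply]
  rw [hs y x]; ring

lemma q_smul (t : E) (x : V) : B (t • x) (t • x) = t ^ 2 * B x x := by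
  simp only [map_smul, LinearMap.smul_apply, smul_eq_mul]; ring

variable (hB : ∀ u, u ≠ 0 → ∃ y, B u y ≠ 0)
include hB

lemma nondegOn_top : NondegOn B ⊤ := fun u _ hu => by
  obtain ⟨y, hy⟩ := hB u hu
  exact ⟨y, Submodule.mem_top, hy⟩

lemma exists_partner {S : Submodule E V} (hS : NondegOn B S) {z : V} (hz : z ∈ S) (hz0 : z ≠ 0) :
    ∃ f ∈ S, B z f = 1 := by
  obtain ⟨y, hy, hzy⟩ := hS z hz hz0
  exact ⟨(B z y)⁻¹ • y, S.smul_mem _ hy, by rw [map_smul, smul_eq_mul, inv_mul_cancel₀ hzy]⟩

lemma nondegOn_cut {S : Submodule E V} (hS : NondegOn B S) {a : V} (ha : a ∈ S) (ha0 : B a a ≠ 0) :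
    NondegOn B (cut B S a) := by
  intro u hu hu0
  rw [mem_cut] at hu
  obtain ⟨y, hy, huy⟩ := hS u hu.1 hu0
  refine ⟨y - (B a y / B a a) • a, (mem_cut B).2 ⟨S.sub_mem hy (S.smul_mem _ ha), ?_⟩, ?_⟩
  · rw [map_sub, map_smul, smul_eq_mul, div_mul_cancel₀ _ ha0, sub_self]
  · rwa [map_sub, map_smul, hs u a, hu.2, smul_zero, sub_zero]

lemma nondegOn_cut_pair {S : Submodule E V} (hS : NondegOn B S) {z f : V} (hz : z ∈ S) (hf : f ∈ S)
    (hz0 : B z z = 0) (hzf : B z f = 1) : NondegOn B (cut B (cut B S z) f) := by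
  intro u hu hu0
  simp only [mem_cut] at hu
  obtain ⟨y, hy, huy⟩ := hS u hu.1.1 hu0
  refine ⟨y - B z y • f - (B f y - B z y * B f f) • z,
    (mem_cut B).2 ⟨(mem_cut B).2 ⟨S.sub_mem (S.sub_mem hy (S.smul_mem _ hf)) (S.smul_mem _ hz), ?_⟩, ?_⟩, ?_⟩
  · simp only [map_sub, map_smul, smul_eq_mul, hz0, hzf]; ring
  · simp only [map_sub, map_smul, smul_eq_mul, hs f z, hzf]; ring
  · rwa [map_sub, map_sub, map_smul, map_smul, hs u f, hu.2, hs u z, hu.1.2, smul_zero, smul_zero, sub_zero,
      sub_zero]

variable [Finite E] (h2 : (2 : E) ≠ 0)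
include h2

/-- A non-degenerate space of dimension at least two takes every non-zero value. -/
lemma exists_value {S : Submodule E V} (hS : NondegOn B S) (hd : 2 ≤ finrank E S) {c : E} (hc : c ≠ 0) :
    ∃ x ∈ S, B x x = c := by
  classical
  by_cases hiso : ∃ u ∈ S, u ≠ 0 ∧ B u u = 0
  · obtain ⟨u, hu, hu0, huu⟩ := hiso
    obtain ⟨y, hy, huy⟩ := exists_partner hs hB hS hu hu0
    refine ⟨((c - B y y) / 2) • u + y, S.add_mem (S.smul_mem _ hu) hy, ?_⟩
    rw [q_add hs, q_smul hs, huu, map_smul, LinearMap.smul_apply, huy, smul_eq_mul]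
    field_simp
    ring
  push Not at hiso
  obtain ⟨a, ha, ha0⟩ := Submodule.exists_mem_ne_zero_of_ne_bot (p := S) (fun h => by
    rw [h, finrank_bot] at hd; omega)
  obtain ⟨b, hb, hb0⟩ := Submodule.exists_mem_ne_zero_of_ne_bot (p := cut B S a) (fun h => by
    have := finrank_cut_add B S a
    rw [h, finrank_bot] at this; omega)
  rw [mem_cut] at hb
  have hqa := hiso a ha ha0
  have hqb := hiso b hb.1 hb0
  have := Fintype.ofFinite E
  have hodd : Fintype.card E % 2 = 1 := FiniteField.odd_card_of_char_ne_two (fun h => h2 (by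
    have := ringChar.Nat.cast_ringChar (R := E)
    rw [h] at this
    exact_mod_cast this))
  obtain ⟨α, β, hαβ⟩ := FiniteField.exists_root_sum_quadratic
    (f := Polynomial.C (B a a) * Polynomial.X ^ 2)
    (g := Polynomial.C (B b b) * Polynomial.X ^ 2 + Polynomial.C (-c))
    (Polynomial.degree_C_mul_X_pow 2 hqa)
    (by rw [Polynomial.degree_add_eq_left_of_degree_lt] <;>
        simp [Polynomial.degree_C_mul_X_pow 2 hqb, Polynomial.degree_C hc]) hodd
  simp only [Polynomial.eval_add, Polynomial.eval_mul, Polynomial.eval_C, Polynomial.eval_pow,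
    Polynomial.eval_X] at hαβ
  refine ⟨α • a + β • b, S.add_mem (S.smul_mem _ ha) (S.smul_mem _ hb.1), ?_⟩
  rw [q_add hs, q_smul hs, q_smul hs, map_smul, map_smul, LinearMap.smul_apply, hb.2, smul_zero, smul_zero]
  linear_combination hαβ

lemma exists_value' {S : Submodule E V} (hS : NondegOn B S) (hd : 2 ≤ finrank E S) (c : E) :
    ∃ x ∈ S, B x x = c := by
  by_cases hc : c = 0
  · exact ⟨0, S.zero_mem, by simp [hc]⟩
  · exact exists_value hs hB h2 hS hd hc

/-- A subspace with an anisotropic vector is spanned by its anisotropic vectors. -/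
lemma mem_of_anisotropic {S T : Submodule E V} {y : V} (hy : y ∈ S) (hy0 : B y y ≠ 0)
    (h : ∀ x ∈ S, B x x ≠ 0 → x ∈ T) : S ≤ T := by
  intro z hz
  by_cases hz0 : B z z = 0
  · have e : B (z + y) (z + y) ≠ 0 ∨ B (z + -y) (z + -y) ≠ 0 := by
      by_contra hh
      push Not at hh
      obtain ⟨h1, h1'⟩ := hh
      rw [q_add hs] at h1 h1'
      simp only [map_neg, LinearMap.neg_apply, neg_neg] at h1'
      refine hy0 ((mul_eq_zero.1 (show (2 : E) * B y y = 0 from ?_)).resolve_left h2)
      linear_combination h1 + h1' - 2 * hz0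
    rcases e with h1 | h1
    · have := T.sub_mem (h _ (S.add_mem hz hy) h1) (h y hy hy0)
      rwa [add_sub_cancel_right] at this
    · have := T.add_mem (h _ (S.add_mem hz (S.neg_mem hy)) h1) (h y hy hy0)
      rwa [neg_add_cancel_right] at this
  · exact h z hz hz0

/-- A singular vector and a hyperbolic frame around it, in dimension three or more. -/
lemma exists_frame (hd : 3 ≤ finrank E V) {e : V} (he : B e e = 0) (he0 : e ≠ 0) :
    ∃ f z : V, B f f = 0 ∧ B e f = 1 ∧ B e z = 0 ∧ B f z = 0 ∧ B z z ≠ 0 := by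
  obtain ⟨f₀, -, hf₀⟩ := exists_partner hs hB (nondegOn_top hs hB) Submodule.mem_top he0
  set f := f₀ - (B f₀ f₀ / 2) • e with hf
  have hef : B e f = 1 := by rw [hf, map_sub, map_smul, he, smul_zero, sub_zero, hf₀]
  have hff : B f f = 0 := by
    simp only [hf, map_sub, map_smul, LinearMap.sub_apply, LinearMap.smul_apply, he, hf₀, hs f₀ e,
      smul_eq_mul]
    field_simp
    ring
  have hT := nondegOn_cut_pair hs hB (nondegOn_top hs hB) (z := e) (f := f) trivial trivial he hef
  obtain ⟨z, hz, hzz⟩ : ∃ z ∈ cut B (cut B ⊤ e) f, B z z ≠ 0 := by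
    by_contra hh
    push Not at hh
    obtain ⟨u, hu, hu0⟩ := Submodule.exists_mem_ne_zero_of_ne_bot (p := cut B (cut B ⊤ e) f) (fun h => by
      have h1 := finrank_cut_add B (cut B ⊤ e) f
      have h3 := finrank_cut_add B (⊤ : Submodule E V) e
      rw [h, finrank_bot] at h1; rw [finrank_top] at h3; omega)
    obtain ⟨y, hy, huy⟩ := hT u hu hu0
    have h4 := hh _ (Submodule.add_mem _ hu hy)
    rw [q_add hs, hh u hu, hh y hy, add_zero, zero_add] at h4
    exact huy ((mul_eq_zero.1 h4).resolve_left h2)
  simp only [mem_cut] at hz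
  exact ⟨f, z, hff, hef, hz.1.2, hz.2, hzz⟩

/-- A semilinear similarity fixing the anisotropic lines is a scalar. -/
theorem semilinear_scalar (hd : 3 ≤ finrank E V) (H : V → V) (τ : E ≃+* E)
    (hadd : ∀ x y, H (x + y) = H x + H y) (hsmul : ∀ (t : E) x, H (t • x) = τ t • H x)
    (hinj : ∀ x, H x = 0 → x = 0) {μ : E} (hsim : ∀ x y, B (H x) (H y) = μ * τ (B x y))
    (hfix : ∀ x, B x x ≠ 0 → ∃ c : E, H x = c • x) :
    τ = RingEquiv.refl E ∧ ∃ c : E, c ≠ 0 ∧ ∀ x, H x = c • x := by
  have hall : ∀ e, ∃ c : E, H e = c • e := by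
    intro e
    by_cases he : B e e = 0
    swap; · exact hfix e he
    by_cases he0 : e = 0
    · refine ⟨0, ?_⟩
      have := hsmul 0 e
      rw [zero_smul, map_zero, zero_smul] at this
      rw [he0, this, zero_smul]
    obtain ⟨f, z, hff, hef, hez, hfz, hzz⟩ := exists_frame hs hB h2 hd he he0
    have hperp : cut B ⊤ e ≤ LinearMap.ker (B (H e)) := by
      refine mem_of_anisotropic hs hB h2 ((mem_cut B).2 ⟨trivial, hez⟩) hzz fun x hx hx0 => ?_
      obtain ⟨c, hc⟩ := hfix x hx0
      have hc0 : c ≠ 0 := fun h => hx0 (by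
        have := hinj x (by rw [hc, h, zero_smul])
        simp [this])
      have := hsim e x
      rw [((mem_cut B).1 hx).2, map_zero, mul_zero, hc, map_smul, smul_eq_mul] at this
      exact LinearMap.mem_ker.2 ((mul_eq_zero.1 this).resolve_left hc0)
    refine ⟨B (H e) f, ?_⟩
    by_contra hne
    obtain ⟨y, hy⟩ := hB (H e - B (H e) f • e) (sub_ne_zero.2 hne)
    refine hy ?_
    have hm : y - B e y • f ∈ cut B ⊤ e :=
      (mem_cut B).2 ⟨trivial, by rw [map_sub, map_smul, hef, smul_eq_mul, mul_one, sub_self]⟩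
    have h1 := LinearMap.mem_ker.1 (hperp hm)
    simp only [map_sub, map_smul, LinearMap.sub_apply, LinearMap.smul_apply, smul_eq_mul] at h1 ⊢
    linear_combination h1
  choose c hc using hall
  obtain ⟨u, -, hu⟩ := exists_value hs hB h2 (nondegOn_top hs hB) (by rw [finrank_top]; omega) one_ne_zero
  have hu0 : u ≠ 0 := fun h => by simp [h] at hu
  have hcu : c u ≠ 0 := fun h => hu0 (hinj u (by rw [hc, h, zero_smul]))
  have key : ∀ x : V, x ∉ Submodule.span E {u} → ∀ t : E, τ t * c x = c u * t := by
    intro x hx t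
    have h1 := hc (u + t • x)
    rw [hadd, hsmul, hc u, hc x, smul_smul, smul_add, smul_smul] at h1
    have h2' : (c u - c (u + t • x)) • u + (τ t * c x - c (u + t • x) * t) • x = 0 := by
      linear_combination (norm := module) h1
    have hb : τ t * c x - c (u + t • x) * t = 0 := by
      by_contra hb
      refine hx (Submodule.mem_span_singleton.2
        ⟨-((τ t * c x - c (u + t • x) * t)⁻¹ * (c u - c (u + t • x))), ?_⟩)
      rw [neg_smul, mul_smul, ← smul_neg, inv_smul_eq_iff₀ hb]
      linear_combination (norm := module) -h2'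
    rw [hb, zero_smul, add_zero, smul_eq_zero, or_iff_left hu0] at h2'
    linear_combination hb - t * h2'
  obtain ⟨x₀, hx₀⟩ : ∃ x, x ∉ Submodule.span E {u} := by
    by_contra hh
    push Not at hh
    have := Submodule.finrank_mono (show (⊤ : Submodule E V) ≤ Submodule.span E {u} from fun x _ => hh x)
    rw [finrank_top, finrank_span_singleton hu0] at this
    omega
  have hx1 : c x₀ = c u := by simpa using key x₀ hx₀ 1
  have hτ : τ = RingEquiv.refl E := RingEquiv.ext fun t => by
    have := key x₀ hx₀ t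
    rw [hx1, mul_comm (c u)] at this
    exact mul_right_cancel₀ hcu this
  refine ⟨hτ, c u, hcu, fun x => ?_⟩
  by_cases hx : x ∈ Submodule.span E {u}
  · obtain ⟨t, rfl⟩ := Submodule.mem_span_singleton.1 hx
    rw [hsmul, hc u, hτ, RingEquiv.refl_apply, smul_comm]
  · rw [hc x, show c x = c u by simpa using key x hx 1]

section group

variable {G : Type*} [Group G] (ρ : G →* Module.End E V) {N : ℕ} (hN : Odd N)
  (hiso : ∀ g x y, B (ρ g x) (ρ g y) = B x y) (hpow : ∀ g, ρ g ^ N = 1 ∨ ρ g ^ N = -1)
include hiso hpow hN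

omit hiso in
lemma no_neg_fix {g : G} {a v : V} (ha : ρ g a = -a) (ha0 : a ≠ 0) (hv : ρ g v = v) (hv0 : v ≠ 0) : False := by
  have hk : ∀ k : ℕ, (ρ g ^ k) a = ((-1 : E) ^ k) • a ∧ (ρ g ^ k) v = v := by
    intro k
    induction k with
    | zero => simp
    | succ k ih =>
      rw [pow_succ', Module.End.mul_apply, Module.End.mul_apply, ih.1, ih.2, map_smul, ha, hv, pow_succ, mul_smul,
        neg_one_smul]
      exact ⟨rfl, rfl⟩
  obtain ⟨h1, h3⟩ := hk N
  rw [hN.neg_one_pow, neg_one_smul] at h1
  have key : ∀ x : V, x ≠ 0 → x ≠ -x := fun x hx h => hx (by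
    have : (2 : E) • x = 0 := by linear_combination (norm := module) h
    exact (smul_eq_zero.1 this).resolve_left h2)
  rcases hpow g with h | h <;> rw [h] at h1 h3
  · exact key a ha0 h1
  · exact key v hv0 (by simpa using h3.symm)

omit hiso hpow hN in
lemma map_rfl' {T : V →ₗ[E] V} (hT : ∀ x y, B (T x) (T y) = B x y) (a x : V) :
    T (rfl' B a x) = rfl' B (T a) (T x) := by
  rw [rfl'_apply, rfl'_apply, map_sub, map_smul, hT, hT]

/-- Vectors of norm `c₀` span fixed lines. -/
theorem eq_or_neg_of_value (hd : 5 ≤ finrank E V) {c₀ : E} (hc₀ : c₀ ≠ 0)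
    (hone : ∀ a, B a a = c₀ → ∀ g, ∃ g', ρ g' * rfl' B a = rfl' B a * ρ g)
    (hpair : ∀ w w', B w w = 2 / c₀ → B w' w' = 2 / c₀ → B w w' = 0 →
      ∀ g, ∃ g', ρ g' * (rfl' B w * rfl' B w') = rfl' B w * rfl' B w' * ρ g)
    (m : G) {a : V} (ha : B a a = c₀) : ρ m a = a ∨ ρ m a = -a := by
  by_contra hne
  push Not at hne
  set b := ρ m a with hb
  have hbb : B b b = c₀ := by rw [hb, hiso, ha]
  have ha0 : a ≠ 0 := fun h => hc₀ (by rw [← ha, h]; simp)
  obtain ⟨y, hy⟩ := hone a ha m⁻¹
  have hra : ∀ v, rfl' B a (rfl' B a v) = v := fun v => by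
    simp only [rfl'_apply, map_sub, map_smul, ha, smul_eq_mul, smul_smul]
    match_scalars <;> field_simp
    ring
  have hx : ∀ v, ρ (m * y) v = rfl' B b (rfl' B a v) := fun v => by
    have h1 := LinearMap.congr_fun hy (rfl' B a v)
    simp only [Module.End.mul_apply, hra] at h1
    rw [map_mul, Module.End.mul_apply, h1, map_rfl' hs hB h2 (hiso m), ← hb]
    congr 1
    rw [← Module.End.mul_apply, ← map_mul, mul_inv_cancel, map_one, Module.End.one_apply]
  have hraa : rfl' B a a = -a := by
    rw [rfl'_apply, ha, mul_div_assoc, div_self hc₀, mul_one]; module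
  have key : ∀ v : V, B a v = 0 → rfl' B a v = v := fun v hv => by
    rw [rfl'_apply, hv]; simp
  set γ := B b a / c₀ with hγ
  set z := a - γ • b with hz
  have hbz : B b z = 0 := by rw [hz, map_sub, map_smul, hbb, smul_eq_mul, hγ, div_mul_cancel₀ _ hc₀, sub_self]
  have hz0 : z ≠ 0 := by
    intro h
    rw [hz, sub_eq_zero] at h
    have h1 : B a a = γ * γ * c₀ := by rw [h]; simp [hbb, mul_assoc]
    have h3 : γ * γ = 1 := mul_right_cancel₀ hc₀ (by rw [← h1, ha, one_mul])
    rcases mul_self_eq_one_iff.1 h3 with e | e <;> rw [e] at h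
    · exact hne.1 (by simpa using h.symm)
    · exact hne.2 (by rw [h]; simp)
  have hT0 := nondegOn_cut hs hB (nondegOn_top hs hB) (a := b) trivial (by rw [hbb]; exact hc₀)
  have hU : 4 ≤ finrank E (cut B ⊤ b) := by
    have := finrank_cut_add B (⊤ : Submodule E V) b
    rw [finrank_top] at this; omega
  have hzU : z ∈ cut B ⊤ b := (mem_cut B).2 ⟨trivial, hbz⟩
  have hl : (2 : E) / c₀ ≠ 0 := div_ne_zero h2 hc₀
  obtain ⟨w, w', hw, hw', hbw, hbw', hzw', hww', hzw⟩ : ∃ w w', B w w = 2 / c₀ ∧ B w' w' = 2 / c₀ ∧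
      B b w = 0 ∧ B b w' = 0 ∧ B z w' = 0 ∧ B w w' = 0 ∧ B z w = 1 := by
    by_cases hzz : B z z = 0
    · obtain ⟨f, hf, hzf⟩ := exists_partner hs hB hT0 hzU hz0
      have hT := nondegOn_cut_pair hs hB hT0 hzU hf hzz hzf
      obtain ⟨w', hw'T, hw'⟩ := exists_value hs hB h2 hT (by
        have := finrank_cut_add B (cut B ⊤ b) z
        have := finrank_cut_add B (cut B (cut B ⊤ b) z) f
        omega) hl
      simp only [mem_cut] at hw'T hf
      refine ⟨f + ((2 / c₀ - B f f) / 2) • z, w', ?_, hw', ?_, hw'T.1.1.2, hw'T.1.2, ?_, ?_⟩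
      · rw [q_add hs, q_smul hs, hzz, map_smul, hs f z, hzf, smul_eq_mul]; field_simp; ring
      · rw [map_add, map_smul, hbz, hf.2, smul_zero, add_zero]
      · simp only [map_add, map_smul, LinearMap.add_apply, LinearMap.smul_apply, hw'T.2, hw'T.1.2, smul_zero,
          add_zero]
      · rw [map_add, map_smul, hzf, hzz, smul_zero, add_zero]
    · have hT := nondegOn_cut hs hB hT0 hzU hzz
      obtain ⟨w', hw'T, hw'⟩ := exists_value hs hB h2 hT (by
        have := finrank_cut_add B (cut B ⊤ b) z
        omega) hl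
      obtain ⟨y', hy'T, hy'⟩ := exists_value' hs hB h2
        (nondegOn_cut hs hB hT hw'T (by rw [hw']; exact hl)) (by
          have := finrank_cut_add B (cut B ⊤ b) z
          have := finrank_cut_add B (cut B (cut B ⊤ b) z) w'
          omega) (2 / c₀ - 1 / B z z)
      simp only [mem_cut] at hw'T hy'T
      refine ⟨(1 / B z z) • z + y', w', ?_, hw', ?_, hw'T.1.2, hw'T.2, ?_, ?_⟩
      · rw [q_add hs, q_smul hs, hy', map_smul, LinearMap.smul_apply, hy'T.1.2, smul_zero, mul_zero]
        field_simp; ring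
      · rw [map_add, map_smul, hbz, hy'T.1.1.2, smul_zero, add_zero]
      · simp only [map_add, map_smul, LinearMap.add_apply, LinearMap.smul_apply, hw'T.2, hs y' w', hy'T.2,
          smul_zero, add_zero]
      · rw [map_add, map_smul, hy'T.1.2, smul_eq_mul, div_mul_cancel₀ _ hzz, add_zero]
  have haz : a = z + γ • b := by rw [hz]; abel
  have haw : B w a = 1 := by
    rw [haz, map_add, map_smul, hs w z, hzw, hs w b, hbw, smul_zero, add_zero]
  have haw' : B w' a = 0 := by
    rw [haz, map_add, map_smul, hs w' z, hzw', hs w' b, hbw', smul_zero, add_zero]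
  set h := rfl' B w * rfl' B w' with hh
  set c := a - c₀ • w with hc
  have hha : h a = c := by
    rw [hh, Module.End.mul_apply, rfl'_apply B w' a, haw', mul_zero, zero_div, zero_smul, sub_zero, rfl'_apply,
      haw, hw, hc]
    congr 2
    field_simp
  have hhc : h c = a := by
    have h1 : B w' c = 0 := by rw [hc, map_sub, map_smul, haw', hs w' w, hww', smul_zero, sub_zero]
    rw [hh, Module.End.mul_apply, rfl'_apply B w' c, h1, mul_zero, zero_div, zero_smul, sub_zero, rfl'_apply, hc,
      map_sub, map_smul, haw, hw, smul_eq_mul]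
    match_scalars <;> field_simp
    ring
  have hhb : h b = b := by
    rw [hh, Module.End.mul_apply, rfl'_apply B w' b, hs w' b, hbw', mul_zero, zero_div, zero_smul, sub_zero,
      rfl'_apply, hs w b, hbw, mul_zero, zero_div, zero_smul, sub_zero]
  obtain ⟨x₂, hx₂⟩ := hpair w w' hw hw' hww' (m * y)
  rw [← hh] at hx₂
  have hac : B a c = 0 := by
    rw [hc, map_sub, map_smul, ha, hs a w, haw, smul_eq_mul, mul_one, sub_self]
  have hbc : B b c = B b a := by rw [hc, map_sub, map_smul, hbw, smul_zero, sub_zero]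
  have hxa : ρ (m * y) a = -rfl' B b a := by rw [hx, hraa, map_neg]
  have hx2a : ρ x₂ a = rfl' B b a := by
    have h1 := LinearMap.congr_fun hx₂ c
    simp only [Module.End.mul_apply, hhc] at h1
    rw [h1, hx, key c hac, rfl'_apply, map_sub, map_smul, hhc, hhb, hbc, rfl'_apply]
  obtain ⟨v, hv, hv0⟩ := Submodule.exists_mem_ne_zero_of_ne_bot
    (p := cut B (cut B (cut B (cut B ⊤ a) b) w) w') (fun h => by
      have h1 := finrank_cut_add B (⊤ : Submodule E V) a
      have h3 := finrank_cut_add B (cut B ⊤ a) b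
      have h4 := finrank_cut_add B (cut B (cut B ⊤ a) b) w
      have h5 := finrank_cut_add B (cut B (cut B (cut B ⊤ a) b) w) w'
      rw [finrank_top] at h1
      rw [h, finrank_bot] at h5
      omega)
  simp only [mem_cut] at hv
  obtain ⟨⟨⟨⟨-, hav⟩, hbv⟩, hwv⟩, hw'v⟩ := hv
  have hhv : h v = v := by
    rw [hh, Module.End.mul_apply, rfl'_apply B w' v, hw'v, mul_zero, zero_div, zero_smul, sub_zero,
      rfl'_apply, hwv, mul_zero, zero_div, zero_smul, sub_zero]
  have hxv : ρ (m * y) v = v := by rw [hx, key v hav, rfl'_apply, hbv]; simp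
  have hx2v : ρ x₂ v = v := by
    have h1 := LinearMap.congr_fun hx₂ v
    simp only [Module.End.mul_apply, hhv, hxv] at h1
    exact h1
  refine no_neg_fix hs hB h2 ρ hN hpow (g := (m * y)⁻¹ * x₂) ?_ ha0 ?_ hv0
  · have : ρ x₂ a = ρ (m * y) (-a) := by rw [map_neg, hxa, neg_neg, hx2a]
    rw [map_mul, Module.End.mul_apply, this, ← Module.End.mul_apply, ← map_mul, inv_mul_cancel, map_one,
      Module.End.one_apply]
  · have : ρ x₂ v = ρ (m * y) v := by rw [hx2v, hxv]
    rw [map_mul, Module.End.mul_apply, this, ← Module.End.mul_apply, ← map_mul, inv_mul_cancel, map_one,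
      Module.End.one_apply]

/-- In dimension at least five the group consists of `±1`. -/
theorem eq_one_or_neg_of_five (hd : 5 ≤ finrank E V) {c₀ : E} (hc₀ : c₀ ≠ 0)
    (hone : ∀ a, B a a = c₀ → ∀ g, ∃ g', ρ g' * rfl' B a = rfl' B a * ρ g)
    (hpair : ∀ w w', B w w = 2 / c₀ → B w' w' = 2 / c₀ → B w w' = 0 →
      ∀ g, ∃ g', ρ g' * (rfl' B w * rfl' B w') = rfl' B w * rfl' B w' * ρ g)
    (m : G) : ρ m = 1 ∨ ρ m = -1 := by
  have hline : ∀ a, B a a = c₀ → ∃ ε : E, (ε = 1 ∨ ε = -1) ∧ ρ m a = ε • a := fun a ha => by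
    rcases eq_or_neg_of_value hs hB h2 ρ hN hiso hpow hd hc₀ hone hpair m ha with h | h
    · exact ⟨1, Or.inl rfl, by rw [h, one_smul]⟩
    · exact ⟨-1, Or.inr rfl, by rw [h, neg_one_smul]⟩
  have hconn : ∀ u v, B u u = c₀ → B v v = c₀ → B u v ≠ 0 → ∀ εu εv : E, ρ m u = εu • u → ρ m v = εv • v →
      (εu = 1 ∨ εu = -1) → εu = εv := by
    intro u v _ _ huv εu εv h h' hu
    have := hiso m u v
    simp only [h, h', map_smul, LinearMap.smul_apply, smul_eq_mul] at this
    have h1 : εu * εv = 1 := mul_right_cancel₀ huv (by linear_combination this)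
    rcases hu with rfl | rfl
    · linear_combination -h1
    · linear_combination h1
  obtain ⟨u, -, hu⟩ := exists_value hs hB h2 (nondegOn_top hs hB) (by rw [finrank_top]; omega) hc₀
  obtain ⟨ε, hε1, hε⟩ := hline u hu
  suffices hK : ∀ x, ρ m x = ε • x by
    rcases hε1 with rfl | rfl
    · exact Or.inl (LinearMap.ext fun x => by simp [hK x])
    · exact Or.inr (LinearMap.ext fun x => by simp [hK x])
  set K : Submodule E V := LinearMap.eqLocus (ρ m) (ε • LinearMap.id) with hK
  have hKmem : ∀ x, x ∈ K ↔ ρ m x = ε • x := fun x => Iff.rfl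
  have hall : ∀ v, B v v = c₀ → v ∈ K := by
    intro v hv
    rw [hKmem]
    obtain ⟨ε', hε1', hε'⟩ := hline v hv
    by_cases huv : B u v = 0
    · have hne : B v v ≠ 0 := by rw [hv]; exact hc₀
      have hT := nondegOn_cut hs hB (nondegOn_top hs hB) (a := v) trivial hne
      have huT : u ∈ cut B ⊤ v := (mem_cut B).2 ⟨trivial, by rw [hs, huv]⟩
      obtain ⟨z, hzT, hz⟩ := exists_value hs hB h2 (nondegOn_cut hs hB hT huT (by rw [hu]; exact hc₀)) (by
        have := finrank_cut_add B (⊤ : Submodule E V) v
        have := finrank_cut_add B (cut B ⊤ v) u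
        rw [finrank_top] at *; omega) (neg_ne_zero.2 hc₀)
      simp only [mem_cut] at hzT
      set w := u + v + z
      have hw : B w w = c₀ := by
        rw [q_add hs, q_add hs, hu, hv, hz, huv, map_add, LinearMap.add_apply, hzT.2, hzT.1.2]; ring
      obtain ⟨ε'', hε1'', hε''⟩ := hline w hw
      have e1 := hconn w u hw hu (by
        rw [hs, map_add, map_add, hu, huv, hzT.2, add_zero, add_zero]; exact hc₀) _ _ hε'' hε hε1''
      have e2 := hconn w v hw hv (by
        rw [hs, map_add, map_add, hv, hs v u, huv, hzT.1.2, add_zero, zero_add]; exact hc₀) _ _ hε'' hε' hε1''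
      rw [hε', ← e1.symm.trans e2]
    · rw [hε', ← hconn u v hu hv huv ε ε' hε hε' hε1]
  intro x
  rw [← hKmem]
  have hsub : cut B ⊤ u ≤ K := by
    obtain ⟨y, hy, hy0⟩ := exists_value hs hB h2
      (nondegOn_cut hs hB (nondegOn_top hs hB) (a := u) trivial (by rw [hu]; exact hc₀)) (by
        have := finrank_cut_add B (⊤ : Submodule E V) u
        rw [finrank_top] at this; omega) one_ne_zero
    refine mem_of_anisotropic hs hB h2 hy (by rw [hy0]; exact one_ne_zero) fun z hz hz0 => ?_
    have hT := nondegOn_cut hs hB (nondegOn_cut hs hB (nondegOn_top hs hB) (a := u) trivial (by rw [hu]; exact hc₀))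
      hz hz0
    obtain ⟨w, hwT, hw⟩ := exists_value' hs hB h2 hT (by
      have := finrank_cut_add B (⊤ : Submodule E V) u
      have := finrank_cut_add B (cut B ⊤ u) z
      rw [finrank_top] at *; omega) (c₀ - B z z)
    simp only [mem_cut] at hwT
    have h1 : B (w + z) (w + z) = c₀ := by rw [q_add hs, hw, hs w z, hwT.2]; ring
    have h3 : B (w + -z) (w + -z) = c₀ := by
      rw [q_add hs, hw]; simp only [map_neg, LinearMap.neg_apply, neg_neg, hs w z, hwT.2]; ring
    have h4 := K.smul_mem ((2 : E)⁻¹) (K.sub_mem (hall _ h1) (hall _ h3))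
    rwa [show (2 : E)⁻¹ • (w + z - (w + -z)) = z by
      match_scalars <;> field_simp <;> ring] at h4
  have hx : x - (B u x / c₀) • u ∈ K := hsub ((mem_cut B).2 ⟨trivial, by
    rw [map_sub, map_smul, hu, smul_eq_mul, div_mul_cancel₀ _ hc₀, sub_self]⟩)
  have := K.add_mem hx (K.smul_mem (B u x / c₀) ((hKmem u).2 hε))
  rwa [sub_add_cancel] at this

/-- The singular points of a three-dimensional space, in a frame. -/
noncomputable def pt (e f z : V) : Option E → V
  | none => e
  | some s => f + s • z - (s ^ 2 * B z z / 2) • e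

/-- In dimension three the group fixes every singular line. -/
theorem singular_line_fixed (hd : finrank E V = 3)
    (heich : ∀ e w, B e e = 0 → B e w = 0 → ∀ g, ∃ g', ρ g' * eich B e w = eich B e w * ρ g)
    (m : G) {e : V} (he : B e e = 0) : ∃ c : E, ρ m e = c • e := by
  classical
  by_cases he0 : e = 0
  · exact ⟨0, by simp [he0]⟩
  obtain ⟨f, z, hff, hef, hez, hfz, hzz⟩ := exists_frame hs hB h2 (by omega) he he0
  have hfe : B f e = 1 := by rw [hs, hef]
  have hze : B z e = 0 := by rw [hs, hez]
  have hzf : B z f = 0 := by rw [hs, hfz]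
  have hrep : ∀ x, x = B f x • e + B e x • f + (B z x / B z z) • z := by
    have hli : LinearIndependent E ![e, f, z] := by
      rw [Fintype.linearIndependent_iff]
      intro g hg
      simp only [Fin.sum_univ_three, Matrix.cons_val_zero, Matrix.cons_val_one, Matrix.cons_val] at hg
      have a1 := congrArg (B f) hg
      have a2 := congrArg (B e) hg
      have a3 := congrArg (B z) hg
      simp only [map_add, map_smul, map_zero, hfe, hff, hfz, he, hef, hez, hze, hzf, smul_eq_mul, mul_one,
        mul_zero, add_zero, zero_add] at a1 a2 a3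
      intro i
      fin_cases i
      · exact a1
      · exact a2
      · exact (mul_eq_zero.1 a3).resolve_right hzz
    intro x
    have hx := (hli.span_eq_top_of_card_eq_finrank (by simp [hd])).ge (Submodule.mem_top (x := x))
    rw [Submodule.mem_span_range_iff_exists_fun] at hx
    obtain ⟨g, rfl⟩ := hx
    simp only [Fin.sum_univ_three, Matrix.cons_val_zero, Matrix.cons_val_one, Matrix.cons_val, map_add, map_smul,
      hfe, hff, hfz, he, hef, hez, hze, hzf, smul_eq_mul, mul_one, mul_zero, add_zero, zero_add,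
      mul_div_cancel_right₀ _ hzz]
  set P := pt (B := B) e f z with hP
  have hPe : ∀ i, B e (P i) = if i = none then 0 else 1 := by
    rintro (_ | s)
    · simpa [hP, pt] using he
    · simp [hP, pt, he, hef, hez]
  have hPz : ∀ s, B z (P (some s)) = s * B z z := fun s => by simp [hP, pt, hze, hzf]
  have hP0 : ∀ i, P i ≠ 0 := by
    rintro (_ | s) h
    · exact he0 h
    · have := hPe (some s); rw [h] at this; simp at this
  have hPq : ∀ i, B (P i) (P i) = 0 := by
    rintro (_ | s)
    · exact he
    · simp [hP, pt, he, hef, hez, hff, hfz, hfe, hze, hzf]; field_simp; ring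
  have hex : ∀ x, B x x = 0 → x ≠ 0 → ∃ i, x ∈ Submodule.span E {P i} := by
    intro x hx hx0
    have h1 := hrep x
    by_cases hβ : B e x = 0
    · refine ⟨none, Submodule.mem_span_singleton.2 ⟨B f x, ?_⟩⟩
      rw [hβ, zero_smul, add_zero] at h1
      have h3 : B x x = (B z x / B z z) ^ 2 * B z z := by
        rw [h1, q_add hs, q_smul hs, q_smul hs, he, map_smul, map_smul, LinearMap.smul_apply]
        simp [hez, hze, hzz]
      rw [hx, eq_comm, mul_eq_zero, or_iff_left hzz, sq_eq_zero_iff] at h3
      rw [h3, zero_smul, add_zero] at h1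
      exact h1.symm
    · set s := B z x / B z z / B e x with hs'
      refine ⟨some s, Submodule.mem_span_singleton.2 ⟨B e x, ?_⟩⟩
      have h3 : B x x = 2 * B f x * B e x + (B z x / B z z) ^ 2 * B z z := by
        conv_lhs => rw [h1]
        simp only [map_add, map_smul, LinearMap.add_apply, LinearMap.smul_apply, he, hef, hfe, hff, hez, hze, hfz,
          hzf, smul_eq_mul]
        ring
      have hf' : B f x = -(B e x * (s ^ 2 * B z z / 2)) := by
        have h4 : B e x * (2 * B f x + B e x * s ^ 2 * B z z) = 0 := by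
          have h5 : B z x / B z z = s * B e x := by rw [hs', div_mul_cancel₀ _ hβ]
          rw [h5] at h3
          linear_combination -h3 + hx
        have h6 := (mul_eq_zero.1 h4).resolve_left hβ
        field_simp
        linear_combination h6
      show B e x • (f + s • z - (s ^ 2 * B z z / 2) • e) = x
      conv_rhs => rw [h1, hf', show B z x / B z z = s * B e x by rw [hs', div_mul_cancel₀ _ hβ]]
      module
  have huniq : ∀ i j, P i ∈ Submodule.span E {P j} → i = j := by
    intro i j h
    obtain ⟨t, ht⟩ := Submodule.mem_span_singleton.1 h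
    have ht0 : t ≠ 0 := fun h0 => hP0 i (by rw [← ht, h0, zero_smul])
    have h1 := congrArg (B e) ht
    rw [map_smul, hPe, hPe, smul_eq_mul] at h1
    rcases i with _ | s <;> rcases j with _ | s'
    · rfl
    · simp [ht0] at h1
    · simp at h1
    · simp only [reduceCtorEq, ↓reduceIte, mul_one] at h1
      have h3 := congrArg (B z) ht
      rw [map_smul, hPz, hPz, h1, one_smul] at h3
      rw [mul_right_cancel₀ hzz h3.symm.symm]
  have hsing : ∀ g i, ∃ j, ρ g (P i) ∈ Submodule.span E {P j} := fun g i => hex _ (by rw [hiso, hPq]) (fun h => by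
    refine hP0 i ?_
    have := congrArg (ρ g⁻¹) h
    rwa [map_zero, ← Module.End.mul_apply, ← map_mul, inv_mul_cancel, map_one, Module.End.one_apply] at this)
  choose act hact using hsing
  have hact_eq : ∀ g i j, ρ g (P i) ∈ Submodule.span E {P j} → act g i = j := by
    intro g i j h
    obtain ⟨t, ht⟩ := Submodule.mem_span_singleton.1 (hact g i)
    have ht0 : t ≠ 0 := fun h0 => by
      rw [h0, zero_smul] at ht
      refine hP0 i ?_
      have := congrArg (ρ g⁻¹) ht.symm
      rwa [map_zero, ← Module.End.mul_apply, ← map_mul, inv_mul_cancel, map_one, Module.End.one_apply] at this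
    rw [← ht, Submodule.smul_mem_iff _ ht0] at h
    exact huniq _ _ h
  have hone' : ∀ i, act 1 i = i := fun i => hact_eq 1 i i (by simp [Submodule.mem_span_singleton_self])
  have hmul : ∀ g g' i, act (g * g') i = act g (act g' i) := fun g g' i => hact_eq _ _ _ (by
    obtain ⟨t, ht⟩ := Submodule.mem_span_singleton.1 (hact g' i)
    rw [map_mul, Module.End.mul_apply, ← ht, map_smul]
    exact Submodule.smul_mem _ _ (hact g _))
  let π : G →* Equiv.Perm (Option E) := MonoidHom.mk'
    (fun g => ⟨act g, act g⁻¹, fun i => by rw [← hmul, inv_mul_cancel, hone'],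
      fun i => by rw [← hmul, mul_inv_cancel, hone']⟩)
    (fun g g' => Equiv.ext (hmul g g'))
  have : Fintype E := Fintype.ofFinite E
  have hodd : Odd (Nat.card π.range) := by
    by_contra h
    rw [Nat.not_odd_iff_even, even_iff_two_dvd] at h
    obtain ⟨⟨_, g, rfl⟩, hg⟩ := exists_prime_orderOf_dvd_card' (p := 2) h
    rw [← Subgroup.orderOf_coe] at hg
    have hNg : π g ^ N = 1 := by
      rw [← map_pow]
      refine Equiv.ext fun i => hact_eq _ _ i ?_
      rw [map_pow]
      rcases hpow g with h' | h' <;> rw [h']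
      · exact Submodule.mem_span_singleton_self _
      · exact Submodule.neg_mem _ (Submodule.mem_span_singleton_self _)
    have := orderOf_dvd_of_pow_eq_one hNg
    rw [hg] at this
    exact (Nat.not_even_iff_odd.2 hN) (even_iff_two_dvd.2 this)
  have horb : Nat.card (MulAction.orbit π.range (none : Option E)) ∣ Nat.card π.range :=
    ⟨Nat.card (MulAction.stabilizer π.range (none : Option E)), by
      rw [← Nat.card_prod]
      exact (Nat.card_congr (MulAction.orbitProdStabilizerEquivGroup π.range (none : Option E))).symm⟩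
  suffices hfix : ∀ g, act g none = none by
    have h := hact m none
    rw [hfix m] at h
    obtain ⟨t, ht⟩ := Submodule.mem_span_singleton.1 h
    exact ⟨t, ht.symm⟩
  by_contra hne
  push Not at hne
  obtain ⟨g, hg⟩ := hne
  obtain ⟨s₀, hs₀⟩ := Option.ne_none_iff_exists'.1 hg
  have htrans : ∀ s, ∃ g', act g' none = some s := by
    intro s
    obtain ⟨g', hg'⟩ := heich e ((s₀ - s) • z) he (by rw [map_smul, hez, smul_zero]) g
    refine ⟨g', hact_eq _ _ _ ?_⟩
    have h1 := LinearMap.congr_fun hg' e
    simp only [Module.End.mul_apply] at h1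
    have hee : eich B e ((s₀ - s) • z) e = e := by
      rw [eich_apply, he, map_smul, LinearMap.smul_apply, hze]; simp
    have hes : eich B e ((s₀ - s) • z) (P (some s₀)) = P (some s) := by
      simp only [eich_apply, hP, pt, map_add, map_sub, map_smul, LinearMap.smul_apply, he, hef, hez, hzf, hze,
        smul_eq_mul]
      match_scalars <;> field_simp <;> ring
    rw [hee] at h1
    obtain ⟨t, ht⟩ := Submodule.mem_span_singleton.1 (hs₀ ▸ hact g none)
    show ρ g' (P none) ∈ _
    rw [show P none = e from rfl, h1, show ρ g e = t • P (some s₀) from ht.symm, map_smul, hes]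
    exact Submodule.smul_mem _ _ (Submodule.mem_span_singleton_self _)
  have horbit : MulAction.orbit π.range (none : Option E) = Set.univ := by
    refine Set.eq_univ_of_forall fun i => ?_
    rcases i with _ | s
    · exact MulAction.mem_orbit_self _
    · obtain ⟨g', hg'⟩ := htrans s
      exact ⟨⟨π g', g', rfl⟩, hg'⟩
  rw [horbit, Nat.card_congr (Equiv.Set.univ _), Nat.card_eq_fintype_card, Fintype.card_option] at horb
  have hE : Fintype.card E % 2 = 1 := FiniteField.odd_card_of_char_ne_two (fun h => h2 (by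
    have := ringChar.Nat.cast_ringChar (R := E)
    rw [h] at this
    exact_mod_cast this))
  have := (Nat.odd_iff.1 (hodd.of_dvd_nat horb))
  omega

/-- In dimension three the group consists of `±1`. -/
theorem eq_one_or_neg_of_three (hd : finrank E V = 3)
    (heich : ∀ e w, B e e = 0 → B e w = 0 → ∀ g, ∃ g', ρ g' * eich B e w = eich B e w * ρ g)
    (m : G) : ρ m = 1 ∨ ρ m = -1 := by
  obtain ⟨u, -, hu⟩ := exists_value hs hB h2 (nondegOn_top hs hB) (by rw [finrank_top]; omega) one_ne_zero
  obtain ⟨x, hx, hxx⟩ := exists_value hs hB h2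
    (nondegOn_cut hs hB (nondegOn_top hs hB) (a := u) trivial (by rw [hu]; exact one_ne_zero)) (by
      have := finrank_cut_add B (⊤ : Submodule E V) u
      rw [finrank_top] at this; omega) (neg_ne_zero.2 one_ne_zero)
  rw [mem_cut] at hx
  set e := u + x with he'
  have he : B e e = 0 := by rw [q_add hs, hu, hxx, hx.2]; ring
  have he0 : e ≠ 0 := fun h => by
    have : B u e = 1 := by rw [he', map_add, hu, hx.2, add_zero]
    rw [h, map_zero] at this
    exact zero_ne_one this
  obtain ⟨f, z, hff, hef, hez, hfz, hzz⟩ := exists_frame hs hB h2 (by omega) he he0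
  have hfe : B f e = 1 := by rw [hs, hef]
  have hze : B z e = 0 := by rw [hs, hez]
  have hzf : B z f = 0 := by rw [hs, hfz]
  have hfixe := fun {y : V} (hy : B y y = 0) =>
    singular_line_fixed hs hB h2 ρ hN hiso hpow hd heich m hy
  obtain ⟨α, hα⟩ := hfixe he
  obtain ⟨β, hβ⟩ := hfixe hff
  set v := f + z - (B z z / 2) • e with hv
  have hvv : B v v = 0 := by
    simp only [hv, map_add, map_sub, map_smul, LinearMap.add_apply, LinearMap.sub_apply, LinearMap.smul_apply, he,
      hef, hez, hff, hfz, hfe, hze, hzf, smul_eq_mul]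
    field_simp
    ring
  obtain ⟨c, hc⟩ := hfixe hvv
  have hαβ : α * β = 1 := by
    have := hiso m e f
    simp only [hα, hβ, hef, map_smul, LinearMap.smul_apply, smul_eq_mul, mul_one] at this
    linear_combination this
  have hrho : ρ m z = c • v - β • f + ((B z z / 2) * α) • e := by
    rw [hv, map_sub, map_add, map_smul, hα, hβ] at hc
    linear_combination (norm := module) hc
  have hcv : ρ m z = (c - β) • f + c • z + ((B z z / 2) * α - c * (B z z / 2)) • e := by
    rw [hrho, hv]; module
  have e1 := hiso m e z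
  have e2 := hiso m f z
  rw [hα, hcv, hez] at e1
  rw [hβ, hcv, hfz] at e2
  simp only [map_add, map_smul, LinearMap.smul_apply, he, hef, hez, hff, hfe, hfz, smul_eq_mul, mul_zero, mul_one,
    add_zero, zero_add] at e1 e2
  have hα0 : α ≠ 0 := fun h => by simp [h] at hαβ
  have hβ0 : β ≠ 0 := fun h => by simp [h] at hαβ
  have hc1 : c = β := by
    have h1 : α * (c - β) = 0 := by linear_combination e1
    exact sub_eq_zero.1 ((mul_eq_zero.1 h1).resolve_left hα0)
  have hc2 : α = c := by
    have h3 : β * ((α - c) * (B z z / 2)) = 0 := by linear_combination e2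
    exact sub_eq_zero.1 ((mul_eq_zero.1 ((mul_eq_zero.1 h3).resolve_left hβ0)).resolve_right (div_ne_zero hzz h2))
  have hli : LinearIndependent E ![e, f, z] := by
    rw [Fintype.linearIndependent_iff]
    intro g hg
    simp only [Fin.sum_univ_three, Matrix.cons_val_zero, Matrix.cons_val_one, Matrix.cons_val] at hg
    have a1 := congrArg (B f) hg
    have a2 := congrArg (B e) hg
    have a3 := congrArg (B z) hg
    simp only [map_add, map_smul, map_zero, hfe, hff, hfz, he, hef, hez, hze, hzf, smul_eq_mul, mul_one,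
      mul_zero, add_zero, zero_add] at a1 a2 a3
    intro i
    fin_cases i
    · exact a1
    · exact a2
    · exact (mul_eq_zero.1 a3).resolve_right hzz
  have hall : ρ m = c • (1 : Module.End E V) := by
    refine LinearMap.ext_on_range (hli.span_eq_top_of_card_eq_finrank (by simp [hd])) fun i => ?_
    fin_cases i
    · show ρ m e = c • e; rw [hα, hc2]
    · show ρ m f = c • f; rw [hβ, hc1]
    · show ρ m z = c • z; rw [hcv, hc1, hc2, hc1]; module
  have hcc : c * c = 1 := by rw [← hαβ, hc2, ← hc1]
  rcases mul_self_eq_one_iff.1 hcc with h | h <;> rw [h] at hall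
  · exact Or.inl (by rw [hall, one_smul])
  · exact Or.inr (by rw [hall, neg_one_smul])

end group

end CfsgLib.AutOrth.InvCore
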