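import Cfsg.Agent.AutOrth.InvShell
import Cfsg.Agent.AutOrth.InvCore
import Cfsg.Agent.Classical.Orth.Index
import Cfsg.Agent.AutOrthField.Generic
import Mathlib.LinearAlgebra.Dimension.Free

/-! The centraliser of a self-adjoint similarity whose square is a non-square scalar: the natural module becomes
an orthogonal space over a quadratic extension. -/

set_option autoImplicit false
set_option linter.unusedSectionVars false

namespace CfsgLib.AutOrth.InvCentral

open Cfsg Cfsg.Geo CfsgLib.OrthGeo CfsgLib.AutOrth Module InvCore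
open CfsgLib.Classical.Orth (refl refl_mul_refl_mem_omega not_exc_of_two_ne_zero)
open scoped Matrix MatrixGroups

variable {ι : Type} [Fintype ι] [DecidableEq ι] {F : Type*} [Field F] [Fintype F] {Q : (ι → F) → F}

/-- The setting: `E = F(s)` acts on the natural module with `s` acting as `g`. -/
structure Setting (g : quadSimilarityGroup Q) (lam : F) (E : Type*) [Field E] [Algebra F E]
    [Module E (ι → F)] [IsScalarTower F E (ι → F)] where
  /-- The square root of `lam`. -/
  s : E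
  nsq : ¬ IsSquare lam
  s_sq : s * s = algebraMap F E lam
  gen : ∀ e : E, ∃ x y : F, e = algebraMap F E x + algebraMap F E y * s
  smul_eq : ∀ v : ι → F, s • v = ((g : GL ι F) : Matrix ι ι F) *ᵥ v
  mul_eq : ∀ v, Q (((g : GL ι F) : Matrix ι ι F) *ᵥ v) = lam * Q v

variable {g : quadSimilarityGroup Q} {lam : F} {E : Type*} [Field E] [Finite E] [Algebra F E]
  [Module E (ι → F)] [IsScalarTower F E (ι → F)]

local notation "gM" => ((g : GL ι F) : Matrix ι ι F)

namespace Setting

variable (S : Setting g lam E)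
include S

lemma lam_ne_zero : lam ≠ 0 := fun h => S.nsq (h ▸ IsSquare.zero)

lemma smul_decomp (x y : F) (v : ι → F) :
    (algebraMap F E x + algebraMap F E y * S.s) • v = x • v + y • gM *ᵥ v := by
  rw [add_smul, mul_smul, S.smul_eq, algebraMap_smul, algebraMap_smul]

lemma g_g (v : ι → F) : gM *ᵥ (gM *ᵥ v) = lam • v := by
  rw [← S.smul_eq, ← S.smul_eq, ← mul_smul, S.s_sq, algebraMap_smul]

lemma eq_zero {x y : F} (h : algebraMap F E x + algebraMap F E y * S.s = 0) : x = 0 ∧ y = 0 := by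
  by_cases hy : y = 0
  · subst hy
    rw [map_zero, zero_mul, add_zero, map_eq_zero] at h
    exact ⟨h, rfl⟩
  exfalso
  refine S.nsq ⟨x / y, (algebraMap F E).injective ?_⟩
  have hy' : algebraMap F E y ≠ 0 := (map_ne_zero _).2 hy
  rw [← S.s_sq, map_mul, map_div₀]
  field_simp
  linear_combination (algebraMap F E y * S.s - algebraMap F E x) * h

lemma ext {x y x' y' : F}
    (h : algebraMap F E x + algebraMap F E y * S.s = algebraMap F E x' + algebraMap F E y' * S.s) :
    x = x' ∧ y = y' := by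
  have := S.eq_zero (x := x - x') (y := y - y') (by rw [map_sub, map_sub]; linear_combination h)
  exact ⟨sub_eq_zero.1 this.1, sub_eq_zero.1 this.2⟩

lemma finrank_two : finrank F E = 2 := by
  let Φ : (F × F) →ₗ[F] E :=
    { toFun := fun p => algebraMap F E p.1 + algebraMap F E p.2 * S.s
      map_add' := fun p q => by simp only [Prod.fst_add, Prod.snd_add, map_add]; ring
      map_smul' := fun c p => by
        simp only [Prod.smul_fst, Prod.smul_snd, smul_eq_mul, map_mul, RingHom.id_apply]; rw [Algebra.smul_def]; ring }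
  have hb : Function.Bijective Φ := by
    refine ⟨fun p q h => ?_, fun e => ?_⟩
    · obtain ⟨h1, h3⟩ := S.ext h
      exact Prod.ext h1 h3
    · obtain ⟨x, y, rfl⟩ := S.gen e
      exact ⟨(x, y), rfl⟩
  rw [← (LinearEquiv.ofBijective Φ hb).finrank_eq, finrank_prod, finrank_self]

lemma finrank_eq : 2 * finrank E (ι → F) = Fintype.card ι := by
  have : FiniteDimensional F E := FiniteDimensional.of_finrank_eq_succ S.finrank_two
  rw [← finrank_fintype_fun_eq_card (R := F), ← S.finrank_two, finrank_mul_finrank]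

variable (hQ : IsNondegenerateQuadraticForm Q)
include hQ

lemma b_g (x y : ι → F) : bform hQ (gM *ᵥ x) (gM *ᵥ y) = lam * bform hQ x y := by
  have h1 := S.mul_eq (x + y)
  rw [Matrix.mulVec_add, q_add hQ, q_add hQ x y, S.mul_eq, S.mul_eq] at h1
  linear_combination h1

lemma b_g_left (x y : ι → F) : bform hQ (gM *ᵥ x) y = bform hQ x (gM *ᵥ y) := by
  have h := S.b_g hQ x (gM *ᵥ y)
  rw [S.g_g, map_smul, smul_eq_mul] at h
  exact mul_left_cancel₀ S.lam_ne_zero h

omit S in
/-- The form over `E`, as a function. -/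
noncomputable def bFun (S : Setting g lam E) (hQ : IsNondegenerateQuadraticForm Q) (x y : ι → F) : E :=
  algebraMap F E (bform hQ x y) + algebraMap F E (bform hQ (gM *ᵥ x) y / lam) * S.s

lemma bFun_symm (x y : ι → F) : S.bFun hQ x y = S.bFun hQ y x := by
  rw [bFun, bFun, b_symm hQ x y, S.b_g_left hQ x, b_symm hQ x]

lemma bFun_add (x x' y : ι → F) : S.bFun hQ (x + x') y = S.bFun hQ x y + S.bFun hQ x' y := by
  simp only [bFun, Matrix.mulVec_add, map_add, LinearMap.add_apply, add_div]; ring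

lemma bFun_smul (e : E) (x y : ι → F) : S.bFun hQ (e • x) y = e * S.bFun hQ x y := by
  obtain ⟨a, b, rfl⟩ := S.gen e
  rw [S.smul_decomp]
  have hl := S.lam_ne_zero
  simp only [bFun, Matrix.mulVec_add, Matrix.mulVec_smul, S.g_g, map_add, map_smul, LinearMap.add_apply,
    LinearMap.smul_apply, smul_eq_mul, add_div, map_mul]
  rw [mul_div_assoc a, mul_div_assoc b (lam * _), mul_div_cancel_left₀ _ hl, map_mul, map_mul]
  have e : algebraMap F E (bform hQ (gM *ᵥ x) y) =
      algebraMap F E lam * algebraMap F E (bform hQ (gM *ᵥ x) y / lam) := by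
    rw [← map_mul, mul_div_cancel₀ _ hl]
  rw [e]
  linear_combination (-(algebraMap F E b * algebraMap F E (bform hQ (gM *ᵥ x) y / lam))) * S.s_sq

omit S in
/-- The form over `E`. -/
noncomputable def bE (S : Setting g lam E) (hQ : IsNondegenerateQuadraticForm Q) :
    LinearMap.BilinForm E (ι → F) :=
  LinearMap.mk₂ E (S.bFun hQ) (S.bFun_add hQ) (S.bFun_smul hQ)
    (fun x y y' => by rw [S.bFun_symm hQ, S.bFun_add hQ, S.bFun_symm hQ y, S.bFun_symm hQ y'])
    (fun e x y => by rw [S.bFun_symm hQ, S.bFun_smul hQ, S.bFun_symm hQ y]; rfl)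

lemma bE_apply (x y : ι → F) : S.bE hQ x y =
    algebraMap F E (bform hQ x y) + algebraMap F E (bform hQ (gM *ᵥ x) y / lam) * S.s := rfl

lemma bE_symm (x y : ι → F) : S.bE hQ x y = S.bE hQ y x := S.bFun_symm hQ x y

lemma bE_nondeg (u : ι → F) (hu : u ≠ 0) : ∃ y, S.bE hQ u y ≠ 0 := by
  by_contra hh
  push Not at hh
  exact hu ((b_nondeg hQ).1 u fun y => (S.eq_zero (S.bE_apply hQ u y ▸ hh y)).1)

lemma bE_eq_zero {x y : ι → F} (h : S.bE hQ x y = 0) : bform hQ x y = 0 ∧ bform hQ (gM *ᵥ x) y = 0 := by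
  obtain ⟨h1, h3⟩ := S.eq_zero (S.bE_apply hQ x y ▸ h)
  exact ⟨h1, (div_eq_zero_iff.1 h3).resolve_right S.lam_ne_zero⟩

variable (h2 : (2 : F) ≠ 0)
include h2

lemma two_ne_zero_E : (2 : E) ≠ 0 := by rw [← map_ofNat (algebraMap F E)]; exact (map_ne_zero _).2 h2

omit S h2 in
/-- The vector completing `w` to an orthogonal basis of its `E`-line. -/
noncomputable def mate (_ : Setting g lam E) (hQ : IsNondegenerateQuadraticForm Q) (w : ι → F) : ι → F :=
  gM *ᵥ w - (bform hQ (gM *ᵥ w) w / (2 * Q w)) • w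

lemma q_mate {w : ι → F} (hw : Q w ≠ 0) :
    Q (S.mate hQ w) = (lam * Q w ^ 2 - (bform hQ (gM *ᵥ w) w / 2) ^ 2) / Q w := by
  rw [mate, q_sub hQ, S.mul_eq, q_smul hQ, map_smul, smul_eq_mul]
  field_simp
  ring

lemma mate_ne_zero {w : ι → F} (hw : Q w ≠ 0) : Q (S.mate hQ w) ≠ 0 := by
  rw [S.q_mate hQ h2 hw]
  refine div_ne_zero (fun h => S.nsq ⟨bform hQ (gM *ᵥ w) w / 2 / Q w, ?_⟩) hw
  field_simp at h ⊢
  linear_combination h

lemma b_mate {w : ι → F} (hw : Q w ≠ 0) : bform hQ w (S.mate hQ w) = 0 := by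
  rw [mate, map_sub, map_smul, b_symm hQ w, b_self hQ, smul_eq_mul,
    div_mul_cancel₀ _ (mul_ne_zero h2 hw), sub_self]

/-- The reflection over `E` as two reflections over `F`. -/
lemma rfl'_eq {w : ι → F} (hw : Q w ≠ 0) (x : ι → F) : rfl' (S.bE hQ) w x =
    x - ((Q w)⁻¹ * bform hQ w x) • w -
      ((Q (S.mate hQ w))⁻¹ * bform hQ (S.mate hQ w) x) • S.mate hQ w := by
  have h2E := S.two_ne_zero_E hQ h2
  set u₁ := (Q (S.mate hQ w))⁻¹ * bform hQ (S.mate hQ w) x with hu₁
  set c := bform hQ (gM *ᵥ w) w / (2 * Q w) with hc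
  have hb0 : S.bE hQ w w ≠ 0 := fun h => by
    have := (S.bE_eq_zero hQ h).1
    rw [b_self hQ] at this
    exact mul_ne_zero h2 hw this
  have key : 2 * S.bE hQ w x / S.bE hQ w w =
      algebraMap F E ((Q w)⁻¹ * bform hQ w x - u₁ * c) + algebraMap F E u₁ * S.s := by
    rw [div_eq_iff hb0, S.bE_apply, S.bE_apply, b_self hQ]
    have hq := S.q_mate hQ h2 hw
    have hm : bform hQ (S.mate hQ w) x = bform hQ (gM *ᵥ w) x - c * bform hQ w x := by
      rw [mate, ← hc, map_sub, map_smul, LinearMap.sub_apply, LinearMap.smul_apply, smul_eq_mul]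
    have e1 : ((Q w)⁻¹ * bform hQ w x - u₁ * c) * (2 * Q w) + u₁ * (bform hQ (gM *ᵥ w) w / lam) * lam =
        2 * bform hQ w x := by
      rw [hc]; field_simp [S.lam_ne_zero]; ring
    have e3 : ((Q w)⁻¹ * bform hQ w x - u₁ * c) * (bform hQ (gM *ᵥ w) w / lam) + u₁ * (2 * Q w) =
        2 * (bform hQ (gM *ᵥ w) x / lam) := by
      have h4 : u₁ * Q (S.mate hQ w) = bform hQ (gM *ᵥ w) x - c * bform hQ w x := by
        rw [hu₁, ← hm]; field_simp [S.mate_ne_zero hQ h2 hw]
      rw [hq] at h4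
      field_simp [S.lam_ne_zero] at h4 ⊢
      rw [hc] at h4 ⊢
      field_simp at h4 ⊢
      linear_combination h4
    have a1 := congrArg (algebraMap F E) e1
    have a3 := congrArg (algebraMap F E) e3
    simp only [map_add, map_mul, map_ofNat] at a1 a3 ⊢
    linear_combination -a1 - S.s * a3 -
      (algebraMap F E u₁ * algebraMap F E (bform hQ (gM *ᵥ w) w / lam)) * S.s_sq
  rw [rfl'_apply, key, S.smul_decomp, mate, ← hc]
  module

/-- Two `E`-reflections give an element of `Omega`. -/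
lemma exists_two_refl {w w' : ι → F} (hw : Q w ≠ 0) (hw' : Q w' ≠ 0) (ho : S.bE hQ w w' = 0)
    (h1 : IsSquare (Q w * Q w')) (h3 : IsSquare (Q (S.mate hQ w) * Q (S.mate hQ w'))) :
    ∃ h : Omega F Q, ∀ x, act Q h x = rfl' (S.bE hQ) w (rfl' (S.bE hQ) w' x) := by
  have hexc : ¬ (Nat.card F = 2 ∧ Fintype.card ι = 4) := not_exc_of_two_ne_zero h2
  have hm := S.mate_ne_zero hQ h2 hw
  have hm' := S.mate_ne_zero hQ h2 hw'
  refine ⟨⟨_, refl_mul_refl_mem_omega hQ hexc hm' hm (by rwa [mul_comm])⟩ *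
    ⟨_, refl_mul_refl_mem_omega hQ hexc hw' hw (by rwa [mul_comm])⟩, fun x => ?_⟩
  obtain ⟨o1, o2⟩ := S.bE_eq_zero hQ ho
  have o2' : bform hQ w (gM *ᵥ w') = 0 := by rw [← S.b_g_left hQ, o2]
  have o3 : bform hQ (gM *ᵥ w) (gM *ᵥ w') = 0 := by rw [S.b_g hQ, o1, mul_zero]
  have p1 : bform hQ (S.mate hQ w) (S.mate hQ w') = 0 := by
    simp only [mate, map_sub, map_smul, LinearMap.sub_apply, LinearMap.smul_apply, o1, o2, o2', o3, smul_eq_mul,
      mul_zero, sub_zero]
  have p2 : bform hQ (S.mate hQ w) w' = 0 := by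
    simp only [mate, map_sub, map_smul, LinearMap.sub_apply, LinearMap.smul_apply, o1, o2, smul_eq_mul,
      mul_zero, sub_zero]
  have p3 : bform hQ w (S.mate hQ w') = 0 := by
    simp only [mate, map_sub, map_smul, o1, o2', smul_eq_mul, mul_zero, sub_zero]
  have p3' : bform hQ (S.mate hQ w') w = 0 := by rw [b_symm hQ, p3]
  have q1 := S.b_mate hQ h2 hw
  have q2 : bform hQ (S.mate hQ w') w' = 0 := by rw [b_symm hQ, S.b_mate hQ h2 hw']
  rw [map_mul, Module.End.mul_apply, act_apply, act_apply]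
  simp only [Subgroup.coe_mul, Units.val_mul, ← Matrix.mulVec_mulVec, Classical.Orth.coe_refl,
    reflection_mulVec hQ, S.rfl'_eq hQ h2 hw, S.rfl'_eq hQ h2 hw', map_sub, map_smul, smul_eq_mul, o1, p1, p2,
    p3, p3', q1, q2, b_symm hQ (S.mate hQ w) w, mul_zero, zero_mul, sub_zero, zero_smul]
  abel

/-- A single `E`-reflection in `Omega`. -/
lemma exists_one_refl {w : ι → F} (hw : Q w ≠ 0) (h1 : IsSquare (Q w * Q (S.mate hQ w))) :
    ∃ h : Omega F Q, ∀ x, act Q h x = rfl' (S.bE hQ) w x := by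
  refine ⟨⟨_, refl_mul_refl_mem_omega hQ (not_exc_of_two_ne_zero h2) hw (S.mate_ne_zero hQ h2 hw) h1⟩,
    fun x => ?_⟩
  rw [act_apply]
  simp only [Subgroup.coe_mul, Units.val_mul, ← Matrix.mulVec_mulVec, Classical.Orth.coe_refl,
    reflection_mulVec hQ, S.rfl'_eq hQ h2 hw, map_sub, map_smul, smul_eq_mul, b_symm hQ (S.mate hQ w) w,
    S.b_mate hQ h2 hw, mul_zero, sub_zero]

lemma commutesWith_of {h : Omega F Q} (T : (ι → F) →ₗ[E] (ι → F)) (hT : ∀ x, act Q h x = T x) :
    CommutesWith g h := fun v => by rw [hT, hT, ← S.smul_eq, ← S.smul_eq, map_smul]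

lemma components {a : ι → F} {c d : F}
    (h : S.bE hQ a a = algebraMap F E c + algebraMap F E d * S.s) :
    2 * Q a = c ∧ bform hQ (gM *ᵥ a) a / lam = d := by
  rw [S.bE_apply, b_self hQ] at h
  exact S.ext h

lemma q_of_bE_eq {a a' : ι → F} (h : S.bE hQ a a = S.bE hQ a' a') :
    Q a = Q a' ∧ bform hQ (gM *ᵥ a) a = bform hQ (gM *ᵥ a') a' := by
  obtain ⟨e1, e3⟩ := S.components hQ h2 ((h.trans (S.bE_apply hQ a' a')))
  rw [b_self hQ] at e1
  exact ⟨mul_left_cancel₀ h2 e1, (div_left_inj' S.lam_ne_zero).1 e3⟩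

/-- Two reflections at orthogonal vectors of equal norm. -/
lemma exists_pair_refl {w w' : ι → F} (hw : Q w ≠ 0) (ho : S.bE hQ w w' = 0)
    (he : S.bE hQ w w = S.bE hQ w' w') :
    ∃ h : Omega F Q, CommutesWith g h ∧ ∀ x, act Q h x = rfl' (S.bE hQ) w (rfl' (S.bE hQ) w' x) := by
  obtain ⟨e1, e3⟩ := S.q_of_bE_eq hQ h2 he
  have hw' : Q w' ≠ 0 := e1 ▸ hw
  obtain ⟨h, hh⟩ := S.exists_two_refl hQ h2 hw hw' ho ⟨Q w, by rw [e1]⟩
    ⟨Q (S.mate hQ w), by rw [S.q_mate hQ h2 hw, S.q_mate hQ h2 hw', e1, e3]⟩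
  exact ⟨h, S.commutesWith_of hQ h2 ((rfl' (S.bE hQ) w).comp (rfl' (S.bE hQ) w')) hh, hh⟩

variable (hd : 10 ≤ Fintype.card ι)
include hd

lemma five_le : 5 ≤ finrank E (ι → F) := by have := S.finrank_eq; omega

/-- The subgroup consists of scalars. -/
theorem hM_complex (P : Subgroup (Omega F Q)) (N : ℕ) (hN : Odd N)
    (hpow : ∀ k ∈ P, act Q k ^ N = 1 ∨ act Q k ^ N = -1) (hcomm : ∀ k ∈ P, CommutesWith g k)
    (hnorm : ∀ h, CommutesWith g h → ∀ k ∈ P, h * k * h⁻¹ ∈ P)
    (k : Omega F Q) (hkP : k ∈ P) : act Q k = 1 ∨ act Q k = -1 := by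
  have h2E := S.two_ne_zero_E hQ h2
  have hlin : ∀ (k : Omega F Q), CommutesWith g k → ∀ (e : E) v, act Q k (e • v) = e • act Q k v := by
    intro k hk e v
    obtain ⟨x, y, rfl⟩ := S.gen e
    rw [S.smul_decomp, S.smul_decomp, map_add, map_smul, map_smul, hk v]
  let ρ : P →* Module.End E (ι → F) :=
    { toFun := fun k => { toFun := act Q (k : Omega F Q), map_add' := map_add _, map_smul' := hlin k (hcomm k k.2) }
      map_one' := LinearMap.ext fun v => by simp
      map_mul' := fun a b => LinearMap.ext fun v => by simp }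
  have hρ : ∀ (k : P) v, ρ k v = act Q (k : Omega F Q) v := fun k v => rfl
  have hiso : ∀ k x y, S.bE hQ (ρ k x) (ρ k y) = S.bE hQ x y := fun k x y => by
    rw [S.bE_apply, S.bE_apply, hρ, hρ, act_b hQ h2 (by omega), hcomm k k.2 x, act_b hQ h2 (by omega)]
  have hρpow : ∀ (k : P) (i : ℕ) v, (ρ k ^ i) v = (act Q (k : Omega F Q) ^ i) v := by
    intro k i
    induction i with
    | zero => simp
    | succ i ih => intro v; rw [pow_succ', pow_succ', Module.End.mul_apply, Module.End.mul_apply, hρ, ih]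
  have hρN : ∀ k : P, ρ k ^ N = 1 ∨ ρ k ^ N = -1 := fun k => by
    rcases hpow k k.2 with h | h
    · exact Or.inl (LinearMap.ext fun v => by rw [hρpow, h]; simp)
    · exact Or.inr (LinearMap.ext fun v => by rw [hρpow, h]; simp)
  have hnormρ : ∀ (h : Omega F Q) (T : (ι → F) →ₗ[E] (ι → F)), (∀ v, act Q h v = T v) →
      ∀ k : P, ∃ k' : P, ρ k' * T = T * ρ k := by
    intro h T hT k
    refine ⟨⟨_, hnorm h (S.commutesWith_of hQ h2 T hT) k k.2⟩, LinearMap.ext fun v => ?_⟩
    rw [Module.End.mul_apply, Module.End.mul_apply, hρ, ← hT, ← hT, hρ, ← Module.End.mul_apply (f := act Q _),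
      ← Module.End.mul_apply (f := act Q h), ← map_mul, ← map_mul, inv_mul_cancel_right]
  have hl := S.lam_ne_zero
  have hodd : Fintype.card F % 2 = 1 := FiniteField.odd_card_of_char_ne_two (fun h => h2 (by
    have := ringChar.Nat.cast_ringChar (R := F)
    rw [h] at this
    exact_mod_cast this))
  obtain ⟨z, c, hzc⟩ := FiniteField.exists_root_sum_quadratic
    (f := Polynomial.X ^ 2) (g := Polynomial.C (lam ^ 2) * Polynomial.X ^ 2 + Polynomial.C (-lam))
    (Polynomial.degree_X_pow 2)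
    (by rw [Polynomial.degree_add_eq_left_of_degree_lt] <;>
        simp [Polynomial.degree_C_mul_X_pow 2 (pow_ne_zero 2 hl), Polynomial.degree_C (neg_ne_zero.2 hl), Polynomial.degree_C hl]) hodd
  simp only [Polynomial.eval_add, Polynomial.eval_mul, Polynomial.eval_C, Polynomial.eval_pow,
    Polynomial.eval_X] at hzc
  have hN0 : 1 - lam * c ^ 2 ≠ 0 := fun h0 => by
    have hc : c ≠ 0 := fun hc => by rw [hc] at h0; simp at h0
    refine S.nsq ⟨c⁻¹, ?_⟩
    field_simp
    linear_combination -h0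
  set c₀ : E := algebraMap F E 2 + algebraMap F E (2 * c) * S.s with hc₀
  have hc₀0 : c₀ ≠ 0 := fun h => h2 (S.eq_zero (by rw [← hc₀]; exact h)).1
  have hinv : 2 / c₀ = algebraMap F E ((1 - lam * c ^ 2)⁻¹) + algebraMap F E (-c * (1 - lam * c ^ 2)⁻¹) * S.s := by
    rw [div_eq_iff hc₀0, hc₀]
    have e1 : algebraMap F E ((1 - lam * c ^ 2)⁻¹) * (1 - algebraMap F E lam * algebraMap F E c ^ 2) = 1 := by
      rw [← map_one (algebraMap F E), ← map_pow, ← map_mul (algebraMap F E) lam, ← map_sub, ← map_mul,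
        inv_mul_cancel₀ hN0]
    simp only [map_mul, map_neg, map_ofNat]
    linear_combination -2 * e1 + (2 * algebraMap F E ((1 - lam * c ^ 2)⁻¹) * algebraMap F E c ^ 2) * S.s_sq
  have h5 := S.five_le hQ h2 hd
  have hone : ∀ a, S.bE hQ a a = c₀ → ∀ g' : P, ∃ g'', ρ g'' * rfl' (S.bE hQ) a = rfl' (S.bE hQ) a * ρ g' := by
    intro a ha
    obtain ⟨e1, e3⟩ := S.components hQ h2 (ha.trans hc₀)
    have hQa : Q a = 1 := mul_left_cancel₀ h2 (by rw [e1, mul_one])
    have hB : bform hQ (gM *ᵥ a) a = lam * (2 * c) := by rw [← e3]; field_simp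
    have hwa : Q a ≠ 0 := by rw [hQa]; exact one_ne_zero
    obtain ⟨h, hh⟩ := S.exists_one_refl hQ h2 hwa ⟨z, by
      rw [S.q_mate hQ h2 hwa, hQa, hB]
      field_simp
      linear_combination -hzc⟩
    exact hnormρ h _ hh
  have hpair : ∀ w w', S.bE hQ w w = 2 / c₀ → S.bE hQ w' w' = 2 / c₀ → S.bE hQ w w' = 0 → ∀ g' : P, ∃ g'',
      ρ g'' * (rfl' (S.bE hQ) w * rfl' (S.bE hQ) w') = rfl' (S.bE hQ) w * rfl' (S.bE hQ) w' * ρ g' := by
    intro w w' hw hw' hww'
    obtain ⟨e1, -⟩ := S.components hQ h2 (hw.trans hinv)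
    have hQw : Q w ≠ 0 := fun h0 => by rw [h0, mul_zero] at e1; exact inv_ne_zero hN0 e1.symm
    obtain ⟨h, -, hh⟩ := S.exists_pair_refl hQ h2 hQw hww' (hw.trans hw'.symm)
    exact hnormρ h _ hh
  rcases eq_one_or_neg_of_five (S.bE_symm hQ) (S.bE_nondeg hQ) h2E ρ hN hiso hρN h5 hc₀0 hone hpair ⟨k, hkP⟩ with h | h
  · exact Or.inl (LinearMap.ext fun v => LinearMap.congr_fun h v)
  · exact Or.inr (LinearMap.ext fun v => LinearMap.congr_fun h v)

omit h2 hd in
lemma semi_smul_line {G : GL ι F} {τ : F ≃+* F} {a a' : ι → F} {p : E}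
    (h : ∀ b ∈ ({a', gM *ᵥ a'} : Set (ι → F)), ∃ e : E, semi G τ b = e • a) (ha : a = p • a') :
    ∃ e : E, semi G τ a = e • a := by
  obtain ⟨e1, h1⟩ := h a' (by simp)
  obtain ⟨e3, h3⟩ := h (gM *ᵥ a') (by simp)
  obtain ⟨x, y, rfl⟩ := S.gen p
  refine ⟨algebraMap F E (τ x) * e1 + algebraMap F E (τ y) * e3, ?_⟩
  conv_lhs => rw [ha, S.smul_decomp]
  rw [semi_add, semi_smul, semi_smul, h1, h3, add_smul, mul_smul, mul_smul, algebraMap_smul, algebraMap_smul]

/-- An `F`-anisotropic vector is moved within its `E`-line. -/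
lemma line_fixed_E {G : GL ι F} {τ : F ≃+* F} (h : IsSemisimilarityPair Q G τ)
    (hfix : ∀ k, CommutesWith g k → twistP h (QuotientGroup.mk k) = QuotientGroup.mk k)
    {a : ι → F} (ha : Q a ≠ 0) : ∃ e : E, semi G τ a = e • a := by
  have h2E := S.two_ne_zero_E hQ h2
  have hsymm := S.bE_symm hQ
  have hnd := S.bE_nondeg hQ
  have hd5 := S.five_le hQ h2 hd
  have hb0 : S.bE hQ a a ≠ 0 := fun h0 => by
    have := (S.bE_eq_zero hQ h0).1
    rw [b_self hQ] at this
    exact mul_ne_zero h2 ha this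
  have key : ∀ v, S.bE hQ a v = 0 → S.bE hQ v v = S.bE hQ a a →
      ∃ α β : E, semi G τ a = α • a + β • v := by
    intro v hav hvv
    obtain ⟨k, hk, hkx⟩ := S.exists_pair_refl hQ h2 ha hav hvv.symm
    have hka : ∀ x, act Q k x = x - (2 * S.bE hQ a x / S.bE hQ a a) • a -
        (2 * S.bE hQ v x / S.bE hQ v v) • v := fun x => by
      rw [hkx, rfl'_apply, rfl'_apply, map_sub, map_smul, hav, smul_zero, sub_zero]
      abel
    have hneg : ∀ y, act Q k y = -y → y ∈ Submodule.span E {a, v} := fun y hy => by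
      rw [hka] at hy
      rw [Submodule.mem_span_pair]
      refine ⟨(2 : E)⁻¹ * (2 * S.bE hQ a y / S.bE hQ a a), (2 : E)⁻¹ * (2 * S.bE hQ v y / S.bE hQ v v), ?_⟩
      have e : (2 * S.bE hQ a y / S.bE hQ a a) • a + (2 * S.bE hQ v y / S.bE hQ v v) • v = (2 : E) • y := by
        rw [two_smul]; linear_combination (norm := abel) -hy
      rw [mul_smul (2 : E)⁻¹, mul_smul (2 : E)⁻¹, ← smul_add, e, inv_smul_smul₀ h2E]
    have haa : act Q k a = -a := by
      rw [hka, hsymm v a, hav, mul_zero, zero_div, zero_smul, sub_zero, mul_div_assoc, div_self hb0, mul_one,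
        two_smul]
      abel
    suffices hε : ∀ x, semi G τ (act Q k x) = act Q k (semi G τ x) by
      have h1 := hε a
      rw [haa, show -a = (-1 : F) • a by simp, semi_smul, map_neg, map_one, neg_one_smul] at h1
      obtain ⟨α, β, e⟩ := Submodule.mem_span_pair.1 (hneg _ h1.symm)
      exact ⟨α, β, e.symm⟩
    rcases semi_commute' hQ h2 (by omega) h k (hfix k hk) with hε | hε
    · exact hε
    exfalso
    set T := Submodule.span E ({a, v} : Set (ι → F))
    set Z := cut (S.bE hQ) (cut (S.bE hQ) ⊤ a) v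
    have hcard : Nat.card Z ≤ Nat.card T := by
      refine Nat.card_le_card_of_injective (fun x => ⟨semi G τ x.1, hneg _ ?_⟩) ?_
      · obtain ⟨⟨-, hx1⟩, hx3⟩ : (x.1 ∈ (⊤ : Submodule E (ι → F)) ∧ S.bE hQ a x.1 = 0) ∧ S.bE hQ v x.1 = 0 := by
          exact ⟨(mem_cut _).1 ((mem_cut _).1 x.2).1, ((mem_cut _).1 x.2).2⟩
        have h1 := hε x.1
        simp only [hka x.1, hx1, hx3, mul_zero, zero_div, zero_smul, sub_zero] at h1
        rw [← neg_eq_iff_eq_neg]
        exact h1.symm
      · intro x y e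
        refine Subtype.ext (funext fun i => τ.injective ?_)
        have e' : semi G τ x.1 = semi G τ y.1 := congrArg (fun z : T => (z : ι → F)) e
        have h1 := congrArg (fun z => ((G⁻¹ : GL ι F) : Matrix ι ι F) *ᵥ z) e'
        simp only [semi, inv_mulVec_cancel] at h1
        exact congrFun h1 i
    rw [Module.natCard_eq_pow_finrank (K := E) (V := ↥Z), Module.natCard_eq_pow_finrank (K := E) (V := ↥T)] at hcard
    have h1 := (Nat.pow_le_pow_iff_right Finite.one_lt_card).1 hcard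
    have h4 := finrank_cut_add (S.bE hQ) ⊤ a
    have h6 := finrank_cut_add (S.bE hQ) (cut (S.bE hQ) ⊤ a) v
    have ha0 : a ≠ 0 := fun e => ha (by rw [e, q_zero hQ])
    have hv0 : v ≠ 0 := fun e => hb0 (by rw [← hvv, e]; simp)
    have h7 := Submodule.finrank_add_le_finrank_add_finrank (Submodule.span E {a}) (Submodule.span E {v})
    rw [finrank_span_singleton ha0, finrank_span_singleton hv0, ← Submodule.span_insert] at h7
    rw [finrank_top] at h4
    have h8 : finrank E ↥T ≤ 1 + 1 := h7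
    have h9 : finrank E ↥(cut (S.bE hQ) ⊤ a) ≤ finrank E ↥Z + 1 := h6
    omega
  have hT := nondegOn_cut hsymm hnd (nondegOn_top hsymm hnd) (a := a) trivial hb0
  have h4 := finrank_cut_add (S.bE hQ) (⊤ : Submodule E (ι → F)) a
  rw [finrank_top] at h4
  obtain ⟨v, hv, hvq⟩ := exists_value hsymm hnd h2E hT (by omega) hb0
  obtain ⟨v', hv', hvq'⟩ := exists_value hsymm hnd h2E
    (nondegOn_cut hsymm hnd hT hv (by rw [hvq]; exact hb0))
    (by have := finrank_cut_add (S.bE hQ) (cut (S.bE hQ) ⊤ a) v; omega) hb0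
  simp only [mem_cut] at hv hv'
  obtain ⟨α, β, e⟩ := key v hv.2 hvq
  obtain ⟨α', β', e'⟩ := key v' hv'.1.2 hvq'
  refine ⟨α, ?_⟩
  have h1 : S.bE hQ v (α • a + β • v) = S.bE hQ v (α' • a + β' • v') := by rw [← e, ← e']
  simp only [map_add, map_smul, hvq, hv'.2, hsymm v a, hv.2, smul_eq_mul, mul_zero, zero_add, add_zero] at h1
  rw [e, (mul_eq_zero.1 h1).resolve_right hb0, zero_smul, add_zero]

/-- The pointwise stabiliser of the fixed points is generated by `g`. -/
theorem hfix_complex (hall : ∀ β : MulAut (POmega F Q), IsSemisim Q β) (β : MulAut (POmega F Q))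
    (hfix : ∀ k, CommutesWith g k → β (QuotientGroup.mk k) = QuotientGroup.mk k)
    (hcomm : β * conjS Q g = conjS Q g * β) : β ∈ Subgroup.zpowers (conjS Q g) := by
  obtain ⟨G, τ, h, rfl⟩ := hall β
  have h2E := S.two_ne_zero_E hQ h2
  have hl := S.lam_ne_zero
  obtain ⟨hm, hconj⟩ := AutOrthField.conj_twistP_mem h g
  rw [hcomm, mul_inv_cancel_right, eq_comm, ← div_eq_one, ← map_div] at hconj
  have : Nonempty ι := Fintype.card_pos_iff.1 (by omega)
  obtain ⟨ν, hν⟩ := scalar_of_conjS_eq_one hQ (by omega) hconj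
  have hHg : ∀ v, semi G τ (gM *ᵥ v) = ν • gM *ᵥ semi G τ v := fun v => by
    rw [← hν, ← twist_mulVec G τ (g : GL ι F) v, twist_apply]
    simp only [Subgroup.coe_div, Subgroup.coe_mul, Subgroup.coe_inv, div_eq_mul_inv, Units.val_mul,
      ← Matrix.mulVec_mulVec, inv_mulVec_cancel]
  obtain ⟨μ, hμ⟩ := semisim_exists h
  have hb : ∀ x y, bform hQ (semi G τ x) (semi G τ y) = μ * τ (bform hQ x y) := fun x y => by
    have e1 := q_add hQ (semi G τ x) (semi G τ y)
    rw [← semi_add, hμ, hμ, hμ, q_add hQ x y, map_add, map_add] at e1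
    linear_combination -e1
  have hinj : ∀ x, semi G τ x = 0 → x = 0 := fun x hx => by
    have h1 := congrArg (fun z => ((G⁻¹ : GL ι F) : Matrix ι ι F) *ᵥ z) hx
    simp only [semi, inv_mulVec_cancel, Matrix.mulVec_zero] at h1
    exact funext fun i => τ.injective (by simpa using congrFun h1 i)
  obtain ⟨u, -, hu⟩ := exists_value (S.bE_symm hQ) (S.bE_nondeg hQ) h2E (nondegOn_top (S.bE_symm hQ) (S.bE_nondeg hQ))
    (by rw [finrank_top]; have := S.five_le hQ h2 hd; omega) one_ne_zero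
  have hu0 : semi G τ u ≠ 0 := fun e => by rw [hinj u e] at hu; simp at hu
  have hνlam : ν * ν * lam = τ lam := by
    have h1 := hHg (gM *ᵥ u)
    rw [S.g_g, semi_smul, hHg, Matrix.mulVec_smul, S.g_g, smul_smul, smul_smul] at h1
    exact (smul_left_injective F hu0 h1).symm
  choose ex ey hexy using S.gen
  have hu' : ∀ x y : F, ex (algebraMap F E x + algebraMap F E y * S.s) = x ∧
      ey (algebraMap F E x + algebraMap F E y * S.s) = y := fun x y => by
    obtain ⟨a, b⟩ := S.ext (hexy (algebraMap F E x + algebraMap F E y * S.s))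
    exact ⟨a.symm, b.symm⟩
  let φ : E → E := fun e => algebraMap F E (τ (ex e)) + algebraMap F E (τ (ey e) * ν) * S.s
  have hφ : ∀ x y : F, φ (algebraMap F E x + algebraMap F E y * S.s) =
      algebraMap F E (τ x) + algebraMap F E (τ y * ν) * S.s := fun x y => by
    simp only [φ, (hu' x y).1, (hu' x y).2]
  have hφalg : ∀ x : F, φ (algebraMap F E x) = algebraMap F E (τ x) := fun x => by
    have := hφ x 0
    simpa using this
  let φh : E →+* E :=
    { toFun := φ
      map_one' := by rw [← map_one (algebraMap F E), hφalg, map_one]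
      map_zero' := by rw [← map_zero (algebraMap F E), hφalg, map_zero]
      map_add' := fun e e' => by
        obtain ⟨x, y, rfl⟩ := S.gen e
        obtain ⟨x', y', rfl⟩ := S.gen e'
        rw [show algebraMap F E x + algebraMap F E y * S.s + (algebraMap F E x' + algebraMap F E y' * S.s) =
          algebraMap F E (x + x') + algebraMap F E (y + y') * S.s by rw [map_add, map_add]; ring, hφ, hφ, hφ]
        simp only [map_add, map_mul]; ring
      map_mul' := fun e e' => by
        obtain ⟨x, y, rfl⟩ := S.gen e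
        obtain ⟨x', y', rfl⟩ := S.gen e'
        rw [show (algebraMap F E x + algebraMap F E y * S.s) * (algebraMap F E x' + algebraMap F E y' * S.s) =
          algebraMap F E (x * x' + y * y' * lam) + algebraMap F E (x * y' + y * x') * S.s by
            simp only [map_add, map_mul]
            linear_combination (algebraMap F E y * algebraMap F E y') * S.s_sq, hφ, hφ, hφ]
        have e := congrArg (algebraMap F E) hνlam
        simp only [map_add, map_mul] at e ⊢
        linear_combination (-(algebraMap F E (τ y) * algebraMap F E (τ y') * algebraMap F E ν ^ 2)) * S.s_sq -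
          (algebraMap F E (τ y) * algebraMap F E (τ y')) * e }
  let τE : E ≃+* E := RingEquiv.ofBijective φh ⟨φh.injective, Finite.injective_iff_surjective.1 φh.injective⟩
  have hsmul : ∀ (e : E) v, semi G τ (e • v) = τE e • semi G τ v := fun e v => by
    obtain ⟨x, y, rfl⟩ := S.gen e
    show _ = φ _ • _
    rw [hφ, S.smul_decomp, S.smul_decomp, semi_add, semi_smul, semi_smul, hHg, smul_smul]
  have hsim : ∀ x y, S.bE hQ (semi G τ x) (semi G τ y) = algebraMap F E μ * τE (S.bE hQ x y) := fun x y => by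
    have e : bform hQ (gM *ᵥ semi G τ x) (semi G τ y) / lam = μ * (τ (bform hQ (gM *ᵥ x) y / lam) * ν) := by
      have h1 := hb (gM *ᵥ x) y
      rw [hHg, map_smul, LinearMap.smul_apply, smul_eq_mul] at h1
      have hν0 : ν ≠ 0 := fun e => by
        rw [e, zero_mul, zero_mul, eq_comm, map_eq_zero] at hνlam; exact hl hνlam
      rw [map_div₀, ← hνlam]
      field_simp
      linear_combination h1
    show _ = _ * φ _
    rw [S.bE_apply, S.bE_apply, hφ, hb, e, map_mul, map_mul]
    ring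
  have hline : ∀ a, S.bE hQ a a ≠ 0 → ∃ c : E, semi G τ a = c • a := by
    intro a ha
    obtain ⟨p, hp, hpa⟩ : ∃ p : E, p ≠ 0 ∧ Q (p • a) ≠ 0 := by
      by_contra hh
      push Not at hh
      have h1 := hh 1 one_ne_zero
      rw [one_smul] at h1
      have h3 := hh (algebraMap F E 1 + algebraMap F E 1 * S.s) (fun e => one_ne_zero (S.eq_zero e).1)
      rw [S.smul_decomp, one_smul, one_smul, q_add hQ, S.mul_eq, h1, mul_zero, zero_add, zero_add, b_symm hQ] at h3
      exact ha (by rw [S.bE_apply, b_self hQ, h1, h3]; simp)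
    have hga : Q (gM *ᵥ (p • a)) ≠ 0 := by rw [S.mul_eq]; exact mul_ne_zero hl hpa
    refine S.semi_smul_line hQ (a' := p • a) (p := p⁻¹) ?_ (by rw [inv_smul_smul₀ hp])
    rintro b (rfl | rfl)
    · obtain ⟨e, he⟩ := S.line_fixed_E hQ h2 hd h hfix hpa
      exact ⟨e * p, by rw [he, mul_smul]⟩
    · obtain ⟨e, he⟩ := S.line_fixed_E hQ h2 hd h hfix hga
      exact ⟨e * S.s * p, by rw [he, mul_smul, mul_smul, ← S.smul_eq]⟩
  obtain ⟨hτE, c, hc0, hc⟩ := semilinear_scalar (S.bE_symm hQ) (S.bE_nondeg hQ) h2E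
    (by have := S.five_le hQ h2 hd; omega) (semi G τ) τE (semi_add G τ) hsmul hinj hsim hline
  have hτ : τ = RingEquiv.refl F := RingEquiv.ext fun t => by
    have e : φ (algebraMap F E t) = algebraMap F E t := RingEquiv.congr_fun hτE (algebraMap F E t)
    rw [hφalg] at e
    exact (algebraMap F E).injective e
  subst hτ
  have hGv : ∀ v, (G : Matrix ι ι F) *ᵥ v = c • v := hc
  have hG : G ∈ quadSimilarityGroup Q := ⟨μ, fun v => hμ v⟩
  rw [← show conjS Q ⟨G, hG⟩ = twistP h from rfl]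
  have hcc : c * c = algebraMap F E μ := by
    have h1 := hsim u u
    simp only [hc, hτE, RingEquiv.refl_apply, map_smul, LinearMap.smul_apply, hu, smul_eq_mul, mul_one] at h1
    exact h1
  obtain ⟨x, y, rfl⟩ := S.gen c
  have hxy : x * y = 0 := by
    have h1 := (S.ext (x := x * x + y * y * lam) (y := x * y + y * x) (x' := (μ : F)) (y' := 0) (by
      rw [map_zero, zero_mul, add_zero, ← hcc]
      simp only [map_add, map_mul]
      linear_combination -(algebraMap F E y * algebraMap F E y) * S.s_sq)).2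
    have : 2 * (x * y) = 0 := by linear_combination h1
    exact (mul_eq_zero.1 this).resolve_left h2
  rcases mul_eq_zero.1 hxy with rfl | rfl
  · have e : conjS Q (⟨G, hG⟩ * g⁻¹) = 1 := conjS_eq_one_of_scalar (c := y) fun v => by
      rw [Subgroup.coe_mul, Units.val_mul, ← Matrix.mulVec_mulVec, hGv, S.smul_decomp, zero_smul, zero_add,
        Subgroup.coe_inv, mulVec_inv_cancel]
    rw [map_mul, map_inv, mul_inv_eq_one] at e
    rw [e]
    exact Subgroup.mem_zpowers _
  · rw [conjS_eq_one_of_scalar (g := ⟨G, hG⟩) (c := x) fun v => by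
      rw [hGv, S.smul_decomp, zero_smul, add_zero]]
    exact one_mem _

/-- The `2'`-core of the centraliser is trivial. -/
theorem core_eq_bot_complex (hall : ∀ β : MulAut (POmega F Q), IsSemisim Q β)
    (A : Subgroup (MulAut (POmega F Q))) (hinn : ∀ k, MulAut.conj k ∈ A) (hord : orderOf (conjS Q g) = 2) :
    pPrimeCore 2 ↥(A ⊓ Subgroup.centralizer {conjS Q g}) = ⊥ :=
  core_eq_bot_inv hQ h2 (by omega) A hinn g hord
    (fun P N hN hpow hcomm hnorm k hkP => S.hM_complex hQ h2 hd P N hN hpow hcomm hnorm k hkP)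
    (S.hfix_complex hQ h2 hd hall)

end Setting

end CfsgLib.AutOrth.InvCentral
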