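import Cfsg.Agent.AutOrth.InvShell
import Cfsg.Agent.AutOrth.InvCore
import Cfsg.Agent.Classical.Orth.Index

/-! The centraliser of an involutory similarity with two eigenspaces of odd dimension. -/

set_option autoImplicit false
set_option linter.unusedSectionVars false

namespace CfsgLib.AutOrth.InvCentral

open Cfsg Cfsg.Geo CfsgLib.OrthGeo CfsgLib.AutOrth Module InvCore
open CfsgLib.Classical.Orth (refl refl_mul_refl_mem_omega not_exc_of_two_ne_zero)
open scoped Matrix MatrixGroups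

variable {ι : Type} [Fintype ι] [DecidableEq ι] {F : Type*} [Field F] [Fintype F] {Q : (ι → F) → F}

/-- An eigenspace. -/
noncomputable def eig (g : GL ι F) (t : F) : Submodule F (ι → F) :=
  LinearMap.ker (Matrix.toLin' (g : Matrix ι ι F) - t • LinearMap.id)

lemma mem_eig {g : GL ι F} {t : F} {v : ι → F} : v ∈ eig g t ↔ (g : Matrix ι ι F) *ᵥ v = t • v := by
  simp [eig, LinearMap.mem_ker, sub_eq_zero]

/-- The bilinear form on a subspace. -/
noncomputable def bOn (hQ : IsNondegenerateQuadraticForm Q) (W : Submodule F (ι → F)) : LinearMap.BilinForm F W :=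
  (bform hQ).compl₁₂ W.subtype W.subtype

lemma bOn_apply (hQ : IsNondegenerateQuadraticForm Q) (W : Submodule F (ι → F)) (x y : W) :
    bOn hQ W x y = bform hQ x y := rfl

lemma bOn_symm (hQ : IsNondegenerateQuadraticForm Q) (W : Submodule F (ι → F)) (x y : W) :
    bOn hQ W x y = bOn hQ W y x := b_symm hQ x y

variable (hQ : IsNondegenerateQuadraticForm Q) (h2 : (2 : F) ≠ 0) (hn : 8 ≤ Fintype.card ι)
variable {g : quadSimilarityGroup Q} {s : F} (hs : s ≠ 0)
  (hsq : ∀ v, ((g : GL ι F) : Matrix ι ι F) *ᵥ (((g : GL ι F) : Matrix ι ι F) *ᵥ v) = s ^ 2 • v)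
  (hmul : ∀ v, Q (((g : GL ι F) : Matrix ι ι F) *ᵥ v) = s ^ 2 * Q v)
include hQ h2 hn hs hsq hmul

local notation "gM" => ((g : GL ι F) : Matrix ι ι F)

lemma gb (x y : ι → F) : bform hQ (gM *ᵥ x) (gM *ᵥ y) = s ^ 2 * bform hQ x y := by
  have h1 := hmul (x + y)
  rw [Matrix.mulVec_add, q_add hQ, q_add hQ x y, hmul, hmul] at h1
  linear_combination h1

lemma eig_perp {x y : ι → F} (hx : gM *ᵥ x = s • x) (hy : gM *ᵥ y = -s • y) : bform hQ x y = 0 := by
  have h := gb hQ h2 hn hs hsq hmul x y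
  simp only [hx, hy, map_smul, LinearMap.smul_apply, smul_eq_mul] at h
  have : 2 * s ^ 2 * bform hQ x y = 0 := by linear_combination -h
  exact (mul_eq_zero.1 this).resolve_left (mul_ne_zero h2 (pow_ne_zero 2 hs))

lemma eig_decomp (v : ι → F) : ∃ x y, gM *ᵥ x = s • x ∧ gM *ᵥ y = -s • y ∧ v = x + y := by
  refine ⟨(2 : F)⁻¹ • (v + s⁻¹ • gM *ᵥ v), (2 : F)⁻¹ • (v - s⁻¹ • gM *ᵥ v), ?_, ?_, ?_⟩
  · rw [Matrix.mulVec_smul, Matrix.mulVec_add, Matrix.mulVec_smul, hsq]
    match_scalars <;> field_simp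
  · rw [Matrix.mulVec_smul, Matrix.mulVec_sub, Matrix.mulVec_smul, hsq]
    match_scalars <;> field_simp
  · match_scalars <;> field_simp <;> ring

lemma finrank_add : finrank F (eig (g : GL ι F) s) + finrank F (eig (g : GL ι F) (-s)) = Fintype.card ι := by
  have h1 := Submodule.finrank_sup_add_finrank_inf_eq (eig (g : GL ι F) s) (eig (g : GL ι F) (-s))
  have htop : eig (g : GL ι F) s ⊔ eig (g : GL ι F) (-s) = ⊤ := by
    refine eq_top_iff.2 fun v _ => ?_
    obtain ⟨x, y, hx, hy, rfl⟩ := eig_decomp hQ h2 hn hs hsq hmul v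
    exact Submodule.add_mem_sup (mem_eig.2 hx) (mem_eig.2 hy)
  have hbot : eig (g : GL ι F) s ⊓ eig (g : GL ι F) (-s) = ⊥ := by
    refine (Submodule.eq_bot_iff _).2 fun x hx => ?_
    have h1 := mem_eig.1 hx.1
    rw [mem_eig.1 hx.2] at h1
    have : (2 * s) • x = 0 := by linear_combination (norm := module) -h1
    exact (smul_eq_zero.1 this).resolve_left (mul_ne_zero h2 hs)
  rw [htop, hbot, finrank_top, finrank_bot, finrank_fintype_fun_eq_card] at h1
  omega

lemma nondeg_eig : ∀ u : eig (g : GL ι F) s, u ≠ 0 → ∃ y, bOn hQ (eig (g : GL ι F) s) u y ≠ 0 := by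
  intro u hu
  by_contra hh
  push Not at hh
  refine hu (Subtype.ext ((b_nondeg hQ).1 u fun v => ?_))
  obtain ⟨x, y, hx, hy, rfl⟩ := eig_decomp hQ h2 hn hs hsq hmul v
  rw [map_add, eig_perp hQ h2 hn hs hsq hmul (mem_eig.1 u.2) hy,
    show bform hQ u x = 0 from hh ⟨x, mem_eig.2 hx⟩, add_zero]

lemma self_adj {a : ι → F} {t : F} (ha : gM *ᵥ a = t • a) (ht : t ^ 2 = s ^ 2) (v : ι → F) :
    bform hQ a (gM *ᵥ v) = t * bform hQ a v := by
  have h := gb hQ h2 hn hs hsq hmul a v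
  rw [ha, map_smul, LinearMap.smul_apply, smul_eq_mul, ← ht] at h
  have ht0 : t ≠ 0 := fun h0 => hs (by simpa [h0] using ht.symm)
  exact mul_left_cancel₀ ht0 (by linear_combination h)

/-- Reflection pairs at eigenvectors, as elements of `Omega` commuting with `g`. -/
lemma exists_pair {u v : ι → F} (hu : Q u ≠ 0) (hv : Q v ≠ 0) (huv : IsSquare (Q u * Q v))
    (hue : ∃ t : F, t ^ 2 = s ^ 2 ∧ gM *ᵥ u = t • u) (hve : ∃ t : F, t ^ 2 = s ^ 2 ∧ gM *ᵥ v = t • v) :
    ∃ h : Omega F Q, CommutesWith g h ∧ ∀ x, act Q h x =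
      (reflection hQ hv : Matrix ι ι F) *ᵥ ((reflection hQ hu : Matrix ι ι F) *ᵥ x) := by
  refine ⟨⟨_, refl_mul_refl_mem_omega hQ (not_exc_of_two_ne_zero h2) hu hv huv⟩, fun x => ?_,
    fun x => by rw [act_apply, Subgroup.coe_mul, Units.val_mul, ← Matrix.mulVec_mulVec]; rfl⟩
  have key : ∀ {a : ι → F} (ha : Q a ≠ 0), (∃ t : F, t ^ 2 = s ^ 2 ∧ gM *ᵥ a = t • a) → ∀ y,
      gM *ᵥ ((reflection hQ ha : Matrix ι ι F) *ᵥ y) = (reflection hQ ha : Matrix ι ι F) *ᵥ (gM *ᵥ y) := by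
    rintro a ha ⟨t, ht, hta⟩ y
    rw [reflection_mulVec, reflection_mulVec, Matrix.mulVec_sub, Matrix.mulVec_smul, hta,
      self_adj hQ h2 hn hs hsq hmul hta ht, smul_smul]
    congr 2
    ring
  simp only [act_apply, Subgroup.coe_mul, Units.val_mul, ← Matrix.mulVec_mulVec]
  exact (key hv hve _).trans (congrArg _ (key hu hue x))

/-- An anisotropic eigenvector for `-s`. -/
lemma exists_aniso_neg (hk : 0 < finrank F (eig (g : GL ι F) (-s))) :
    ∃ u : ι → F, gM *ᵥ u = -s • u ∧ Q u ≠ 0 := by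
  by_contra hh
  push Not at hh
  obtain ⟨u, hu, hu0⟩ := Submodule.exists_mem_ne_zero_of_ne_bot (p := eig (g : GL ι F) (-s))
    (fun h => by rw [h, finrank_bot] at hk; exact lt_irrefl 0 hk)
  rw [mem_eig] at hu
  refine hu0 ((b_nondeg hQ).1 u fun v => ?_)
  obtain ⟨x, y, hx, hy, rfl⟩ := eig_decomp hQ h2 hn hs hsq hmul v
  have h1 := hh (u + y) (by rw [Matrix.mulVec_add, hu, hy, smul_add])
  rw [q_add hQ, hh u hu, hh y hy] at h1
  rw [map_add, b_symm hQ, eig_perp hQ h2 hn hs hsq hmul hx hu, zero_add]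
  linear_combination h1

/-- A normalised subgroup of odd exponent acts on an eigenspace of odd dimension as `±1`. -/
theorem scalar_on_eig (hk : Odd (finrank F (eig (g : GL ι F) s)))
    (hk' : Odd (finrank F (eig (g : GL ι F) (-s))))
    (P : Subgroup (Omega F Q)) (N : ℕ) (hN : Odd N) (hpow : ∀ k ∈ P, act Q k ^ N = 1 ∨ act Q k ^ N = -1)
    (hcomm : ∀ k ∈ P, CommutesWith g k) (hnorm : ∀ h, CommutesWith g h → ∀ k ∈ P, h * k * h⁻¹ ∈ P)
    (k : P) : ∃ ε : F, ε ^ 2 = 1 ∧ ∀ v, gM *ᵥ v = s • v → act Q (k : Omega F Q) v = ε • v := by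
  set W := eig (g : GL ι F) s with hW
  have hmap : ∀ (k : Omega F Q), CommutesWith g k → ∀ v ∈ W, act Q k v ∈ W := fun k hk v hv => by
    rw [mem_eig] at hv ⊢
    rw [hk v, hv, map_smul]
  let ρ : P →* Module.End F W :=
    { toFun := fun k => (act Q (k : Omega F Q)).restrict (hmap k (hcomm k k.2))
      map_one' := LinearMap.ext fun v => Subtype.ext (by simp [LinearMap.restrict_coe_apply])
      map_mul' := fun a b => LinearMap.ext fun v => Subtype.ext (by simp [LinearMap.restrict_coe_apply]) }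
  have hρ : ∀ (k : P) (v : W), ((ρ k v : W) : ι → F) = act Q (k : Omega F Q) v := fun k v => rfl
  have hiso : ∀ k x y, bOn hQ W (ρ k x) (ρ k y) = bOn hQ W x y := fun k x y => act_b hQ h2 (by omega) _ _ _
  have hρpow : ∀ (k : P) (i : ℕ) (v : W), (((ρ k ^ i) v : W) : ι → F) = (act Q (k : Omega F Q) ^ i) v := by
    intro k i
    induction i with
    | zero => simp
    | succ i ih => intro v; rw [pow_succ', pow_succ', Module.End.mul_apply, Module.End.mul_apply, hρ, ih]
  have hρN : ∀ k : P, ρ k ^ N = 1 ∨ ρ k ^ N = -1 := fun k => by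
    rcases hpow k k.2 with h | h
    · exact Or.inl (LinearMap.ext fun v => Subtype.ext (by rw [hρpow, h]; simp))
    · exact Or.inr (LinearMap.ext fun v => Subtype.ext (by rw [hρpow, h]; simp))
  have hnormρ : ∀ (h : Omega F Q) (T : W →ₗ[F] W), CommutesWith g h →
      (∀ v : W, act Q h v = (T v : ι → F)) → ∀ k : P, ∃ k' : P, ρ k' * T = T * ρ k := by
    intro h T hh hT k
    refine ⟨⟨_, hnorm h hh k k.2⟩, LinearMap.ext fun v => Subtype.ext ?_⟩
    rw [Module.End.mul_apply, Module.End.mul_apply, hρ, ← hT, ← hT, hρ, ← Module.End.mul_apply (f := act Q _),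
      ← Module.End.mul_apply (f := act Q h), ← map_mul, ← map_mul, inv_mul_cancel_right]
  have hr : ∀ {a : W} (ha : Q (a : ι → F) ≠ 0) (v : W),
      ((rfl' (bOn hQ W) a v : W) : ι → F) = (reflection hQ ha : Matrix ι ι F) *ᵥ (v : ι → F) := by
    intro a ha v
    rw [rfl'_apply, Submodule.coe_sub, Submodule.coe_smul, reflection_mulVec, bOn_apply, bOn_apply, b_self hQ]
    congr 2
    field_simp
  have hs' : ∀ a : W, ∃ t : F, t ^ 2 = s ^ 2 ∧ gM *ᵥ (a : ι → F) = t • (a : ι → F) :=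
    fun a => ⟨s, rfl, mem_eig.1 a.2⟩
  have hsymm := bOn_symm hQ W
  have hnd := nondeg_eig hQ h2 hn hs hsq hmul
  suffices hρk : ∃ ε : F, ε ^ 2 = 1 ∧ ρ k = ε • 1 by
    obtain ⟨ε, hε, he⟩ := hρk
    refine ⟨ε, hε, fun v hv => ?_⟩
    rw [← hρ k ⟨v, mem_eig.2 hv⟩, he]
    rfl
  have conv : ρ k = 1 ∨ ρ k = -1 → ∃ ε : F, ε ^ 2 = 1 ∧ ρ k = ε • 1 := by
    rintro (h | h)
    · exact ⟨1, one_pow 2, by rw [h, one_smul]⟩
    · exact ⟨-1, neg_one_sq, by rw [h]; exact LinearMap.ext fun v => by simp⟩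
  obtain ⟨j, hj⟩ := hk
  rcases (show finrank F W = 1 ∨ finrank F W = 3 ∨ 5 ≤ finrank F W by omega) with h1 | h1 | h1
  · obtain ⟨w, hw0, hw⟩ := finrank_eq_one_iff'.1 h1
    obtain ⟨c, hc⟩ := hw (ρ k w)
    obtain ⟨y, hy⟩ := hnd w hw0
    obtain ⟨d, rfl⟩ := hw y
    have h3 := hiso k w (d • w)
    rw [map_smul (ρ k), ← hc] at h3
    simp only [map_smul, LinearMap.smul_apply, smul_eq_mul] at h3 hy
    refine ⟨c, mul_right_cancel₀ hy (by linear_combination h3), LinearMap.ext fun v => ?_⟩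
    obtain ⟨e, rfl⟩ := hw v
    rw [map_smul, ← hc, LinearMap.smul_apply, Module.End.one_apply, smul_comm]
  · refine conv (eq_one_or_neg_of_three hsymm hnd h2 ρ hN hiso hρN h1 (fun e w he hew => ?_) k)
    have he' : Q (e : ι → F) = 0 := by
      rw [bOn_apply, b_self hQ] at he
      exact (mul_eq_zero.1 he).resolve_left h2
    have hew' : bform hQ (e : ι → F) w = 0 := hew
    obtain ⟨h, hh, hhe⟩ := eichler_mem_omega hQ (by omega) he' hew'
    refine hnormρ ⟨h, hh⟩ _ (fun x => ?_) (fun v => ?_)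
    · simp only [act_apply]
      rw [show (h : GL ι F) = eichler hQ he' hew' from hhe, eichler_mulVec, eichler_mulVec]
      simp only [Matrix.mulVec_add, Matrix.mulVec_sub, Matrix.mulVec_smul, mem_eig.1 e.2, mem_eig.1 w.2,
        self_adj hQ h2 hn hs hsq hmul (mem_eig.1 e.2) rfl, self_adj hQ h2 hn hs hsq hmul (mem_eig.1 w.2) rfl,
        smul_smul]
      module
    · simp only [act_apply]
      rw [show (h : GL ι F) = eichler hQ he' hew' from hhe, eichler_mulVec, eich_apply, Submodule.coe_sub,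
        Submodule.coe_sub, Submodule.coe_add, Submodule.coe_smul, Submodule.coe_smul, Submodule.coe_smul,
        bOn_apply, bOn_apply, bOn_apply, b_self hQ]
      congr 2
      field_simp
  · obtain ⟨u, hu, hu0⟩ := exists_aniso_neg hQ h2 hn hs hsq hmul (by obtain ⟨i, hi⟩ := hk'; omega)
    have hq : ∀ {a : W} {c : F}, bOn hQ W a a = c → Q (a : ι → F) = c / 2 := fun {a c} h => by
      rw [bOn_apply, b_self hQ] at h; rw [eq_div_iff h2]; linear_combination h
    refine conv (eq_one_or_neg_of_five hsymm hnd h2 ρ hN hiso hρN h1 (c₀ := 2 * Q u) (mul_ne_zero h2 hu0)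
      (fun a ha => ?_) (fun w w' hw hw' _ => ?_) k)
    · have hQa : Q (a : ι → F) = Q u := by rw [hq ha, mul_div_cancel_left₀ _ h2]
      have ha0 : Q (a : ι → F) ≠ 0 := by rw [hQa]; exact hu0
      obtain ⟨h, hh, hact⟩ := exists_pair hQ h2 hn hs hsq hmul hu0 ha0 ⟨Q u, by rw [hQa]⟩
        ⟨-s, neg_sq s, hu⟩ (hs' a)
      refine hnormρ h _ hh fun v => ?_
      rw [hact, hr ha0, reflection_mulVec hQ hu0, b_symm hQ u,
        eig_perp hQ h2 hn hs hsq hmul (mem_eig.1 v.2) hu, mul_zero, zero_smul, sub_zero]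
    · have hne : 2 / (2 * Q u) / 2 ≠ 0 := div_ne_zero (div_ne_zero h2 (mul_ne_zero h2 hu0)) h2
      have hw0 : Q (w : ι → F) ≠ 0 := by rw [hq hw]; exact hne
      have hw0' : Q (w' : ι → F) ≠ 0 := by rw [hq hw']; exact hne
      obtain ⟨h, hh, hact⟩ := exists_pair hQ h2 hn hs hsq hmul hw0' hw0
        (by rw [hq hw, hq hw']; exact ⟨_, rfl⟩) (hs' w') (hs' w)
      refine hnormρ h _ hh fun v => ?_
      rw [hact, Module.End.mul_apply, hr hw0, hr hw0']

/-- The subgroup consists of scalars. -/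
theorem hM_eigen (hk : Odd (finrank F (eig (g : GL ι F) s))) (hk' : Odd (finrank F (eig (g : GL ι F) (-s))))
    (P : Subgroup (Omega F Q)) (N : ℕ) (hN : Odd N) (hpow : ∀ k ∈ P, act Q k ^ N = 1 ∨ act Q k ^ N = -1)
    (hcomm : ∀ k ∈ P, CommutesWith g k) (hnorm : ∀ h, CommutesWith g h → ∀ k ∈ P, h * k * h⁻¹ ∈ P)
    (k : Omega F Q) (hkP : k ∈ P) : act Q k = 1 ∨ act Q k = -1 := by
  obtain ⟨ε, hε, he⟩ := scalar_on_eig hQ h2 hn hs hsq hmul hk hk' P N hN hpow hcomm hnorm ⟨k, hkP⟩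
  obtain ⟨ε', hε', he'⟩ := scalar_on_eig hQ h2 hn (neg_ne_zero.2 hs) (by simpa [neg_sq] using hsq)
    (by simpa [neg_sq] using hmul) hk' (by rwa [neg_neg]) P N hN hpow hcomm hnorm ⟨k, hkP⟩
  have hpowv : ∀ (i : ℕ) (c : F) v, act Q k v = c • v → (act Q k ^ i) v = c ^ i • v := by
    intro i c v hv
    induction i with
    | zero => simp
    | succ i ih => rw [pow_succ', Module.End.mul_apply, ih, map_smul, hv, smul_smul, pow_succ]
  obtain ⟨x, hx, hx0⟩ := Submodule.exists_mem_ne_zero_of_ne_bot (p := eig (g : GL ι F) s)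
    (fun h => by obtain ⟨i, hi⟩ := hk; rw [h, finrank_bot] at hi; omega)
  obtain ⟨y, hy, hy0⟩ := Submodule.exists_mem_ne_zero_of_ne_bot (p := eig (g : GL ι F) (-s))
    (fun h => by obtain ⟨i, hi⟩ := hk'; rw [h, finrank_bot] at hi; omega)
  rw [mem_eig] at hx hy
  have hpN : ∀ c : F, c ^ 2 = 1 → c ^ N = c := fun c hc => by
    obtain ⟨i, rfl⟩ := hN
    rw [pow_succ, pow_mul, hc, one_pow, one_mul]
  have h1 := hpowv N ε x (he x hx)
  have h3 := hpowv N ε' y (he' y hy)
  rw [hpN ε hε] at h1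
  rw [hpN ε' hε'] at h3
  obtain ⟨δ, hδ, hδ', hx', hy'⟩ : ∃ δ : F, (δ = 1 ∨ δ = -1) ∧
      (∀ v, (act Q k ^ N) v = δ • v) ∧ ε = δ ∧ ε' = δ := by
    rcases hpow k hkP with h | h
    · refine ⟨1, Or.inl rfl, fun v => by simp [h], ?_, ?_⟩
      · exact smul_left_injective F hx0 (by simpa [h] using h1.symm)
      · exact smul_left_injective F hy0 (by simpa [h] using h3.symm)
    · refine ⟨-1, Or.inr rfl, fun v => by simp [h], ?_, ?_⟩
      · exact smul_left_injective F hx0 (by simpa [h] using h1.symm)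
      · exact smul_left_injective F hy0 (by simpa [h] using h3.symm)
  have hall : ∀ v, act Q k v = δ • v := fun v => by
    obtain ⟨a, b, ha, hb, rfl⟩ := eig_decomp hQ h2 hn hs hsq hmul v
    rw [map_add, he a ha, he' b hb, hx', hy', smul_add]
  rcases hδ with rfl | rfl
  · exact Or.inl (LinearMap.ext fun v => by rw [hall, one_smul]; rfl)
  · exact Or.inr (LinearMap.ext fun v => by rw [hall, neg_one_smul]; rfl)

omit hs hsq hmul in
/-- Such a semisimilarity carries the span of a pair of orthogonal vectors, whose reflection pair it fixes, to itself. -/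
lemma exists_span_pair {G : GL ι F} {τ : F ≃+* F} (h : IsSemisimilarityPair Q G τ) {a v : ι → F}
    (ha : Q a ≠ 0) (hv : Q v ≠ 0) (hav : bform hQ a v = 0) (k : Omega F Q)
    (hk : twistP h (QuotientGroup.mk k) = QuotientGroup.mk k)
    (hact : ∀ x, act Q k x = (reflection hQ ha : Matrix ι ι F) *ᵥ ((reflection hQ hv : Matrix ι ι F) *ᵥ x)) :
    ∃ α β : F, semi G τ a = α • a + β • v := by
  have hka : ∀ x, act Q k x = x - ((Q a)⁻¹ * bform hQ a x) • a - ((Q v)⁻¹ * bform hQ v x) • v := fun x => by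
    rw [hact, reflection_mulVec, reflection_mulVec, map_sub, map_smul, hav, smul_zero, sub_zero]
    abel
  have haa : act Q k a = -a := by
    rw [hka, b_self hQ, b_symm hQ v a, hav, mul_zero, zero_smul, sub_zero,
      show (Q a)⁻¹ * (2 * Q a) = 2 by field_simp]
    module
  have hneg : ∀ y, act Q k y = -y → y ∈ Submodule.span F {a, v} := fun y hy => by
    rw [hka] at hy
    rw [Submodule.mem_span_pair]
    refine ⟨(2 : F)⁻¹ * ((Q a)⁻¹ * bform hQ a y), (2 : F)⁻¹ * ((Q v)⁻¹ * bform hQ v y), ?_⟩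
    have e : ((Q a)⁻¹ * bform hQ a y) • a + ((Q v)⁻¹ * bform hQ v y) • v = (2 : F) • y := by
      linear_combination (norm := module) -hy
    rw [mul_smul (2 : F)⁻¹, mul_smul (2 : F)⁻¹, ← smul_add, e, inv_smul_smul₀ h2]
  suffices hε : ∀ x, semi G τ (act Q k x) = act Q k (semi G τ x) by
    have h1 := hε a
    rw [haa, show -a = (-1 : F) • a by module, semi_smul, map_neg, map_one, neg_one_smul] at h1
    obtain ⟨α, β, e⟩ := Submodule.mem_span_pair.1 (hneg _ h1.symm)
    exact ⟨α, β, e.symm⟩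
  rcases semi_commute' hQ h2 (by omega) h k hk with hε | hε
  · exact hε
  exfalso
  set T := Submodule.span F ({a, v} : Set (ι → F))
  have hcard : Nat.card (perp hQ T) ≤ Nat.card T := by
    refine Nat.card_le_card_of_injective (fun x => ⟨semi G τ x.1, hneg _ ?_⟩) ?_
    · have hx1 : bform hQ a x.1 = 0 := (mem_perp hQ).1 x.2 a (Submodule.subset_span (by simp))
      have hx2 : bform hQ v x.1 = 0 := (mem_perp hQ).1 x.2 v (Submodule.subset_span (by simp))
      have h1 := hε x.1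
      rw [hka x.1, hx1, hx2, mul_zero, mul_zero, zero_smul, zero_smul, sub_zero, sub_zero] at h1
      linear_combination (norm := module) h1
    · intro x y e
      refine Subtype.ext (funext fun i => τ.injective ?_)
      have e' : semi G τ x.1 = semi G τ y.1 := congrArg (fun z : T => (z : ι → F)) e
      have h1 := congrArg (fun z => ((G⁻¹ : GL ι F) : Matrix ι ι F) *ᵥ z) e'
      simp only [semi, inv_mulVec_cancel] at h1
      exact congrFun h1 i
  rw [Module.natCard_eq_pow_finrank (K := F) (V := ↥(perp hQ T)),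
    Module.natCard_eq_pow_finrank (K := F) (V := ↥T)] at hcard
  have h1 := (Nat.pow_le_pow_iff_right Finite.one_lt_card).1 hcard
  have h3 : finrank F T ≤ 2 := by
    have ha0 : a ≠ 0 := fun e => ha (by rw [e, q_zero hQ])
    have hv0 : v ≠ 0 := fun e => hv (by rw [e, q_zero hQ])
    have := Submodule.finrank_add_le_finrank_add_finrank (Submodule.span F {a}) (Submodule.span F {v})
    rw [finrank_span_singleton ha0, finrank_span_singleton hv0] at this
    rwa [← Submodule.span_insert] at this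
  have h4 := finrank_perp_add hQ T
  omega

/-- Two perpendicular vectors of given norm in an eigenspace of large dimension, perpendicular to a given one. -/
lemma exists_two (hd : 5 ≤ finrank F (eig (g : GL ι F) s)) {a : ι → F} (ha : Q a ≠ 0)
    (hae : gM *ᵥ a = s • a ∨ gM *ᵥ a = -s • a) :
    ∃ v v' : ι → F, Q v = Q a ∧ Q v' = Q a ∧ gM *ᵥ v = s • v ∧ gM *ᵥ v' = s • v' ∧
      bform hQ v v' = 0 ∧ bform hQ a v = 0 ∧ bform hQ a v' = 0 := by
  set W := eig (g : GL ι F) s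
  have hsymm := bOn_symm hQ W
  have hnd := nondeg_eig hQ h2 hn hs hsq hmul
  have hq : ∀ {x : W}, bOn hQ W x x = 2 * Q a → Q (x : ι → F) = Q a := fun {x} h => by
    rw [bOn_apply, b_self hQ] at h; exact mul_left_cancel₀ h2 h
  obtain ⟨S, hS, hSd, hSa⟩ : ∃ S : Submodule F W, NondegOn (bOn hQ W) S ∧ 4 ≤ finrank F S ∧
      ∀ x ∈ S, bform hQ a (x : ι → F) = 0 := by
    rcases hae with h | h
    · have ha0 : bOn hQ W ⟨a, mem_eig.2 h⟩ ⟨a, mem_eig.2 h⟩ ≠ 0 := by
        rw [bOn_apply, b_self hQ]; exact mul_ne_zero h2 ha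
      refine ⟨cut (bOn hQ W) ⊤ ⟨a, mem_eig.2 h⟩, nondegOn_cut hsymm hnd (nondegOn_top hsymm hnd) trivial ha0, ?_,
        fun x hx => ((mem_cut _).1 hx).2⟩
      have := finrank_cut_add (bOn hQ W) ⊤ ⟨a, mem_eig.2 h⟩
      rw [finrank_top] at this; omega
    · exact ⟨⊤, nondegOn_top hsymm hnd, by rw [finrank_top]; omega,
        fun x _ => by rw [b_symm hQ]; exact eig_perp hQ h2 hn hs hsq hmul (mem_eig.1 x.2) h⟩
  obtain ⟨v, hv, hvq⟩ := exists_value hsymm hnd h2 hS (by omega) (mul_ne_zero h2 ha)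
  obtain ⟨v', hv', hvq'⟩ := exists_value hsymm hnd h2
    (nondegOn_cut hsymm hnd hS hv (by rw [hvq]; exact mul_ne_zero h2 ha))
    (by have := finrank_cut_add (bOn hQ W) S v; omega) (mul_ne_zero h2 ha)
  rw [mem_cut] at hv'
  exact ⟨v, v', hq hvq, hq hvq', mem_eig.1 v.2, mem_eig.1 v'.2, hv'.2, hSa v hv, hSa v' hv'.1⟩

/-- A semisimilarity centralising the fixed points fixes the anisotropic eigenvectors up to scalars. -/
lemma line_fixed (hd : 5 ≤ finrank F (eig (g : GL ι F) s)) {G : GL ι F} {τ : F ≃+* F}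
    (h : IsSemisimilarityPair Q G τ)
    (hfix : ∀ k, CommutesWith g k → twistP h (QuotientGroup.mk k) = QuotientGroup.mk k)
    {a : ι → F} (ha : Q a ≠ 0) (hae : gM *ᵥ a = s • a ∨ gM *ᵥ a = -s • a) : ∃ c : F, semi G τ a = c • a := by
  obtain ⟨v, v', hv, hv', hve, hve', hvv, hav, hav'⟩ := exists_two hQ h2 hn hs hsq hmul hd ha hae
  have hae' : ∃ t : F, t ^ 2 = s ^ 2 ∧ gM *ᵥ a = t • a :=
    hae.elim (fun h => ⟨s, rfl, h⟩) (fun h => ⟨-s, neg_sq s, h⟩)
  have key : ∀ {w}, Q w = Q a → gM *ᵥ w = s • w → bform hQ a w = 0 → ∃ α β : F, semi G τ a = α • a + β • w := by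
    intro w hw hwe haw
    have hw0 : Q w ≠ 0 := by rw [hw]; exact ha
    obtain ⟨k, hk, hact⟩ := exists_pair hQ h2 hn hs hsq hmul hw0 ha (by rw [hw]; exact ⟨_, rfl⟩)
      ⟨s, rfl, hwe⟩ hae'
    exact exists_span_pair hQ h2 hn h ha hw0 haw k (hfix k hk) hact
  obtain ⟨α, β, e⟩ := key hv hve hav
  obtain ⟨α', β', e'⟩ := key hv' hve' hav'
  refine ⟨α, ?_⟩
  have h1 : bform hQ v (α • a + β • v) = bform hQ v (α' • a + β' • v') := by rw [← e, ← e']
  simp only [map_add, map_smul, b_self hQ, hvv, b_symm hQ v a, hav, smul_eq_mul, mul_zero, zero_add,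
    add_zero] at h1
  rw [e, (mul_eq_zero.1 h1).resolve_right (mul_ne_zero h2 (by rw [hv]; exact ha)), zero_smul, add_zero]

/-- On an eigenspace the semisimilarity is a scalar. -/
lemma scalar_semi (hd : 5 ≤ finrank F (eig (g : GL ι F) s) ∨ 5 ≤ finrank F (eig (g : GL ι F) (-s)))
    {G : GL ι F} {τ : F ≃+* F} (h : IsSemisimilarityPair Q G τ)
    (hfix : ∀ k, CommutesWith g k → twistP h (QuotientGroup.mk k) = QuotientGroup.mk k)
    (hk : Odd (finrank F (eig (g : GL ι F) s))) :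
    (3 ≤ finrank F (eig (g : GL ι F) s) → τ = RingEquiv.refl F) ∧
      (τ = RingEquiv.refl F → ∃ c : F, ∀ v, gM *ᵥ v = s • v → semi G τ v = c • v) := by
  have hline : ∀ a, gM *ᵥ a = s • a → Q a ≠ 0 → ∃ c : F, semi G τ a = c • a := by
    intro a ha ha0
    rcases hd with hd | hd
    · exact line_fixed hQ h2 hn hs hsq hmul hd h hfix ha0 (Or.inl ha)
    · exact line_fixed hQ h2 hn (neg_ne_zero.2 hs) (by simpa [neg_sq] using hsq) (by simpa [neg_sq] using hmul)
        hd h hfix ha0 (Or.inr (by rwa [neg_neg]))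
  set W := eig (g : GL ι F) s
  have hsymm := bOn_symm hQ W
  have hnd := nondeg_eig hQ h2 hn hs hsq hmul
  obtain ⟨j, hj⟩ := hk
  rcases (show finrank F W = 1 ∨ 3 ≤ finrank F W by omega) with h1 | h1
  · refine ⟨fun h3 => by omega, fun hτ => ?_⟩
    obtain ⟨w, hw0, hw⟩ := finrank_eq_one_iff'.1 h1
    obtain ⟨y, hy⟩ := hnd w hw0
    obtain ⟨d, rfl⟩ := hw y
    rw [map_smul, smul_eq_mul, bOn_apply, b_self hQ] at hy
    obtain ⟨c, hc⟩ := hline w (mem_eig.1 w.2) fun h0 => hy (by rw [h0, mul_zero, mul_zero])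
    refine ⟨c, fun v hv => ?_⟩
    obtain ⟨e, he⟩ := hw ⟨v, mem_eig.2 hv⟩
    rw [show v = e • (w : ι → F) from (congrArg Subtype.val he).symm, semi_smul, hc, hτ, RingEquiv.refl_apply,
      smul_comm]
  obtain ⟨cμ, hcμ⟩ := semisim_exists h
  have hb : ∀ x y, bform hQ (semi G τ x) (semi G τ y) = cμ * τ (bform hQ x y) := fun x y => by
    have e1 := q_add hQ (semi G τ x) (semi G τ y)
    rw [← semi_add, hcμ, hcμ, hcμ, q_add hQ x y, map_add, map_add] at e1
    linear_combination -e1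
  have hmem : ∀ v ∈ W, semi G τ v ∈ W := by
    intro v hv
    by_cases hv0 : Q v = 0
    · obtain ⟨u, -, hu⟩ := exists_value hsymm hnd h2 (nondegOn_top hsymm hnd) (by rw [finrank_top]; omega)
        one_ne_zero
      rw [bOn_apply, b_self hQ] at hu
      have hu0 : Q (u : ι → F) ≠ 0 := fun e => by rw [e, mul_zero] at hu; exact zero_ne_one hu
      have hW : ∀ z ∈ W, Q z ≠ 0 → semi G τ z ∈ W := fun z hz hz0 => by
        obtain ⟨c, hc⟩ := hline z (mem_eig.1 hz) hz0
        rw [hc]; exact W.smul_mem _ hz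
      have e : Q (v + (u : ι → F)) ≠ 0 ∨ Q (v - (u : ι → F)) ≠ 0 := by
        by_contra hh
        push Not at hh
        obtain ⟨e1, e2⟩ := hh
        rw [q_add hQ] at e1; rw [q_sub hQ] at e2
        exact hu0 ((mul_eq_zero.1 (show (2 : F) * Q (u : ι → F) = 0 by linear_combination e1 + e2 - 2 * hv0)).resolve_left h2)
      have hsub : ∀ x y : ι → F, semi G τ (x - y) = semi G τ x - semi G τ y := fun x y => by
        rw [eq_sub_iff_add_eq, ← semi_add, sub_add_cancel]
      rcases e with e | e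
      · have := W.sub_mem (hW _ (W.add_mem hv u.2) e) (hW _ u.2 hu0)
        rwa [← hsub, add_sub_cancel_right] at this
      · have := W.add_mem (hW _ (W.sub_mem hv u.2) e) (hW _ u.2 hu0)
        rwa [← semi_add, sub_add_cancel] at this
    · obtain ⟨c, hc⟩ := hline v (mem_eig.1 hv) hv0
      rw [hc]; exact W.smul_mem _ hv
  have hinj : ∀ x : W, (⟨semi G τ x, hmem _ x.2⟩ : W) = 0 → x = 0 := fun x hx => by
    have h1 := congrArg (fun z : W => ((G⁻¹ : GL ι F) : Matrix ι ι F) *ᵥ (z : ι → F)) hx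
    simp only [semi, inv_mulVec_cancel, Submodule.coe_zero, Matrix.mulVec_zero] at h1
    exact Subtype.ext (funext fun i => τ.injective (by simpa using congrFun h1 i))
  obtain ⟨hτ, c, -, hc⟩ := semilinear_scalar hsymm hnd h2 h1 (fun x => (⟨semi G τ x, hmem _ x.2⟩ : W)) τ
    (fun x y => Subtype.ext (semi_add G τ x y)) (fun t x => Subtype.ext (semi_smul G τ t x)) hinj
    (fun x y => hb _ _) (fun x hx => by
      rw [bOn_apply, b_self hQ] at hx
      obtain ⟨c, hc⟩ := hline x (mem_eig.1 x.2) fun h0 => hx (by rw [h0, mul_zero])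
      exact ⟨c, Subtype.ext hc⟩)
  exact ⟨fun _ => hτ, fun _ => ⟨c, fun v hv => congrArg Subtype.val (hc ⟨v, mem_eig.2 hv⟩)⟩⟩

/-- The pointwise stabiliser of the fixed points is generated by `g`. -/
theorem hfix_eigen (hall : ∀ β : MulAut (POmega F Q), IsSemisim Q β)
    (hk : Odd (finrank F (eig (g : GL ι F) s))) (hk' : Odd (finrank F (eig (g : GL ι F) (-s))))
    (β : MulAut (POmega F Q)) (hfix : ∀ k, CommutesWith g k → β (QuotientGroup.mk k) = QuotientGroup.mk k)
    (_ : β * conjS Q g = conjS Q g * β) :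
    β ∈ Subgroup.zpowers (conjS Q g) := by
  obtain ⟨G, τ, h, rfl⟩ := hall β
  have hsum := finrank_add hQ h2 hn hs hsq hmul
  obtain ⟨i, hi⟩ := id hk
  obtain ⟨i', hi'⟩ := id hk'
  have hd : 5 ≤ finrank F (eig (g : GL ι F) s) ∨ 5 ≤ finrank F (eig (g : GL ι F) (-s)) := by omega
  have h1 := scalar_semi hQ h2 hn hs hsq hmul hd h hfix hk
  have h3 := scalar_semi hQ h2 hn (neg_ne_zero.2 hs) (by simpa [neg_sq] using hsq) (by simpa [neg_sq] using hmul)
    (by rw [neg_neg]; exact hd.symm) h hfix hk'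
  have hτ : τ = RingEquiv.refl F := hd.elim (fun e => h1.1 (by omega)) (fun e => h3.1 (by omega))
  obtain ⟨c, hc⟩ := h1.2 hτ
  obtain ⟨d, hd'⟩ := h3.2 hτ
  subst hτ
  have hGv : ∀ v, semi G (RingEquiv.refl F) v = (G : Matrix ι ι F) *ᵥ v := fun v => rfl
  have hall' : ∀ v, ∀ x y, gM *ᵥ x = s • x → gM *ᵥ y = -s • y → v = x + y →
      (G : Matrix ι ι F) *ᵥ v = c • x + d • y := fun v x y hx hy e => by
    rw [e, ← hGv, semi_add, hc x hx, hd' y hy]
  obtain ⟨cμ, hcμ⟩ := semisim_exists h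
  have hG : G ∈ quadSimilarityGroup Q := ⟨cμ, fun v => hcμ v⟩
  have hcd : d = c ∨ d = -c := by
    obtain ⟨u, hu, hu0⟩ := exists_aniso_neg hQ h2 hn hs hsq hmul (by omega)
    obtain ⟨w, hw, hw0⟩ := exists_aniso_neg hQ h2 hn (neg_ne_zero.2 hs) (by simpa [neg_sq] using hsq)
      (by simpa [neg_sq] using hmul) (by rw [neg_neg]; omega)
    rw [neg_neg] at hw
    have e1 := hcμ u
    have e2 := hcμ w
    rw [hd' u hu, q_smul hQ] at e1
    rw [hc w hw, q_smul hQ] at e2
    refine sq_eq_sq_iff_eq_or_eq_neg.1 ?_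
    rw [mul_right_cancel₀ hu0 e1, mul_right_cancel₀ hw0 e2]
  rw [← show conjS Q ⟨G, hG⟩ = twistP h from rfl]
  rcases hcd with rfl | rfl
  · rw [conjS_eq_one_of_scalar (g := ⟨G, hG⟩) (c := d) fun v => by
      obtain ⟨x, y, hx, hy, e⟩ := eig_decomp hQ h2 hn hs hsq hmul v
      rw [hall' v x y hx hy e, e, smul_add]]
    exact one_mem _
  · have hGg : ∀ v, (G : Matrix ι ι F) *ᵥ v = (c / s) • gM *ᵥ v := fun v => by
      obtain ⟨x, y, hx, hy, e⟩ := eig_decomp hQ h2 hn hs hsq hmul v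
      rw [hall' v x y hx hy e, e, Matrix.mulVec_add, hx, hy]
      match_scalars <;> field_simp
    have e : conjS Q (⟨G, hG⟩ * g⁻¹) = 1 := conjS_eq_one_of_scalar (c := c / s) fun v => by
      rw [Subgroup.coe_mul, Units.val_mul, ← Matrix.mulVec_mulVec, hGg, Subgroup.coe_inv, mulVec_inv_cancel]
    rw [map_mul, map_inv, mul_inv_eq_one] at e
    rw [e]
    exact Subgroup.mem_zpowers _

/-- The `2'`-core of the centraliser is trivial. -/
theorem core_eq_bot_eigen (hall : ∀ β : MulAut (POmega F Q), IsSemisim Q β)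
    (hk : Odd (finrank F (eig (g : GL ι F) s))) (hk' : Odd (finrank F (eig (g : GL ι F) (-s))))
    (A : Subgroup (MulAut (POmega F Q))) (hinn : ∀ k, MulAut.conj k ∈ A) (hord : orderOf (conjS Q g) = 2) :
    pPrimeCore 2 ↥(A ⊓ Subgroup.centralizer {conjS Q g}) = ⊥ :=
  core_eq_bot_inv hQ h2 (by omega) A hinn g hord
    (fun P N hN hpow hcomm hnorm k hkP => hM_eigen hQ h2 hn hs hsq hmul hk hk' P N hN hpow hcomm hnorm k hkP)
    (hfix_eigen hQ h2 hn hs hsq hmul hall hk hk')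

end CfsgLib.AutOrth.InvCentral
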