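import Cfsg.Agent.AutOrth.Conformal
import Cfsg.Agent.AutPSp.FixedCore
import Cfsg.Agent.AutOrthMinus.FieldPart
import Cfsg.Agent.AutOrthField.Action
import Cfsg.Agent.Classical.Orth.Omega
import Cfsg.Agent.Eq.Def_Solvable
import Cfsg.Prelude.Def_Solvable

/-! The `2'`-core of the centraliser of an involutory similarity: the part common to all types. -/

set_option autoImplicit false
set_option linter.unusedSectionVars false

namespace CfsgLib.AutOrth.InvCentral

open Cfsg Cfsg.Geo CfsgLib.OrthGeo CfsgLib.AutOrth Module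
open scoped Matrix MatrixGroups

variable {ι : Type} [Fintype ι] [DecidableEq ι] {F : Type*} [Field F] [Fintype F] {Q : (ι → F) → F}

/-- `Omega` acting on the natural module. -/
noncomputable def act (Q : (ι → F) → F) : Omega F Q →* Module.End F (ι → F) :=
  (Matrix.toLinAlgEquiv' : Matrix ι ι F ≃ₐ[F] Module.End F (ι → F)).toMonoidHom.comp
    ((Units.coeHom _).comp ((isometryGroup F Q).subtype.comp (Omega F Q).subtype))

lemma act_apply (k : Omega F Q) (v : ι → F) :
    act Q k v = (((k : isometryGroup F Q) : GL ι F) : Matrix ι ι F) *ᵥ v := rfl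

lemma act_isometry (k : Omega F Q) (v : ι → F) : Q (act Q k v) = Q v :=
  mem_isometryGroup.1 (k : isometryGroup F Q).2 v

lemma act_injective : Function.Injective (act Q) := fun a b h =>
  Subtype.ext (Subtype.ext (gl_ext fun v => LinearMap.congr_fun h v))

/-- The elements of `Omega` commuting with `g`. -/
def CommutesWith (g : quadSimilarityGroup Q) (k : Omega F Q) : Prop :=
  ∀ v, ((g : GL ι F) : Matrix ι ι F) *ᵥ act Q k v = act Q k (((g : GL ι F) : Matrix ι ι F) *ᵥ v)

variable (hQ : IsNondegenerateQuadraticForm Q) (h2 : (2 : F) ≠ 0) (hn : 5 ≤ Fintype.card ι)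
include hQ h2 hn

lemma act_b (k : Omega F Q) (x y : ι → F) : bform hQ (act Q k x) (act Q k y) = bform hQ x y :=
  isometry_b hQ (k : isometryGroup F Q).2 x y

/-- Central elements of `Omega` act as `±1`. -/
lemma act_of_center {k : Omega F Q} (hk : k ∈ Subgroup.center (Omega F Q)) : act Q k = 1 ∨ act Q k = -1 := by
  obtain ⟨c, hc⟩ := scalar_of_commute_omega hQ hn (g := ((k : isometryGroup F Q) : GL ι F)) (by
    rintro _ ⟨s, hs, rfl⟩
    exact congrArg (fun z : Omega F Q => ((z : isometryGroup F Q) : GL ι F))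
      (Subgroup.mem_center_iff.1 hk ⟨s, hs⟩))
  have : Nonempty ι := Fintype.card_pos_iff.1 (by omega)
  obtain ⟨v, hv⟩ := AutOrthField.exists_q_ne_zero hQ
  have h := act_isometry k v
  rw [act_apply, hc, q_smul hQ] at h
  have h1 : c ^ 2 = 1 := mul_right_cancel₀ hv (by rw [h, one_mul])
  rcases sq_eq_one_iff.1 h1 with rfl | rfl
  · exact Or.inl (LinearMap.ext fun x => by rw [act_apply, hc, one_smul]; rfl)
  · exact Or.inr (LinearMap.ext fun x => by rw [act_apply, hc, neg_one_smul]; rfl)

lemma mk_eq_one_of_scalar {k : Omega F Q} (hk : act Q k = 1 ∨ act Q k = -1) :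
    (QuotientGroup.mk k : POmega F Q) = 1 := by
  refine (QuotientGroup.eq_one_iff _).2 (Subgroup.mem_center_iff.2 fun t => act_injective ?_)
  rw [map_mul, map_mul]
  rcases hk with h | h <;> rw [h] <;> refine LinearMap.ext fun v => ?_ <;> simp

lemma neg_ne_self {v : ι → F} (hv : v ≠ 0) : -v ≠ v := fun h => hv (by
  have : (2 : F) • v = 0 := by linear_combination (norm := module) -h
  exact (smul_eq_zero.1 this).resolve_left h2)

lemma conjS_mk (g : quadSimilarityGroup Q) {k : Omega F Q} (hk : CommutesWith g k) :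
    conjS Q g (QuotientGroup.mk k) = QuotientGroup.mk k := by
  rw [conjS_apply, twistP_mk]
  congr 1
  refine Subtype.ext (Subtype.ext ?_)
  rw [coe_twistOmega]
  refine twist_eq_of_mulVec fun v => ?_
  exact (hk v).symm

/-- A semisimilarity fixing an element of `PΩ` commutes with it up to sign. -/
lemma semi_commute' {G : GL ι F} {τ : F ≃+* F} (h : IsSemisimilarityPair Q G τ) (k : Omega F Q)
    (hk : twistP h (QuotientGroup.mk k) = QuotientGroup.mk k) :
    (∀ v, semi G τ (act Q k v) = act Q k (semi G τ v)) ∨ (∀ v, semi G τ (act Q k v) = -act Q k (semi G τ v)) := by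
  rw [twistP_mk, eq_comm, QuotientGroup.eq] at hk
  have e : twistOmega h k = k * (k⁻¹ * twistOmega h k) := (mul_inv_cancel_left _ _).symm
  have ht : ∀ v, semi G τ (act Q k v) = act Q (twistOmega h k) (semi G τ v) := fun v =>
    (twist_mulVec G τ ((k : isometryGroup F Q) : GL ι F) v).symm
  rcases act_of_center hQ h2 hn hk with e' | e'
  · exact Or.inl fun v => by rw [ht, e, map_mul, e', mul_one]
  · exact Or.inr fun v => by
      rw [ht, e, map_mul, e', Module.End.mul_apply, LinearMap.neg_apply, Module.End.one_apply, map_neg]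

/-- The `2'`-core is trivial given the two properties of the centraliser of `g`. -/
theorem core_eq_bot_inv (A : Subgroup (MulAut (POmega F Q))) (hinn : ∀ k, MulAut.conj k ∈ A)
    (g : quadSimilarityGroup Q) (hord : orderOf (conjS Q g) = 2)
    (hM : ∀ (P : Subgroup (Omega F Q)) (N : ℕ), Odd N → (∀ k ∈ P, act Q k ^ N = 1 ∨ act Q k ^ N = -1) →
      (∀ k ∈ P, CommutesWith g k) → (∀ h, CommutesWith g h → ∀ k ∈ P, h * k * h⁻¹ ∈ P) →
      ∀ k ∈ P, act Q k = 1 ∨ act Q k = -1)
    (hfix : ∀ β : MulAut (POmega F Q), (∀ h, CommutesWith g h → β (QuotientGroup.mk h) = QuotientGroup.mk h) →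
      β * conjS Q g = conjS Q g * β → β ∈ Subgroup.zpowers (conjS Q g)) :
    pPrimeCore 2 ↥(A ⊓ Subgroup.centralizer {conjS Q g}) = ⊥ := by
  have : Fact (Nat.Prime 2) := ⟨Nat.prime_two⟩
  set x := conjS Q g
  set C := MonoidHom.eqLocus x.toMonoidHom (MonoidHom.id (POmega F Q)) with hC
  have hmem : ∀ h, CommutesWith g h → (QuotientGroup.mk h : POmega F Q) ∈ C := fun h hh => conjS_mk hQ h2 hn g hh
  refine AutPSp.core_eq_bot A x hord hinn (AutOrthMinus.conj_injective hQ hn) C (fun s hs => hs)
    (fun c hc s hs => C.mul_mem (C.mul_mem hc hs) (C.inv_mem hc)) ?_ (fun n hn' hcomm => hfix n (fun h hh => hn' _ (hmem h hh)) hcomm)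
  intro M hMn hMc
  set P : Subgroup (Omega F Q) := (M.map C.subtype).comap (QuotientGroup.mk' _)
  set N := Nat.card M
  have hN : Odd N := by
    rw [← Nat.not_even_iff_odd, even_iff_two_dvd]
    intro h
    exact Nat.prime_two.ne_one (Nat.eq_one_of_dvd_coprimes hMc h dvd_rfl)
  have hPow : ∀ k ∈ P, act Q k ^ N = 1 ∨ act Q k ^ N = -1 := by
    rintro k ⟨c, hc, hck⟩
    rw [← map_pow]
    refine act_of_center hQ h2 hn ((QuotientGroup.eq_one_iff _).1 ?_)
    rw [QuotientGroup.mk_pow, show (QuotientGroup.mk k : POmega F Q) = C.subtype c from hck.symm, ← map_pow,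
      show c ^ N = 1 from congrArg Subtype.val (pow_card_eq_one' (x := (⟨c, hc⟩ : M))), map_one]
  have hcomm : ∀ k ∈ P, CommutesWith g k := by
    intro k hk
    obtain ⟨c, -, hck⟩ := id hk
    have h1 : x (QuotientGroup.mk k) = QuotientGroup.mk k := by
      have := c.2
      rw [show ((c : ↥C) : POmega F Q) = QuotientGroup.mk k from hck] at this
      exact this
    rw [show x = twistP _ from conjS_apply g, twistP_mk, eq_comm, QuotientGroup.eq] at h1
    set t := twistOmega (pair_of_mem_similarity g.2) k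
    have ht : ∀ v, act Q t (((g : GL ι F) : Matrix ι ι F) *ᵥ v) = ((g : GL ι F) : Matrix ι ι F) *ᵥ act Q k v :=
      fun v => twist_mulVec (g : GL ι F) (RingEquiv.refl F) ((k : isometryGroup F Q) : GL ι F) v
    have hz : act Q t = act Q k * act Q (k⁻¹ * t) := by rw [← map_mul, mul_inv_cancel_left]
    rcases act_of_center hQ h2 hn h1 with e | e <;> rw [e] at hz
    · intro v
      rw [← ht, hz, mul_one]
    exfalso
    have hi : ∀ (i : ℕ) v, ((g : GL ι F) : Matrix ι ι F) *ᵥ (act Q k ^ i) v =
        (-1 : F) ^ i • (act Q k ^ i) (((g : GL ι F) : Matrix ι ι F) *ᵥ v) := by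
      intro i
      induction i with
      | zero => simp
      | succ i ih =>
        intro v
        rw [pow_succ', Module.End.mul_apply, ← ht, hz, Module.End.mul_apply, LinearMap.neg_apply,
          Module.End.one_apply, map_neg, ih, map_smul, ← neg_smul, pow_succ', neg_one_mul, Module.End.mul_apply]
    have : Nonempty ι := Fintype.card_pos_iff.1 (by omega)
    obtain ⟨v, hv⟩ := AutOrthField.exists_q_ne_zero hQ
    have hv0 : ((g : GL ι F) : Matrix ι ι F) *ᵥ v ≠ 0 := fun h => hv (by
      rw [← inv_mulVec_cancel (g : GL ι F) v, h, Matrix.mulVec_zero, q_zero hQ])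
    have := hi N v
    rw [hN.neg_one_pow, neg_one_smul] at this
    rcases hPow k hk with e' | e' <;>
      simp only [e', Module.End.one_apply, LinearMap.neg_apply, Matrix.mulVec_neg, neg_neg] at this
    · exact neg_ne_self hQ h2 hn hv0 this.symm
    · exact neg_ne_self hQ h2 hn hv0 this
  have hnorm : ∀ h, CommutesWith g h → ∀ k ∈ P, h * k * h⁻¹ ∈ P := by
    rintro h hh k ⟨c, hc, hck⟩
    refine ⟨⟨_, hmem h hh⟩ * c * ⟨_, hmem h hh⟩⁻¹, hMn.conj_mem c hc _, ?_⟩
    change (QuotientGroup.mk h : POmega F Q) * C.subtype c * (QuotientGroup.mk h)⁻¹ = _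
    rw [hck]
    rfl
  refine (Subgroup.eq_bot_iff_forall _).2 fun c hc => Subtype.ext ?_
  obtain ⟨k, hk⟩ := QuotientGroup.mk_surjective (c : POmega F Q)
  have hkP : k ∈ P := ⟨c, hc, hk.symm⟩
  rw [← hk]
  exact mk_eq_one_of_scalar hQ h2 hn (hM P N hN hPow hcomm hnorm k hkP)

end CfsgLib.AutOrth.InvCentral
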