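import Cfsg.Agent.AutOrth.Conformal
import Cfsg.Agent.AutPSp.FixedCore
import Cfsg.Agent.Constrained.Basic
import Cfsg.Agent.Eq.Def_Solvable
import Cfsg.Prelude.Def_Solvable

/-! An isometry between two quadratic forms identifies their groups `PΩ`, compatibly with semisimilarities;
transport of a core criterion along an isomorphism. -/

set_option autoImplicit false
set_option linter.unusedSectionVars false

namespace CfsgLib.AutOrth.Transport

open Cfsg Cfsg.Geo CfsgLib.OrthGeo CfsgLib.AutOrth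
open scoped Matrix MatrixGroups

variable {ι : Type} [Fintype ι] [DecidableEq ι] {F : Type*} [Field F] {Q Q' : (ι → F) → F}
variable {P : GL ι F} (hP : ∀ v, Q' ((P : Matrix ι ι F) *ᵥ v) = Q v)
include hP

lemma map_isometryGroup :
    (isometryGroup F Q).map (MulAut.conj P).toMonoidHom = isometryGroup F Q' := by
  refine le_antisymm ?_ fun k hk => ⟨P⁻¹ * k * P, ?_, ?_⟩
  · rintro _ ⟨k, hk, rfl⟩
    refine mem_isometryGroup.2 fun v => ?_
    obtain ⟨w, rfl⟩ : ∃ w, v = (P : Matrix ι ι F) *ᵥ w := ⟨_, (mulVec_inv_cancel P v).symm⟩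
    show Q' (((P * k * P⁻¹ : GL ι F) : Matrix ι ι F) *ᵥ ((P : Matrix ι ι F) *ᵥ w)) = _
    rw [Units.val_mul, Units.val_mul, ← Matrix.mulVec_mulVec, inv_mulVec_cancel, ← Matrix.mulVec_mulVec, hP, hP,
      mem_isometryGroup.1 hk]
  · refine mem_isometryGroup.2 fun v => ?_
    rw [Units.val_mul, Units.val_mul, ← hP, ← Matrix.mulVec_mulVec, ← Matrix.mulVec_mulVec, mulVec_inv_cancel,
      mem_isometryGroup.1 hk, hP]
  · show P * (P⁻¹ * k * P) * P⁻¹ = k
    group

/-- The isometry groups. -/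
noncomputable def isoEquiv : isometryGroup F Q ≃* isometryGroup F Q' :=
  ((MulAut.conj P).subgroupMap (isometryGroup F Q)).trans (MulEquiv.subgroupCongr (map_isometryGroup hP))

lemma coe_isoEquiv (k : isometryGroup F Q) :
    ((isoEquiv hP k : isometryGroup F Q') : GL ι F) = P * k * P⁻¹ := rfl

lemma map_omega : (Omega F Q).map (isoEquiv hP).toMonoidHom = Omega F Q' := by
  show (commutator _).map _ = commutator _
  rw [commutator_def, Subgroup.map_commutator, ← MonoidHom.range_eq_map,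
    MonoidHom.range_eq_top.2 (isoEquiv hP).surjective]
  rfl

/-- The groups `Omega`. -/
noncomputable def omegaEquiv : Omega F Q ≃* Omega F Q' :=
  ((isoEquiv hP).subgroupMap (Omega F Q)).trans (MulEquiv.subgroupCongr (map_omega hP))

lemma coe_omegaEquiv (k : Omega F Q) :
    (((omegaEquiv hP k : Omega F Q') : isometryGroup F Q') : GL ι F) = P * ((k : isometryGroup F Q) : GL ι F) * P⁻¹ :=
  rfl

lemma map_center_omega : (Subgroup.center (Omega F Q)).map (omegaEquiv hP).toMonoidHom = Subgroup.center (Omega F Q') := by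
  ext y
  obtain ⟨x, rfl⟩ := (omegaEquiv hP).surjective y
  constructor
  · rintro ⟨x', hx', e⟩
    obtain rfl := (omegaEquiv hP).injective e
    refine Subgroup.mem_center_iff.2 fun z => ?_
    obtain ⟨z, rfl⟩ := (omegaEquiv hP).surjective z
    rw [← map_mul, ← map_mul, Subgroup.mem_center_iff.1 hx' z]
  · intro h
    refine ⟨x, Subgroup.mem_center_iff.2 fun z => (omegaEquiv hP).injective ?_, rfl⟩
    rw [map_mul, map_mul, Subgroup.mem_center_iff.1 h]

/-- The groups `PΩ`. -/
noncomputable def pOmEquiv : POmega F Q ≃* POmega F Q' :=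
  QuotientGroup.congr _ _ (omegaEquiv hP) (map_center_omega hP)

lemma pOmEquiv_mk (k : Omega F Q) : pOmEquiv hP (QuotientGroup.mk k) = QuotientGroup.mk (omegaEquiv hP k) := rfl

/-- A semisimilarity of `Q` moved to `Q'`. -/
lemma pair_transport {G : GL ι F} {σ : F ≃+* F} (h : IsSemisimilarityPair Q G σ) :
    IsSemisimilarityPair Q' (P * G * (mapGL σ P)⁻¹) σ := by
  obtain ⟨c, hc⟩ := semisim_exists h
  refine ⟨c, fun v => ?_⟩
  obtain ⟨w, rfl⟩ : ∃ w, v = (P : Matrix ι ι F) *ᵥ w := ⟨_, (mulVec_inv_cancel P v).symm⟩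
  show Q' (semi _ σ _) = _
  have e : semi (P * G * (mapGL σ P)⁻¹) σ ((P : Matrix ι ι F) *ᵥ w) = (P : Matrix ι ι F) *ᵥ semi G σ w := by
    rw [semi, map_mulVec_map, ← coe_mapGL]
    simp only [semi, Units.val_mul, ← Matrix.mulVec_mulVec, inv_mulVec_cancel]
  rw [e, hP, hP, hc]

lemma pOmEquiv_twistP {G : GL ι F} {σ : F ≃+* F} (h : IsSemisimilarityPair Q G σ) (y : POmega F Q) :
    pOmEquiv hP (twistP h y) = twistP (pair_transport hP h) (pOmEquiv hP y) := by
  obtain ⟨k, rfl⟩ := QuotientGroup.mk_surjective y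
  rw [twistP_mk, pOmEquiv_mk, pOmEquiv_mk, twistP_mk]
  congr 1
  refine Subtype.ext (Subtype.ext ?_)
  rw [coe_twistOmega, coe_omegaEquiv, coe_omegaEquiv, coe_twistOmega, twist_apply, twist_apply, map_mul, map_mul, map_inv]
  group

end CfsgLib.AutOrth.Transport

namespace CfsgLib.AutOrth.Transport

/-- Transport of the criterion along an isomorphism. -/
theorem criterion_iff {K K' : Type*} [Group K] [Group K'] (Ψ : K ≃* K') (p : ℕ) (x : MulAut K)
    (x' : MulAut K') (hx : ∀ k, Ψ (x k) = x' (Ψ k)) (A : Subgroup (MulAut K)) :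
    ∃ A' : Subgroup (MulAut K'), ((∀ k, MulAut.conj k ∈ A) → ∀ k, MulAut.conj k ∈ A') ∧
      (Cfsg.pPrimeCore p ↥(A ⊓ Subgroup.centralizer {x}) ≠ ⊥ ↔
        Cfsg.pPrimeCore p ↥(A' ⊓ Subgroup.centralizer {x'}) ≠ ⊥) ∧
      Nat.card ↥(MonoidHom.eqLocus x.toMonoidHom (MonoidHom.id K)) =
        Nat.card ↥(MonoidHom.eqLocus x'.toMonoidHom (MonoidHom.id K')) ∧ orderOf x = orderOf x' := by
  set e := MulAut.congr Ψ
  have hex : e x = x' := MulEquiv.ext fun k => by
    show Ψ (x (Ψ.symm k)) = x' k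
    rw [hx, MulEquiv.apply_symm_apply]
  refine ⟨A.map e.toMonoidHom, fun hinn k => ⟨MulAut.conj (Ψ.symm k), hinn _, MulEquiv.ext fun z => ?_⟩, ?_, ?_, ?_⟩
  · show Ψ (Ψ.symm k * Ψ.symm z * (Ψ.symm k)⁻¹) = k * z * k⁻¹
    rw [map_mul, map_mul, map_inv, MulEquiv.apply_symm_apply, MulEquiv.apply_symm_apply]
  · have hmap : (A ⊓ Subgroup.centralizer {x}).map e.toMonoidHom =
        A.map e.toMonoidHom ⊓ Subgroup.centralizer {x'} := by
      rw [← hex, Subgroup.map_inf _ _ _ e.injective]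
      congr 1
      ext y
      obtain ⟨y, rfl⟩ := e.surjective y
      rw [show e y = e.toMonoidHom y from rfl, Subgroup.mem_map_iff_mem e.injective,
        Subgroup.mem_centralizer_singleton_iff, Subgroup.mem_centralizer_singleton_iff]
      show _ ↔ e y * e x = e x * e y
      rw [← map_mul, ← map_mul, e.injective.eq_iff]
    let ε := ((e.subgroupMap (A ⊓ Subgroup.centralizer {x})).trans (MulEquiv.subgroupCongr hmap))
    rw [← CfsgLib.Constrained.pPrimeCore_map ε p, ne_eq, ne_eq,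
      Subgroup.map_eq_bot_iff_of_injective _ ε.injective]
  · refine Nat.card_congr (Ψ.toEquiv.subtypeEquiv fun k => ?_)
    change x k = k ↔ x' (Ψ k) = Ψ k
    rw [← hx, Ψ.injective.eq_iff]
  · rw [← hex, MulEquiv.orderOf_eq]

end CfsgLib.AutOrth.Transport
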