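import Cfsg.Agent.AutOrth.Rational
import Cfsg.Agent.AutOrthField.Odd
import Cfsg.Agent.Eq.Def_Solvable
import Cfsg.Prelude.Def_Solvable
import Mathlib.RingTheory.Invariant.Basic

/-! Failure of balance in almost simple groups with socle `Ω_{2m+1}(q)`. -/

set_option autoImplicit false
set_option linter.unusedSectionVars false

namespace CfsgLib.AutOrth.OddOut

open Cfsg Cfsg.Geo CfsgLib.OrthGeo CfsgLib.AutOrth CfsgLib.AutOrthField CfsgLib.Classical.Orth Module
open scoped Matrix MatrixGroups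

section abstract

/-- Normal subgroups of a group having a simple normal subgroup of index at most two. -/
theorem core_trivial {D : Type*} [Group D] [Finite D] (S K M : Subgroup D) [S.Normal] [K.Normal]
    (hS : IsSimpleGroup S) (heven : Even (Nat.card S)) (h2 : 2 < Nat.card S)
    (hidx : ∀ x y : D, x ∉ S → y ∉ S → x * y ∈ S)
    (hC : ∀ x : D, (∀ s ∈ S, x * s = s * x) → x = 1)
    (hK : ∀ x y : D, x ∉ K → y ∉ K → x * y ∈ K) :
    S ≤ K ∧ ∀ p : ℕ, p.Prime → M ≤ K → (∀ k ∈ K, ∀ m ∈ M, k * m * k⁻¹ ∈ M) → (Nat.card M).Coprime p →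
      p ∣ Nat.card K → M = ⊥ := by
  have hSK : S ≤ K := by
    have hn : (K.subgroupOf S).Normal := inferInstance
    rcases hn.eq_bot_or_eq_top with h | h
    · exfalso
      have hsub : ∀ s ∈ S, s ∈ K → s = 1 := fun s hs hk => by
        have : (⟨s, hs⟩ : S) ∈ K.subgroupOf S := hk
        rw [h, Subgroup.mem_bot] at this
        exact congrArg Subtype.val this
      have hle : Nat.card S ≤ 2 := by
        by_contra hgt
        obtain ⟨s, hs⟩ : ∃ s : S, s ≠ 1 := by
          by_contra h'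
          push Not at h'
          have : Subsingleton S := ⟨fun a b => by rw [h' a, h' b]⟩
          have := Nat.card_unique (α := S)
          omega
        obtain ⟨t, ht1, ht2⟩ : ∃ t : S, t ≠ 1 ∧ t ≠ s⁻¹ := by
          by_contra h'
          push Not at h'
          have hsub' : (Set.univ : Set S) ⊆ {1, s⁻¹} := fun t _ => by
            by_cases ht : t = 1
            · exact Or.inl ht
            · exact Or.inr (h' t ht)
          have := Set.ncard_le_ncard hsub'
          rw [Set.ncard_univ] at this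
          have := this.trans ((Set.ncard_insert_le _ _).trans (by rw [Set.ncard_singleton]))
          omega
        have hsK : (s : D) ∉ K := fun hk => hs (Subtype.ext (hsub _ s.2 hk))
        have htK : (t : D) ∉ K := fun hk => ht1 (Subtype.ext (hsub _ t.2 hk))
        have h1 := hsub _ (mul_mem t.2 s.2) (hK _ _ htK hsK)
        exact ht2 (eq_inv_of_mul_eq_one_left (Subtype.ext h1))
      omega
    · exact fun s hs => show (⟨s, hs⟩ : S) ∈ K.subgroupOf S from h ▸ Subgroup.mem_top _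
  refine ⟨hSK, fun p hp hMK hMn hco hdvd => ?_⟩
  have hn : (M.subgroupOf S).Normal := ⟨fun m hm s => hMn s (hSK s.2) m hm⟩
  rcases hn.eq_bot_or_eq_top with h | h
  · refine (Subgroup.eq_bot_iff_forall M).2 fun m hm => hC m fun s hs => ?_
    have h1 : m * s * m⁻¹ * s⁻¹ ∈ S := mul_mem (Subgroup.Normal.conj_mem inferInstance s hs m) (inv_mem hs)
    have h2 : m * s * m⁻¹ * s⁻¹ ∈ M := by
      rw [show m * s * m⁻¹ * s⁻¹ = m * (s * m⁻¹ * s⁻¹) by group]
      exact mul_mem hm (hMn s (hSK hs) _ (inv_mem hm))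
    have h3 : (⟨_, h1⟩ : S) ∈ M.subgroupOf S := h2
    rw [h, Subgroup.mem_bot] at h3
    exact mul_inv_eq_iff_eq_mul.1 (mul_inv_eq_one.1 (congrArg Subtype.val h3))
  · exfalso
    have hSM : S ≤ M := fun s hs => show (⟨s, hs⟩ : S) ∈ M.subgroupOf S from h ▸ Subgroup.mem_top _
    have hpS : ¬ p ∣ Nat.card S := fun hd =>
      (Nat.Prime.coprime_iff_not_dvd hp).1 hco.symm (hd.trans (Subgroup.card_dvd_of_le hSM))
    have hp2 : p = 2 := by
      have hcard : p ∣ Nat.card D := hdvd.trans (Subgroup.card_subgroup_dvd_card K)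
      rw [← Subgroup.card_mul_index S] at hcard
      have h2' : S.index ∣ 2 := by
        by_cases htop : S = ⊤
        · rw [htop, Subgroup.index_top]; exact one_dvd 2
        · obtain ⟨a, ha⟩ : ∃ a, a ∉ S := by
            by_contra h'
            push Not at h'
            exact htop (eq_top_iff.2 fun x _ => h' x)
          refine (Subgroup.index_eq_two_iff.2 ⟨a, fun b => ?_⟩).dvd
          by_cases hb : b ∈ S
          · refine Or.inr ⟨hb, fun hba => ha ?_⟩
            simpa using mul_mem (inv_mem hb) hba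
          · exact Or.inl ⟨hidx b a hb ha, hb⟩
      exact (Nat.prime_dvd_prime_iff_eq hp Nat.prime_two).1
        (((hp.dvd_mul.1 hcard).resolve_left hpS).trans h2')
    exact hpS (hp2 ▸ even_iff_two_dvd.1 heven)

/-- Conjugating back into a cyclic group. -/
theorem mem_zpowers_conj {G : Type*} [Group G] {x : G} (a φ b n : G) (hb : b ∈ Subgroup.zpowers φ)
    (hn : a⁻¹ * n * a = b) (hx : x = a * φ * a⁻¹) : n ∈ Subgroup.zpowers x := by
  obtain ⟨k, rfl⟩ := Subgroup.mem_zpowers_iff.1 hb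
  refine Subgroup.mem_zpowers_iff.2 ⟨k, ?_⟩
  rw [hx, conj_zpow, ← hn]; group

end abstract

/-- A ring automorphism fixing the fixed field of `σ` is a power of `σ`. -/
theorem mem_zpowers_of_fix {F : Type*} [Field F] [Finite F] {σ τ : RingAut F}
    (h : ∀ t, σ t = t → τ t = t) : τ ∈ Subgroup.zpowers σ := by
  have : Finite (RingAut F) := Finite.of_injective (fun s : RingAut F => (s : F → F)) DFunLike.coe_injective
  let G := Subgroup.zpowers σ
  let a : F ≃ₐ[FixedPoints.subfield G F] F := AlgEquiv.ofRingEquiv (f := τ) fun x =>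
    h x.1 (x.2 ⟨σ, Subgroup.mem_zpowers σ⟩)
  obtain ⟨g, hg⟩ := FixedPoints.toAlgAut_surjective G F a
  have : τ = g.1 := RingEquiv.ext fun t => (DFunLike.congr_fun hg t).symm
  exact this ▸ g.2

variable {F : Type*} [Field F] [Fintype F] {m : ℕ}

local notation "Io" => Unit ⊕ (Fin m ⊕ Fin m)

theorem isInnerDiagonal_iff (β : MulAut (POmega F (quadFormOdd m F))) :
    IsInnerDiagonalAutPOmegaOdd m β ↔ β ∈ (⊤ : Subgroup (Sim (quadFormOdd m F))).map (conjS _) := by
  constructor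
  · rintro ⟨g, hg, h⟩
    exact ⟨⟨g, hg⟩, trivial, (induced_iff hg β).1 h⟩
  · rintro ⟨g, -, rfl⟩
    exact ⟨g.1, g.2, (induced_iff g.2 _).2 rfl⟩

variable (hodd : Odd (Fintype.card F)) (hm : 3 ≤ m)
include hodd hm

/-- Two inner-diagonal automorphisms which are not inner have inner product. -/
theorem inndiag_dichotomy {x y : MulAut (POmega F (quadFormOdd m F))}
    (hx : x ∈ inndiagPOmegaOdd m F) (hy : y ∈ inndiagPOmegaOdd m F)
    (hx' : x ∉ Inn (POmega F (quadFormOdd m F))) (hy' : y ∉ Inn (POmega F (quadFormOdd m F))) :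
    x * y ∈ Inn (POmega F (quadFormOdd m F)) := by
  have hQ := isNondegenerateQuadraticForm_quadFormOdd m (two_ne_zero_of_odd hodd)
  have hn : 5 ≤ Fintype.card Io := by rw [card_oddIndex]; omega
  have hexc : ¬ (Nat.card F = 2 ∧ Fintype.card Io = 4) := by omega
  rw [inndiag_odd_eq] at hx hy
  obtain ⟨g, -, rfl⟩ := hx
  obtain ⟨g', -, rfl⟩ := hy
  obtain ⟨u, a, rfl⟩ := exists_scalar_mul_isometry hQ (by rw [card_oddIndex]; exact odd_two_mul_add_one m) g
  obtain ⟨u', b, rfl⟩ := exists_scalar_mul_isometry hQ (by rw [card_oddIndex]; exact odd_two_mul_add_one m) g'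
  simp only [map_mul, conjS_scalarSim, one_mul] at hx' hy' ⊢
  rw [conjS_mem_inn_iff hQ hn hexc] at hx' hy'
  rw [← map_mul, ← map_mul, conjS_mem_inn_iff hQ hn hexc, map_mul]
  have hcls : ∀ z x y : Cls, z.1 ≠ 1 → ¬ (x = 1 ∨ x = z) → ¬ (y = 1 ∨ y = z) → (x * y = 1 ∨ x * y = z) := by
    decide
  exact hcls _ _ _ (negOne_fst hQ (two_ne_zero_of_odd hodd) (by rw [card_oddIndex]; exact odd_two_mul_add_one m)
    hexc) hx' hy'

/-- `Ω_{2m+1}(q)` has even order. -/
theorem even_card : Even (Nat.card (POmega F (quadFormOdd m F))) := by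
  set Q := quadFormOdd m F
  have h2 := two_ne_zero_of_odd hodd
  have hQ : IsNondegenerateQuadraticForm Q := isNondegenerateQuadraticForm_quadFormOdd m h2
  have hn : 5 ≤ Fintype.card Io := by rw [card_oddIndex]; omega
  have hexc : ¬ (Nat.card F = 2 ∧ Fintype.card Io = 4) := by omega
  have hz1 := negOne_fst hQ h2 (by rw [card_oddIndex]; exact odd_two_mul_add_one m) hexc
  obtain ⟨d, hd⟩ := exists_not_isSquare (F := F) h2
  obtain ⟨v, hv0, hv⟩ : ∃ v, Q v ≠ 0 ∧
      (IsSquare (Q v) ↔ (classHom hQ hexc (negOne hQ)).2 = 1) := by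
    by_cases hz : (classHom hQ hexc (negOne hQ)).2 = 1
    · obtain ⟨v, hv⟩ := exists_q_eq hQ (by omega) (one_ne_zero (α := F))
      exact ⟨v, by rw [hv]; exact one_ne_zero, iff_of_true (by rw [hv]; exact IsSquare.one) hz⟩
    · have hd0 : d ≠ 0 := fun h => hd (h ▸ IsSquare.zero)
      obtain ⟨v, hv⟩ := exists_q_eq hQ (by omega) hd0
      exact ⟨v, by rw [hv]; exact hd0, iff_of_false (by rw [hv]; exact hd) hz⟩
  have hcls : ∀ x z : Cls, z.1 ≠ 1 → x.1 = Multiplicative.ofAdd 1 → x.2 = z.2 → z * x = 1 := by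
    decide
  have h01 : ∀ a : Multiplicative (ZMod 2), a ≠ 1 → a = Multiplicative.ofAdd 1 := by decide
  have hsnd : ∀ a b : Multiplicative (ZMod 2), (a = 1 ↔ b = 1) → a = b := fun a b h => by
    by_cases ha : a = 1
    · rw [ha, h.1 ha]
    · rw [h01 a ha, h01 b (fun hb => ha (h.2 hb))]
  have hj : negOne hQ * refl hQ hv0 ∈ Omega F Q := by
    rw [← ker_classHom hQ hexc, MonoidHom.mem_ker, map_mul]
    exact hcls _ _ hz1 (classHom_refl_fst hQ hexc hv0) (hsnd _ _ ((classHom_refl_snd hQ hexc hv0).trans hv))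
  set j : Omega F Q := ⟨_, hj⟩
  have hmv : ∀ x, (((negOne hQ * refl hQ hv0 : isometryGroup F Q) : GL Io F) : Matrix Io Io F) *ᵥ x =
      -(x - (bform hQ v x / Q v) • v) := by
    intro x
    rw [Subgroup.coe_mul, Units.val_mul, ← Matrix.mulVec_mulVec, coe_refl hQ, reflection_mulVec hQ hv0]
    show ((-1 : GL Io F) : Matrix Io Io F) *ᵥ _ = _
    rw [Units.val_neg, Units.val_one, Matrix.neg_mulVec, Matrix.one_mulVec, div_eq_inv_mul]
  have hvv : bform hQ v v / Q v = 2 := by rw [b_self hQ, mul_div_cancel_right₀ _ hv0]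
  have hjne : (QuotientGroup.mk j : POmega F Q) ≠ 1 := by
    intro hone
    have h1 : MulAut.conj (QuotientGroup.mk j : POmega F Q) = 1 := by rw [hone, map_one]
    rw [← conjS_omega] at h1
    obtain ⟨a, ha⟩ := scalar_of_conjS_eq_one hQ hn h1
    have ha' : ∀ x, (((negOne hQ * refl hQ hv0 : isometryGroup F Q) : GL Io F) : Matrix Io Io F) *ᵥ x = a • x := ha
    have hva := ha' v
    rw [hmv, hvv] at hva
    have hv0' : v ≠ 0 := fun h => hv0 (by rw [h, q_zero hQ])
    have ha1 : a = 1 := by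
      have : (a - 1) • v = 0 := by linear_combination (norm := module) -hva
      exact sub_eq_zero.1 ((smul_eq_zero.1 this).resolve_right hv0')
    obtain ⟨y, hy, hy0⟩ := Submodule.exists_mem_ne_zero_of_ne_bot (p := perp hQ (Submodule.span F {v}))
      (fun h => by
        have h3 := finrank_perp_add hQ (Submodule.span F {v})
        rw [h, finrank_bot, finrank_span_singleton hv0'] at h3
        omega)
    rw [mem_perp_span_singleton hQ] at hy
    have hya := ha' y
    rw [hmv, hy, zero_div, zero_smul, sub_zero, ha1, one_smul] at hya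
    have : (2 : F) • y = 0 := by linear_combination (norm := module) -hya
    exact hy0 ((smul_eq_zero.1 this).resolve_left h2)
  have hjj : (QuotientGroup.mk j : POmega F Q) * QuotientGroup.mk j = 1 := by
    rw [← QuotientGroup.mk_mul, show j * j = 1 from Subtype.ext (Subtype.ext (gl_ext fun x => by
      show ((((negOne hQ * refl hQ hv0) * (negOne hQ * refl hQ hv0) : isometryGroup F Q) : GL Io F) :
        Matrix Io Io F) *ᵥ x = ((1 : GL Io F) : Matrix Io Io F) *ᵥ x
      rw [Subgroup.coe_mul, Units.val_mul, ← Matrix.mulVec_mulVec, hmv, hmv, Units.val_one, Matrix.one_mulVec]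
      simp only [map_sub, map_smul, smul_eq_mul, neg_sub]
      rw [show (bform hQ v x / Q v * bform hQ v v - bform hQ v x) / Q v = bform hQ v x / Q v from by
        rw [b_self hQ]; field_simp; ring]
      abel)), QuotientGroup.mk_one]
  rw [even_iff_two_dvd, show 2 = orderOf (QuotientGroup.mk j : POmega F Q) from
    (orderOf_eq_prime (by rw [sq]; exact hjj) hjne).symm]
  exact orderOf_dvd_natCard _

/-- Every non-inner-diagonal automorphism of prime order is a field automorphism. -/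
theorem exists_field_form {p : ℕ} (hp : p.Prime) {x : MulAut (POmega F (quadFormOdd m F))}
    (hord : orderOf x = p) (hnot : ¬ IsInnerDiagonalAutPOmegaOdd m x) :
    ∃ (σ : RingAut F) (g : Sim (quadFormOdd m F)), orderOf σ = p ∧ IsFieldAutClassPOmega (quadFormOdd m F) x ∧
      x = conjS _ g * fieldHom σ * (conjS _ g)⁻¹ := by
  have h2 := two_ne_zero_of_odd hodd
  have hQ := isNondegenerateQuadraticForm_quadFormOdd m h2
  have hn : 5 ≤ Fintype.card Io := by rw [card_oddIndex]; omega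
  have hno : Odd (Fintype.card Io) := by rw [card_oddIndex]; exact odd_two_mul_add_one m
  obtain ⟨h, σ, rfl⟩ := decomposition hodd hm x
  have hσ1 : σ ≠ 1 := fun e => hnot ((isInnerDiagonal_iff _).2 ⟨toSim _ h, trivial, by rw [e, map_one, mul_one]⟩)
  have hpow : (conjS _ (toSim _ h) * mapP (sigmaInv (m := m) σ)) ^ p = 1 :=
    hord ▸ pow_orderOf_eq_one (conjS _ (toSim _ h) * fieldHom σ)
  have hσp : orderOf σ = p := by
    rw [conjS_mul_mapP_pow] at hpow
    obtain ⟨u, a, ha⟩ := exists_scalar_mul_isometry hQ hno (AutOrthField.twist (sigmaInv σ) (toSim _ h) p)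
    rw [ha, map_mul, conjS_scalarSim, one_mul] at hpow
    have := hp
    exact orderOf_eq_prime (hp := Fact.mk hp) (fieldHom_eq_conjS hodd hm (h := a⁻¹)
      (show fieldHom (σ ^ p) = _ by rw [map_inv, map_inv]; exact eq_inv_of_mul_eq_one_right hpow)) hσ1
  have : Nonempty Io := ⟨.inl ()⟩
  obtain ⟨g, hg⟩ := exists_twist_conj hQ hn (sigmaInv σ) hσp hp.pos
    (hasDescent_odd hQ h2 hno _ hσp hp.pos) (toSim _ h) hpow
  refine ⟨σ, g, hσp, ⟨(conjS _ g)⁻¹, mapP (sigmaInv σ), σ, hσ1, (isFieldAutOf_iff _ _).2 rfl, ?_⟩, hg⟩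
  show (conjS _ g)⁻¹ * (conjS _ (toSim _ h) * mapP (sigmaInv σ)) * (conjS _ g)⁻¹⁻¹ = _
  rw [hg]; group

/-- The fixed points of `x` correspond to the inner automorphisms centralising it. -/
theorem card_eqLocus (x : MulAut (POmega F (quadFormOdd m F))) :
    Nat.card ↥(MonoidHom.eqLocus x.toMonoidHom (MonoidHom.id (POmega F (quadFormOdd m F)))) =
      Nat.card ↥(Inn (POmega F (quadFormOdd m F)) ⊓ Subgroup.centralizer {x}) := by
  have hQ := isNondegenerateQuadraticForm_quadFormOdd m (two_ne_zero_of_odd hodd)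
  have hn : 5 ≤ Fintype.card Io := by rw [card_oddIndex]; omega
  have hinj := conj_injective hQ hn
  have hiff : ∀ k, x k = k ↔ MulAut.conj k * x = x * MulAut.conj k := by
    intro k
    have h1 : x * MulAut.conj k = MulAut.conj (x k) * x := MulEquiv.ext fun z => by simp
    rw [h1, mul_left_inj]
    exact ⟨fun h => by rw [h], fun h => (hinj h).symm⟩
  have hmap : (MonoidHom.eqLocus x.toMonoidHom (MonoidHom.id _)).map MulAut.conj =
      Inn (POmega F (quadFormOdd m F)) ⊓ Subgroup.centralizer {x} := by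
    ext β
    rw [Subgroup.mem_inf, Subgroup.mem_centralizer_singleton_iff]
    constructor
    · rintro ⟨k, hk, rfl⟩
      exact ⟨⟨k, rfl⟩, (hiff k).1 hk⟩
    · rintro ⟨⟨k, rfl⟩, h⟩
      exact ⟨k, (hiff k).2 h, rfl⟩
  rw [← hmap]
  exact Nat.card_congr (Subgroup.equivMapOfInjective _ _ hinj).toEquiv

/-- The centraliser in the inner-diagonal group of a field automorphism has a simple subgroup of index two. -/
theorem exists_centraliser_data {p : ℕ} (hp : p.Prime) {x : MulAut (POmega F (quadFormOdd m F))}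
    (hord : orderOf x = p) (hx : IsFieldAutClassPOmega (quadFormOdd m F) x) {σ : RingAut F}
    (hσp : orderOf σ = p) :
    ∃ (D₀ : Type) (_ : Group D₀) (_ : Finite D₀) (S₀ : Subgroup D₀) (_ : S₀.Normal), IsSimpleGroup S₀ ∧
      Even (Nat.card S₀) ∧ 2 < Nat.card S₀ ∧ (∀ a b : D₀, a ∉ S₀ → b ∉ S₀ → a * b ∈ S₀) ∧
      (∀ a : D₀, (∀ s ∈ S₀, a * s = s * a) → a = 1) ∧
      Nonempty (↥(inndiagPOmegaOdd m F ⊓ Subgroup.centralizer {x}) ≃* D₀) := by
  classical
  have h2 := two_ne_zero_of_odd hodd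
  have hn : 5 ≤ Fintype.card Io := by rw [card_oddIndex]; omega
  obtain ⟨q, hq⟩ := CharP.exists F
  have := hq
  obtain ⟨f, hqp, hqf⟩ := FiniteField.card F q
  have := Fact.mk hqp
  obtain ⟨r, hr⟩ : ∃ r, r = (f : ℕ) / p := ⟨_, rfl⟩
  have hpf : p ∣ (f : ℕ) := AutPSL.even_of_involution hqf f.pos hσp
  have hr0 : r ≠ 0 := by
    rw [hr]
    exact Nat.div_ne_zero_iff.2 ⟨hp.ne_zero, Nat.le_of_dvd f.pos hpf⟩
  let F₀ := GaloisField q r
  let : Fintype F₀ := Fintype.ofFinite _
  have hF₀ : Fintype.card F₀ = q ^ r := by rw [← Nat.card_eq_fintype_card]; exact GaloisField.card q r hr0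
  obtain ⟨-, ⟨e⟩, -, -⟩ := field_odd (F₀ := F₀) hqf f.pos h2 hm (isSemisim_quadFormOdd hodd hm) x hx hp hord
    (by rw [hF₀, hr])
  have hodd₀ : Odd (Fintype.card F₀) := by
    rw [hF₀]
    refine Odd.pow (hqp.odd_of_ne_two ?_)
    rintro rfl
    rw [hqf, Nat.odd_iff] at hodd
    have : (2 ^ (f : ℕ)) % 2 = 0 := by
      rw [Nat.pow_mod]
      simp [f.pos.ne']
    omega
  have hQ₀ := isNondegenerateQuadraticForm_quadFormOdd m (two_ne_zero_of_odd hodd₀)
  have hle : Inn (POmega F₀ (quadFormOdd m F₀)) ≤ inndiagPOmegaOdd m F₀ := by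
    rintro _ ⟨k, rfl⟩
    obtain ⟨s, rfl⟩ := QuotientGroup.mk_surjective k
    rw [← conjS_omega, inndiag_odd_eq]
    exact ⟨_, trivial, rfl⟩
  have hnI : (Inn (POmega F₀ (quadFormOdd m F₀))).Normal := inn_normal
  let eS := (Subgroup.subgroupOfEquivOfLe hle).trans (MonoidHom.ofInjective (conj_injective hQ₀ hn)).symm
  have hsimple : IsSimpleGroup (POmega F₀ (quadFormOdd m F₀)) := isSimpleGroup_POmega hQ₀ hn
  have heven : Even (Nat.card (POmega F₀ (quadFormOdd m F₀))) := even_card hodd₀ hm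
  refine ⟨↥(inndiagPOmegaOdd m F₀), inferInstance, inferInstance,
    (Inn (POmega F₀ (quadFormOdd m F₀))).subgroupOf (inndiagPOmegaOdd m F₀), inferInstance,
    MulEquiv.isSimpleGroup eS, ?_, ?_, fun a b ha hb => inndiag_dichotomy hodd₀ hm a.2 b.2 ha hb,
    fun y hy => ?_, ⟨e⟩⟩
  · rw [Nat.card_congr eS.toEquiv]; exact heven
  · rw [Nat.card_congr eS.toEquiv]
    by_contra hle'
    obtain ⟨k, hk⟩ := heven
    have hpos : 0 < Nat.card (POmega F₀ (quadFormOdd m F₀)) := Nat.card_pos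
    have hcard : Nat.card (POmega F₀ (quadFormOdd m F₀)) = 2 := by omega
    have : Fact (Nat.Prime 2) := ⟨Nat.prime_two⟩
    obtain ⟨a, ha⟩ : ∃ a : POmega F₀ (quadFormOdd m F₀), a ≠ 1 := exists_ne 1
    have hcyc := isCyclic_of_prime_card hcard
    have : MulAut.conj a = 1 := MulEquiv.ext fun z => by
      let := hcyc.commGroup
      rw [MulAut.conj_apply, MulAut.one_apply, mul_comm a z, mul_inv_cancel_right]
    exact ha (conj_injective hQ₀ hn (this.trans (map_one _).symm))
  · refine Subtype.ext (MulEquiv.ext fun k => ?_)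
    have h := congrArg Subtype.val (hy ⟨MulAut.conj k, hle ⟨k, rfl⟩⟩ ⟨k, rfl⟩)
    simp only [Subgroup.coe_mul] at h
    rw [Subgroup.coe_one, MulAut.one_apply]
    refine conj_injective hQ₀ hn ?_
    rw [← mul_left_inj (y : MulAut _), ← h]
    exact MulEquiv.ext fun z => by simp

omit hodd hm in
/-- The group theory of the criterion. -/
theorem core_iff_coprime {G D₀ : Type*} [Group G] [Finite G] [Group D₀] [Finite D₀] (S₀ : Subgroup D₀)
    [S₀.Normal] (hS : IsSimpleGroup S₀) (heven : Even (Nat.card S₀)) (h2 : 2 < Nat.card S₀)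
    (hidx : ∀ a b : D₀, a ∉ S₀ → b ∉ S₀ → a * b ∈ S₀)
    (hC : ∀ a : D₀, (∀ s ∈ S₀, a * s = s * a) → a = 1)
    (A I J : Subgroup G) [I.Normal] (hIA : I ≤ A) (hIJ : I ≤ J) (hdich : ∀ a ∈ J, ∀ b ∈ J, a ∉ I → b ∉ I → a * b ∈ I)
    (x : G) (e : ↥(J ⊓ Subgroup.centralizer {x}) ≃* D₀) {p : ℕ} (hp : p.Prime) (hord : orderOf x = p)
    (hcent : ∀ n ∈ Subgroup.centralizer {x}, (∀ k ∈ I ⊓ Subgroup.centralizer {x}, n * k = k * n) →
      n ∈ Subgroup.zpowers x) :
    pPrimeCore p ↥(A ⊓ Subgroup.centralizer {x}) ≠ ⊥ ↔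
      Nat.Coprime p (Nat.card ↥(I ⊓ Subgroup.centralizer {x})) := by
  set C := A ⊓ Subgroup.centralizer {x}
  set Kx := I ⊓ Subgroup.centralizer {x} with hKx
  set D := J ⊓ Subgroup.centralizer {x}
  have hKA : Kx ≤ C := fun y hy => ⟨hIA hy.1, hy.2⟩
  have hKD : Kx ≤ D := fun y hy => ⟨hIJ hy.1, hy.2⟩
  have hKconj : ∀ c ∈ Subgroup.centralizer {x}, ∀ k ∈ Kx, c * k * c⁻¹ ∈ Kx := fun c hc k hk =>
    ⟨Subgroup.Normal.conj_mem inferInstance k hk.1 c,
      (Subgroup.centralizer {x}).mul_mem ((Subgroup.centralizer {x}).mul_mem hc hk.2)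
        ((Subgroup.centralizer {x}).inv_mem hc)⟩
  let κ : Subgroup D₀ := (Kx.subgroupOf D).map e.toMonoidHom
  have hKxn : (Kx.subgroupOf D).Normal := ⟨fun k hk d => hKconj _ d.2.2 _ hk⟩
  have : κ.Normal := hKxn.map _ e.surjective
  have hκ : ∀ a b : D₀, a ∉ κ → b ∉ κ → a * b ∈ κ := by
    intro a b ha hb
    obtain ⟨a, rfl⟩ := e.surjective a
    obtain ⟨b, rfl⟩ := e.surjective b
    have hmem : ∀ d : D, e d ∈ κ ↔ (d : G) ∈ I := fun d => by
      show e.toMonoidHom d ∈ _ ↔ _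
      rw [Subgroup.mem_map_iff_mem e.injective]
      exact ⟨fun h => h.1, fun h => ⟨h, d.2.2⟩⟩
    rw [hmem] at ha hb
    rw [← map_mul, hmem]
    exact hdich _ a.2.1 _ b.2.1 ha hb
  have hcardK : Nat.card κ = Nat.card Kx := by
    rw [← Nat.card_congr (Subgroup.equivMapOfInjective _ e.toMonoidHom e.injective).toEquiv]
    exact Nat.card_congr (Subgroup.subgroupOfEquivOfLe hKD).toEquiv
  constructor
  · intro hne
    by_contra hco
    have hdvd : p ∣ Nat.card Kx := by
      by_contra h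
      exact hco ((Nat.Prime.coprime_iff_not_dvd hp).2 h)
    refine hne (eq_bot_iff.2 (sSup_le ?_))
    rintro N ⟨hN, hNc⟩
    set N' : Subgroup G := N.map C.subtype with hN'
    set M : Subgroup G := N' ⊓ Kx
    have hNn : ∀ c ∈ C, ∀ n ∈ N', c * n * c⁻¹ ∈ N' := by
      rintro c hc _ ⟨n, hn, rfl⟩
      exact ⟨⟨c, hc⟩ * n * ⟨c, hc⟩⁻¹, hN.conj_mem n hn _, rfl⟩
    have hM : M = ⊥ := by
      have h1 := (core_trivial S₀ κ ((M.subgroupOf D).map e.toMonoidHom) hS heven h2 hidx hC hκ).2 p hp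
        (Subgroup.map_mono fun d hd => hd.2) ?_ ?_ (hcardK.symm ▸ hdvd)
      · rw [Subgroup.map_eq_bot_iff_of_injective _ e.injective, Subgroup.subgroupOf_eq_bot] at h1
        exact le_bot_iff.1 fun y hy => h1.le_bot ⟨hy, hKD hy.2⟩
      · rintro _ ⟨k, hk, rfl⟩ _ ⟨n, hn, rfl⟩
        refine ⟨k * n * k⁻¹, ⟨hNn _ (hKA hk) _ hn.1, hKconj _ hk.2 _ hn.2⟩, ?_⟩
        rw [map_mul, map_mul, map_inv]
      · refine Nat.Coprime.coprime_dvd_left ?_ hNc
        rw [← Nat.card_congr (Subgroup.equivMapOfInjective _ e.toMonoidHom e.injective).toEquiv,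
          Nat.card_congr (Subgroup.subgroupOfEquivOfLe (inf_le_right.trans hKD : M ≤ D)).toEquiv,
          Nat.card_congr (Subgroup.equivMapOfInjective N C.subtype C.subtype_injective).toEquiv]
        exact Subgroup.card_dvd_of_le inf_le_left
    intro n hn
    rw [Subgroup.mem_bot]
    have hn' : (n : G) ∈ N' := ⟨n, hn, rfl⟩
    have hcomm : ∀ k ∈ Kx, (n : G) * k = k * n := by
      intro k hk
      have h1 : (n : G) * k * (n : G)⁻¹ * k⁻¹ ∈ M := by
        refine ⟨?_, Kx.mul_mem (hKconj _ n.2.2 _ hk) (Kx.inv_mem hk)⟩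
        rw [show (n : G) * k * (n : G)⁻¹ * k⁻¹ = n * (k * (n : G)⁻¹ * k⁻¹) by group]
        exact N'.mul_mem hn' (hNn k (hKA hk) _ (N'.inv_mem hn'))
      rw [hM, Subgroup.mem_bot] at h1
      exact mul_inv_eq_iff_eq_mul.1 (mul_inv_eq_one.1 h1)
    have hnx : (n : G) ∈ Subgroup.zpowers x := hcent _ n.2.2 hcomm
    have hd1 : orderOf n ∣ p := by
      rw [← Subgroup.orderOf_coe, ← hord]
      exact orderOf_dvd_of_mem_zpowers hnx
    have hd2 : orderOf n ∣ Nat.card N := Subgroup.orderOf_coe (⟨n, hn⟩ : N) ▸ orderOf_dvd_natCard _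
    exact orderOf_eq_one_iff.1 (Nat.eq_one_of_dvd_coprimes hNc hd2 hd1)
  · intro hco hbot
    have hKn : (Kx.subgroupOf C).Normal := ⟨fun k hk c => hKconj _ c.2.2 _ hk⟩
    have hle : Kx.subgroupOf C ≤ pPrimeCore p C := le_sSup ⟨hKn, by
      rw [Nat.card_congr (Subgroup.subgroupOfEquivOfLe hKA).toEquiv]
      exact hco.symm⟩
    rw [hbot, le_bot_iff, Subgroup.subgroupOf_eq_bot] at hle
    have hK0 : Kx = ⊥ := le_bot_iff.1 fun y hy => hle.le_bot ⟨hy, hKA hy⟩
    have h3 := Subgroup.card_le_of_le (core_trivial S₀ κ ⊥ hS heven h2 hidx hC hκ).1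
    rw [hcardK, hK0, Subgroup.card_bot] at h3
    omega

/-- The criterion for failure of balance. -/
theorem core_ne_bot_iff {p : ℕ} (hp : p.Prime) (A : Subgroup (MulAut (POmega F (quadFormOdd m F))))
    (hinn : ∀ k, MulAut.conj k ∈ A) {x : MulAut (POmega F (quadFormOdd m F))}
    (hord : orderOf x = p) (hnot : ¬ IsInnerDiagonalAutPOmegaOdd m x) :
    pPrimeCore p ↥(A ⊓ Subgroup.centralizer {x}) ≠ ⊥ ↔
      (IsFieldAutClassPOmega (quadFormOdd m F) x ∧ Nat.Coprime p
        (Nat.card ↥(MonoidHom.eqLocus x.toMonoidHom (MonoidHom.id (POmega F (quadFormOdd m F)))))) := by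
  have h2 := two_ne_zero_of_odd hodd
  have hQ := isNondegenerateQuadraticForm_quadFormOdd m h2
  have hn : 5 ≤ Fintype.card Io := by rw [card_oddIndex]; omega
  obtain ⟨σ, g, hσp, hfield, hxeq⟩ := exists_field_form hodd hm hp hord hnot
  rw [card_eqLocus hodd hm, and_iff_right hfield]
  obtain ⟨D₀, _, _, S₀, _, hS, heven, h2₀, hidx, hC, ⟨e⟩⟩ := exists_centraliser_data hodd hm hp hord hfield hσp
  have hnI : (Inn (POmega F (quadFormOdd m F))).Normal := inn_normal
  refine core_iff_coprime S₀ hS heven h2₀ hidx hC A _ (inndiagPOmegaOdd m F)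
    ?_ ?_ (fun a ha b hb => inndiag_dichotomy hodd hm ha hb) x e hp hord ?_
  · rintro _ ⟨k, rfl⟩
    exact hinn k
  · rintro _ ⟨k, rfl⟩
    obtain ⟨s, rfl⟩ := QuotientGroup.mk_surjective k
    rw [← conjS_omega, inndiag_odd_eq]
    exact ⟨_, trivial, rfl⟩
  intro n _ hcomm
  set γ := (conjS (quadFormOdd m F) g)⁻¹ * n * conjS _ g with hγ
  have hfix : ∀ z ∈ ratRoots hQ hn σ, γ z = z := by
    intro z hz
    have hxz : x (conjS _ g z) = conjS _ g z := by
      have hz' : fieldHom σ z = z := mapP_fix hQ hn (sigmaInv σ) hz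
      rw [hxeq, MulAut.mul_apply, MulAut.mul_apply, MulAut.inv_apply_self, hz']
    have hmem : MulAut.conj (conjS _ g z) ∈
        Inn (POmega F (quadFormOdd m F)) ⊓ Subgroup.centralizer {x} :=
      ⟨⟨_, rfl⟩, Subgroup.mem_centralizer_singleton_iff.2 (MulEquiv.ext fun w => by
        simp only [MulAut.mul_apply, MulAut.conj_apply, map_mul, map_inv, hxz])⟩
    have h1 := hcomm _ hmem
    have h3 : MulAut.conj (n (conjS _ g z)) * n = n * MulAut.conj (conjS _ g z) :=
      MulEquiv.ext fun w => by simp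
    rw [h1, mul_left_inj] at h3
    rw [hγ, MulAut.mul_apply, MulAut.mul_apply, conj_injective hQ hn h3, MulAut.inv_apply_self]
  obtain ⟨τ, hτ, hτfix⟩ := eq_mapP_of_fix hodd hm σ hQ hn γ hfix
  have hτmem : fieldHom τ ∈ Subgroup.zpowers (fieldHom (m := m) σ) := by
    rw [← MonoidHom.map_zpowers]
    exact ⟨τ, mem_zpowers_of_fix hτfix, rfl⟩
  rw [hγ] at hτ
  exact mem_zpowers_conj (conjS (quadFormOdd m F) g) _ _ n hτmem hτ hxeq

end CfsgLib.AutOrth.OddOut
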