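import Cfsg.Agent.AutOrth.OddOut

/-! The automorphisms of `Ω_{2m+1}(q)` centralising the rational root elements of a subfield. -/

set_option autoImplicit false
set_option linter.unusedSectionVars false

namespace CfsgLib.AutOrth.OddOut

open Cfsg Cfsg.Geo CfsgLib.OrthGeo CfsgLib.AutOrth CfsgLib.AutOrthField Module
open scoped Matrix MatrixGroups

section generic

variable {ι : Type} [Fintype ι] [DecidableEq ι] {F : Type*} [Field F] [Fintype F]
variable {Q : (ι → F) → F} (hQ : IsNondegenerateQuadraticForm Q) (hn : 5 ≤ Fintype.card ι)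
include hQ hn

/-- Enough root elements of a point fix no other point. -/
theorem eq_of_fixed_span {u v : ι → F} (hu0 : u ≠ 0) (hu : Q u = 0) (hv0 : v ≠ 0) (hv : Q v = 0)
    (S : Set (ι → F)) (hS : ∀ w ∈ S, bform hQ u w = 0)
    (hspan : perp hQ (Submodule.span F {u}) ≤ Submodule.span F S)
    (hfix : ∀ w (hw : w ∈ S), eich hQ hn hu (hS w hw) • mkPoint hv0 hv = mkPoint hv0 hv) :
    ∃ c : F, c • u = v := by
  by_contra hne
  have hvu : v ∉ Submodule.span F {u} := fun hm => hne (Submodule.mem_span_singleton.1 hm)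
  have key : ∀ w ∈ S, ∃ c : F,
      c • v = v + bform hQ w v • u - bform hQ u v • w - (Q w * bform hQ u v) • u := by
    intro w hw
    obtain ⟨h0', h', e⟩ := smul_mkPoint (eich hQ hn hu (hS w hw)) hv0 hv
    have h1 := hfix w hw
    rw [e, mkPoint_eq_iff] at h1
    obtain ⟨c, hc⟩ := h1
    exact ⟨c, by rw [hc]; simp only [eich, eichler_mulVec hQ]⟩
  by_cases huv : bform hQ u v = 0
  · refine hvu ?_
    rw [← perp_perp hQ (Submodule.span F {u})]
    intro z hz
    have hwv : ∀ w ∈ S, bform hQ w v = 0 := by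
      intro w hw
      obtain ⟨c, hc⟩ := key w hw
      rw [huv, zero_smul, mul_zero, zero_smul, sub_zero, sub_zero] at hc
      by_contra hne'
      have hc' : (c - 1) • v = bform hQ w v • u := by rw [sub_smul, one_smul, hc, add_sub_cancel_left]
      have hc1 : c - 1 ≠ 0 := fun h0 => by
        rw [h0, zero_smul] at hc'
        exact (smul_ne_zero hne' hu0) hc'.symm
      exact hvu (Submodule.mem_span_singleton.2 ⟨(c - 1)⁻¹ * bform hQ w v, by
        rw [mul_smul, ← hc', inv_smul_smul₀ hc1]⟩)
    show bform hQ z v = 0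
    have hz' := hspan hz
    clear hz
    induction hz' using Submodule.span_induction with
    | mem x hx => exact hwv x hx
    | zero => rw [map_zero, LinearMap.zero_apply]
    | add x y _ _ hx hy => rw [map_add, LinearMap.add_apply, hx, hy, add_zero]
    | smul c x _ hx => rw [map_smul, LinearMap.smul_apply, hx, smul_zero]
  · have hsub : Submodule.span F S ≤ Submodule.span F {u} := by
      refine Submodule.span_le.2 fun w hw => ?_
      obtain ⟨c, hc⟩ := key w hw
      have h2 := congrArg (bform hQ u) hc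
      simp only [map_smul, map_add, map_sub, b_self_eq_zero hQ hu, hS w hw, smul_eq_mul, mul_zero, add_zero,
        sub_zero] at h2
      rw [mul_right_cancel₀ huv (h2.trans (one_mul _).symm), one_smul] at hc
      refine Submodule.mem_span_singleton.2
        ⟨(bform hQ u v)⁻¹ * (bform hQ w v - Q w * bform hQ u v), ?_⟩
      rw [mul_smul, inv_smul_eq_iff₀ huv]
      linear_combination (norm := module) -hc
    have h1 := Submodule.finrank_mono (hspan.trans hsub)
    have h2 := finrank_perp_add hQ (Submodule.span F {u})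
    rw [finrank_span_singleton hu0] at h1 h2
    omega

/-- The root elements with entries fixed by `σ`. -/
def ratRoots (σ : RingAut F) : Set (POmega F Q) :=
  {x | ∃ (u w : ι → F) (hu : Q u = 0) (hw : bform hQ u w = 0),
    (∀ i, σ (u i) = u i) ∧ (∀ i, σ (w i) = w i) ∧ x = pr Q (eich hQ hn hu hw)}

omit hn in
lemma sigma_b {σ : RingAut F} (hσ : SigmaInv Q σ) (x y : ι → F) :
    bform hQ (fun i => σ (x i)) (fun i => σ (y i)) = σ (bform hQ x y) := by
  simp only [bform_apply, QuadraticMap.polar, map_sub]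
  rw [← hσ x, ← hσ y, ← hσ (x + y)]
  congr 3
  funext i
  simp

/-- Rational root elements are fixed by the field automorphism. -/
theorem mapP_fix {σ : RingAut F} (hσ : SigmaInv Q σ) {x : POmega F Q} (hx : x ∈ ratRoots hQ hn σ) :
    mapP hσ x = x := by
  obtain ⟨u, w, hu, hw, hur, hwr, rfl⟩ := hx
  obtain ⟨s, hs⟩ : ∃ s : Omega F Q, ((s : isometryGroup F Q) : GL ι F) = eich hQ hn hu hw := by
    obtain ⟨y, hy, he⟩ := (eich hQ hn hu hw).2
    exact ⟨⟨y, hy⟩, he⟩
  rw [pr_eq_mk _ s hs]
  show twistP (pair_one hσ) (QuotientGroup.mk s) = _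
  rw [twistP_mk]
  congr 1
  refine Subtype.ext (Subtype.ext ?_)
  rw [coe_twistOmega]
  refine twist_eq_of_mulVec fun v => ?_
  simp only [semi, Units.val_one, Matrix.one_mulVec, hs, eich, eichler_mulVec hQ]
  have h1 : Q w = σ (Q w) := by
    conv_lhs => rw [show w = fun i => σ (w i) from (funext hwr).symm, hσ]
  have h2 : ∀ z : ι → F, (∀ i, σ (z i) = z i) → bform hQ z (fun i => σ (v i)) = σ (bform hQ z v) := by
    intro z hz
    rw [← sigma_b hQ hσ, show (fun i => σ (z i)) = z from funext hz]
  funext i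
  simp only [Pi.sub_apply, Pi.add_apply, Pi.smul_apply, smul_eq_mul, map_sub, map_add, map_mul, h2 u hur,
    h2 w hwr, hur i, hwr i, ← h1]

/-- A semisimilarity fixing all rational root elements fixes the rational singular points. -/
theorem semi_eq_smul {σ : RingAut F} (hσ : SigmaInv Q σ) {g : GL ι F} {τ : F ≃+* F}
    (h : IsSemisimilarityPair Q g τ) (hfix : ∀ x ∈ ratRoots hQ hn σ, twistP h x = x)
    {u : ι → F} (hu0 : u ≠ 0) (hu : Q u = 0) (hur : ∀ i, σ (u i) = u i) :
    ∃ a : F, a • u = semi g τ u := by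
  obtain ⟨c, hc⟩ := semisim_exists h
  have hG0 : semi g τ u ≠ 0 := fun h0 => hu0 (by
    have h2 := inv_mulVec_cancel g (fun i => τ (u i))
    rw [semi] at h0
    rw [h0, Matrix.mulVec_zero] at h2
    funext i
    exact τ.injective ((congrFun h2 i).symm.trans (map_zero τ).symm))
  have hGz : Q (semi g τ u) = 0 := by rw [hc, hu, map_zero, mul_zero]
  refine eq_of_fixed_span hQ hn hu0 hu hG0 hGz {w | bform hQ u w = 0 ∧ ∀ i, σ (w i) = w i}
    (fun w hw => hw.1) ?_ ?_
  · intro v hv
    rw [mem_perp_span_singleton hQ] at hv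
    obtain ⟨j, hj⟩ : ∃ j, bform hQ u (Pi.single j 1) ≠ 0 := by
      by_contra h'
      push Not at h'
      refine hu0 ((b_nondeg hQ).1 u fun y => ?_)
      rw [pi_eq_sum_univ' y, map_sum]
      exact Finset.sum_eq_zero fun i _ => by rw [map_smul, h', smul_zero]
    have hsingle : ∀ i k, σ ((Pi.single i (1 : F) : ι → F) k) = (Pi.single i (1 : F) : ι → F) k := by
      intro i k
      by_cases hik : k = i
      · subst hik; simp
      · simp [hik]
    have hb : ∀ i, σ (bform hQ u (Pi.single i 1)) = bform hQ u (Pi.single i 1) := fun i => by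
      rw [← sigma_b hQ hσ, show (fun k => σ (u k)) = u from funext hur,
        show (fun k => σ ((Pi.single i (1 : F) : ι → F) k)) = Pi.single i 1 from funext (hsingle i)]
    set c' : ι → F := fun i => bform hQ u (Pi.single i 1) / bform hQ u (Pi.single j 1)
    have hv' : v = ∑ i, v i • (Pi.single i (1 : F) - c' i • Pi.single j (1 : F) : ι → F) := by
      have h0 : ∑ i, v i * c' i = 0 := by
        have h1 : bform hQ u v = ∑ i, v i * bform hQ u (Pi.single i 1) := by
          conv_lhs => rw [pi_eq_sum_univ' v, map_sum]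
          exact Finset.sum_congr rfl fun i _ => by rw [map_smul, smul_eq_mul]
        simp only [c', ← mul_div_assoc, ← Finset.sum_div, ← h1, hv, zero_div]
      simp only [smul_sub, Finset.sum_sub_distrib, smul_smul, ← Finset.sum_smul, h0, zero_smul, sub_zero]
      exact pi_eq_sum_univ' v
    rw [hv']
    refine Submodule.sum_mem _ fun i _ => Submodule.smul_mem _ _ (Submodule.subset_span ⟨?_, fun k => ?_⟩)
    · rw [map_sub, map_smul, smul_eq_mul, div_mul_cancel₀ _ hj, sub_self]
    · simp only [Pi.sub_apply, Pi.smul_apply, smul_eq_mul, c', map_sub, map_mul, map_div₀, hb, hsingle]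
  · rintro w ⟨hw, hwr⟩
    set k := eich hQ hn hu hw
    have hku : ((k : GL ι F) : Matrix ι ι F) *ᵥ u = u := eichler_fix_left hQ hu hw
    have h2 := pact_twistP hQ hn h k hG0 hGz (by rw [hku]; exact hG0) (by rw [hku]; exact hGz)
    rw [hfix _ ⟨u, w, hu, hw, hur, hwr, rfl⟩, pact_pr] at h2
    rw [h2]
    congr 1
    rw [hku]

end generic

variable {F : Type*} [Field F] [Fintype F] {m : ℕ}

local notation "Io" => Unit ⊕ (Fin m ⊕ Fin m)

/-- An automorphism fixing the rational root elements is a field automorphism fixing the subfield. -/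
theorem eq_mapP_of_fix (hodd : Odd (Fintype.card F)) (hm : 3 ≤ m) (σ : RingAut F)
    (hQ : IsNondegenerateQuadraticForm (quadFormOdd m F)) (hn : 5 ≤ Fintype.card Io)
    (β : MulAut (POmega F (quadFormOdd m F))) (hfix : ∀ x ∈ ratRoots hQ hn σ, β x = x) :
    ∃ τ : RingAut F, β = fieldHom τ ∧ ∀ t, σ t = t → τ t = t := by
  obtain ⟨g, τ, hp, rfl⟩ := isSemisim_quadFormOdd hodd hm β
  let ε : Fin m → Io → F := fun i => Pi.single (.inr (.inl i)) 1
  let φ : Fin m → Io → F := fun i => Pi.single (.inr (.inr i)) 1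
  let o : Io → F := Pi.single (.inl ()) 1
  set G := semi g τ with hG
  have key : ∀ u : Io → F, u ≠ 0 → quadFormOdd m F u = 0 → (∀ i, σ (u i) = u i) → ∃ a : F, a • u = G u :=
    fun u h0 h hr => semi_eq_smul hQ hn (sigmaInv σ) hp hfix h0 h hr
  let i0 : Fin m := ⟨0, by omega⟩
  let i1 : Fin m := ⟨1, by omega⟩
  have h01 : i0 ≠ i1 := by simp [i0, i1]
  have hε : ∀ i, ∃ a : F, a • ε i = G (ε i) := fun i => key _ (by simp [ε])
    (by simp [ε, quadFormOdd, Pi.single_apply]) (fun k => by by_cases hk : k = .inr (.inl i) <;> simp [ε, hk])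
  have hφ : ∀ i, ∃ a : F, a • φ i = G (φ i) := fun i => key _ (by simp [φ])
    (by simp [φ, quadFormOdd, Pi.single_apply]) (fun k => by by_cases hk : k = .inr (.inr i) <;> simp [φ, hk])
  choose a ha using hε
  choose b hb using hφ
  have haa : ∀ i, a i = a i0 := by
    intro i
    by_cases hi : i = i0
    · rw [hi]
    obtain ⟨d, hd⟩ := key (ε i + ε i0) (fun h => by simpa [ε, hi] using congrFun h (.inr (.inl i)))
      (by simp [ε, quadFormOdd, Pi.single_apply])
      (fun k => by by_cases hk : k = .inr (.inl i) <;> by_cases hk' : k = .inr (.inl i0) <;> simp [ε, hk, hk', hi, Ne.symm hi])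
    rw [hG, semi_add, ← hG, ← ha, ← ha] at hd
    have h1 := congrFun hd (.inr (.inl i))
    have h2 := congrFun hd (.inr (.inl i0))
    simp [ε, hi, Ne.symm hi] at h1 h2
    exact h1.symm.trans h2
  have hbb : ∀ i, b i = a i0 := by
    intro i
    obtain ⟨j, hj⟩ : ∃ j : Fin m, j ≠ i := by
      by_cases hi : i = i0
      · exact ⟨i1, fun h => h01 (hi.symm.trans h.symm)⟩
      · exact ⟨i0, fun h => hi h.symm⟩
    obtain ⟨d, hd⟩ := key (ε j + φ i) (fun h => by simpa [ε, φ] using congrFun h (.inr (.inl j)))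
      (by simp [ε, φ, quadFormOdd, Pi.single_apply, Ne.symm hj, Finset.sum_ite_eq'])
      (fun k => by by_cases hk : k = .inr (.inl j) <;> by_cases hk' : k = .inr (.inr i) <;> simp [ε, φ, hk, hk'])
    rw [hG, semi_add, ← hG, ← ha, ← hb, haa j] at hd
    have h1 := congrFun hd (.inr (.inl j))
    have h2 := congrFun hd (.inr (.inr i))
    simp [ε, φ] at h1 h2
    exact h2.symm.trans h1
  have ho : ∀ i, ∃ d : F, G o = d • o + (d - a i0) • ε i - (d - a i0) • φ i := by
    intro i
    obtain ⟨d, hd⟩ := key (o + ε i + (-1 : F) • φ i) (fun h => by simpa [o, ε, φ] using congrFun h (.inl ()))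
      (by simp [o, ε, φ, quadFormOdd, Pi.single_apply, Finset.sum_ite_eq'])
      (fun k => by
        rcases k with ⟨⟩ | k | k
        · simp [o, ε, φ]
        · by_cases hk : k = i <;> simp [o, ε, φ, hk]
        · by_cases hk : k = i <;> simp [o, ε, φ, hk])
    refine ⟨d, ?_⟩
    rw [hG, semi_add, semi_add, semi_smul, ← hG, ← ha, ← hb, haa i, hbb i, map_neg, map_one] at hd
    linear_combination (norm := module) -hd
  have hoa : G o = a i0 • o := by
    obtain ⟨d, hd⟩ := ho i0
    obtain ⟨d', hd'⟩ := ho i1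
    have h1 := congrFun (hd.symm.trans hd') (.inr (.inl i0))
    simp [o, ε, φ, h01] at h1
    rw [hd, sub_eq_zero.1 h1]
    simp
  have hscal : ∀ x, (g : Matrix Io Io F) *ᵥ x = a i0 • x := by
    have hbasis : ∀ k, G (Pi.single k 1) = a i0 • (Pi.single k 1 : Io → F) := by
      rintro (⟨⟩ | k | k)
      · exact hoa
      · exact (ha k).symm.trans (by rw [haa k])
      · exact (hb k).symm.trans (by rw [hbb k])
    intro x
    rw [pi_eq_sum_univ' x, Matrix.mulVec_sum, Finset.smul_sum]
    refine Finset.sum_congr rfl fun k _ => ?_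
    rw [Matrix.mulVec_smul, smul_comm, ← hbasis k]
    congr 1
    rw [hG, semi]
    congr 1
    funext l
    by_cases hl : l = k
    · subst hl; simp
    · simp [hl]
  refine ⟨τ, ?_, fun t ht => ?_⟩
  · have hg : g ∈ quadSimilarityGroup (quadFormOdd m F) := by
      obtain ⟨c, hc⟩ := semisim_exists hp
      refine ⟨c, fun v => ?_⟩
      obtain ⟨w, rfl⟩ : ∃ w : Io → F, v = fun i => τ (w i) :=
        ⟨fun i => τ.symm (v i), by funext i; simp⟩
      rw [sigmaInv τ w]
      exact hc w
    rw [← conjS_mul_mapP (sigmaInv τ) ⟨g, hg⟩ hp, conjS_eq_one_of_scalar (g := ⟨g, hg⟩) hscal, one_mul]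
    rfl
  · obtain ⟨d, hd⟩ := key (ε i0 + t • ε i1) (fun h => by simpa [ε, h01] using congrFun h (.inr (.inl i0)))
      (by simp [ε, quadFormOdd, Pi.single_apply])
      (fun k => by
        by_cases hk : k = .inr (.inl i0) <;> by_cases hk' : k = .inr (.inl i1) <;>
          simp [ε, hk, hk', h01, Ne.symm h01, ht])
    have ha0 : a i0 ≠ 0 := fun h0 => by
      have h1 := hscal ((((g⁻¹ : GL Io F)) : Matrix Io Io F) *ᵥ o)
      rw [mulVec_inv_cancel, h0, zero_smul] at h1
      simpa [o] using congrFun h1 (.inl ())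
    rw [hG, semi_add, semi_smul, ← hG, ← ha, ← ha, haa i1] at hd
    have h1 := congrFun hd (.inr (.inl i0))
    have h2 := congrFun hd (.inr (.inl i1))
    simp [ε, h01, Ne.symm h01] at h1 h2
    rw [h1] at h2
    exact mul_right_cancel₀ ha0 (h2.symm.trans (mul_comm _ _))

end CfsgLib.AutOrth.OddOut
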