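import Cfsg.Agent.AutOrth.Bounds

/-! The second orbit hypothesis over the field with two elements. -/

set_option autoImplicit false
set_option linter.unusedSectionVars false

namespace CfsgLib.AutOrth

open Cfsg.Geo CfsgLib.OrthGeo Module
open scoped Matrix MatrixGroups

variable {ι : Type} [Fintype ι] [DecidableEq ι] {F : Type*} [Field F] [Fintype F]
variable {Q : (ι → F) → F} (hQ : IsNondegenerateQuadraticForm Q)
include hQ

lemma perp_pair_not_mem {e f p : ι → F} (he : Q e = 0) (hf : Q f = 0) (hef : bform hQ e f = 1)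
    (hpW : p ∈ perp hQ (Submodule.span F {e} ⊔ Submodule.span F {f})) (hp : p ≠ 0) :
    p ∉ perp hQ (perp hQ (Submodule.span F {e} ⊔ Submodule.span F {f})) := by
  rw [perp_perp hQ]
  intro hm
  obtain ⟨_, h4, _, h5, h6⟩ := Submodule.mem_sup.1 hm
  obtain ⟨s, rfl⟩ := Submodule.mem_span_singleton.1 h4
  obtain ⟨t, rfl⟩ := Submodule.mem_span_singleton.1 h5
  obtain ⟨h7, h8⟩ := (mem_perp_pair hQ).1 hpW
  rw [← h6, map_add, map_smul, map_smul, b_self_eq_zero hQ he, hef, smul_eq_mul, smul_eq_mul, mul_zero,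
    zero_add, mul_one] at h7
  rw [← h6, map_add, map_smul, map_smul, b_self_eq_zero hQ hf, b_symm hQ f e, hef, smul_eq_mul,
    smul_eq_mul, mul_zero, add_zero, mul_one] at h8
  exact hp (by rw [← h6, h7, h8, zero_smul, zero_smul, add_zero])

/-- Perpendicular independent singular vectors of the perp of a pair are conjugate fixing the first vector. -/
lemma exists_fix_map_perp (hn : 5 ≤ Fintype.card ι) {e f p p' : ι → F}
    (he : Q e = 0) (hf : Q f = 0) (hef : bform hQ e f = 1)
    (hp : p ∈ perp hQ (Submodule.span F {e} ⊔ Submodule.span F {f})) (hpQ : Q p = 0) (hp0 : p ≠ 0)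
    (hp' : p' ∈ perp hQ (Submodule.span F {e} ⊔ Submodule.span F {f})) (hpQ' : Q p' = 0)
    (hind : p' ∉ Submodule.span F {p}) (hb : bform hQ p p' = 0) :
    ∃ g : omegaGL Q, ((g : GL ι F) : Matrix ι ι F) *ᵥ e = e ∧ ((g : GL ι F) : Matrix ι ι F) *ᵥ p = p' := by
  obtain ⟨z, -, hzp, hzp'⟩ := exists_common_partner hQ hn hpQ hpQ' hp0 hind
  obtain ⟨hep, hfp⟩ := (mem_perp_pair hQ).1 hp
  obtain ⟨hep', hfp'⟩ := (mem_perp_pair hQ).1 hp'
  set z1 := proj hQ e f z
  have hz1p : bform hQ z1 p = 1 := by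
    simp [z1, proj, hep, hfp, hzp, -bform_apply]
  have hz1p' : bform hQ z1 p' = 1 := by
    simp [z1, proj, hep', hfp', hzp', -bform_apply]
  set c := z1 - Q z1 • p
  have hcW : c ∈ perp hQ (Submodule.span F {e} ⊔ Submodule.span F {f}) :=
    Submodule.sub_mem _ (proj_mem hQ he hf hef z) (Submodule.smul_mem _ _ hp)
  have hcQ : Q c = 0 := by
    rw [q_sub hQ, q_smul hQ, hpQ, map_smul, smul_eq_mul, hz1p]; ring
  have hcp : bform hQ c p = 1 := by
    rw [map_sub, LinearMap.sub_apply, map_smul, LinearMap.smul_apply, hz1p, b_self_eq_zero hQ hpQ, smul_zero,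
      sub_zero]
  have hcp' : bform hQ c p' = 1 := by
    rw [map_sub, LinearMap.sub_apply, map_smul, LinearMap.smul_apply, hz1p', hb, smul_zero, sub_zero]
  obtain ⟨h, hmap⟩ := exists_eichler_map hQ hcQ hpQ hpQ' hcp hcp'
  refine ⟨eich hQ hn hcQ h, ?_, hmap⟩
  show (eichler hQ hcQ h : Matrix ι ι F) *ᵥ e = e
  rw [eichler_mulVec hQ, b_symm hQ c e, ((mem_perp_pair hQ).1 hcW).1, b_symm hQ (p - p') e, map_sub, hep,
    hep']
  simp

/-- Singular vectors of the perp of a pair are conjugate fixing the first vector. -/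
lemma exists_fix_map (h8 : 7 ≤ Fintype.card ι) {e f p p' : ι → F}
    (he : Q e = 0) (hf : Q f = 0) (hef : bform hQ e f = 1)
    (hp : p ∈ perp hQ (Submodule.span F {e} ⊔ Submodule.span F {f})) (hpQ : Q p = 0) (hp0 : p ≠ 0)
    (hp' : p' ∈ perp hQ (Submodule.span F {e} ⊔ Submodule.span F {f})) (hpQ' : Q p' = 0)
    (hind : p' ∉ Submodule.span F {p}) :
    ∃ g : omegaGL Q, ((g : GL ι F) : Matrix ι ι F) *ᵥ e = e ∧ ((g : GL ι F) : Matrix ι ι F) *ᵥ p = p' := by
  have hn : 5 ≤ Fintype.card ι := by omega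
  by_cases hb : bform hQ p p' = 0
  · exact exists_fix_map_perp hQ hn he hf hef hp hpQ hp0 hp' hpQ' hind hb
  set W := perp hQ (Submodule.span F {e} ⊔ Submodule.span F {f})
  obtain ⟨s, hs, hs0, hsQ⟩ := exists_singular hQ
    (S := W ⊓ perp hQ (Submodule.span F {p} ⊔ Submodule.span F {p'})) (by
      have h1 := finrank_le_inf_perp hQ W (Submodule.span F {p} ⊔ Submodule.span F {p'})
      have h2 := finrank_span_pair_le hQ p p'
      have h3 : finrank F W + 2 = Fintype.card ι := finrank_perp_hyp hQ hn he hef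
      omega)
  obtain ⟨hps, hp's⟩ := (mem_perp_pair hQ).1 hs.2
  have hsp : s ∉ Submodule.span F {p} := fun hm => by
    obtain ⟨c, rfl⟩ := Submodule.mem_span_singleton.1 hm
    rw [map_smul, b_symm hQ, smul_eq_mul] at hp's
    exact hs0 (by rw [(mul_eq_zero.1 hp's).resolve_right hb, zero_smul])
  have hsp' : p' ∉ Submodule.span F {s} := fun hm => by
    obtain ⟨c, rfl⟩ := Submodule.mem_span_singleton.1 hm
    rw [map_smul, hps, smul_zero] at hb
    exact hb rfl
  obtain ⟨g, hge, hgp⟩ := exists_fix_map_perp hQ hn he hf hef hp hpQ hp0 hs.1 hsQ hsp hps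
  obtain ⟨g', hge', hgs⟩ := exists_fix_map_perp hQ hn he hf hef hs.1 hsQ hs0 hp' hpQ' hsp'
    (by rw [b_symm hQ, hp's])
  exact ⟨g' * g, by rw [Subgroup.coe_mul, Units.val_mul, ← Matrix.mulVec_mulVec, hge, hge'],
    by rw [Subgroup.coe_mul, Units.val_mul, ← Matrix.mulVec_mulVec, hgp, hgs]⟩

/-- The stabiliser of a point is transitive on the other points perpendicular to it. -/
theorem stabOrbit_perp_of_two (h7 : 7 ≤ Fintype.card ι) {P X : SingPoint Q} (hne : X ≠ P) (hperp : PerpPt Q P X) :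
    stabOrbit P X = {Y | PerpPt Q P Y ∧ Y ≠ P} := by
  have hn : 5 ≤ Fintype.card ι := by omega
  obtain ⟨e, he0, he, rfl⟩ := exists_mk P
  obtain ⟨f, hf, hef⟩ := exists_partner hQ he he0
  set W := perp hQ (Submodule.span F {e} ⊔ Submodule.span F {f})
  -- each such point comes from `W`
  have hred : ∀ Y : SingPoint Q, Y ≠ mkPoint he0 he → PerpPt Q (mkPoint he0 he) Y →
      ∃ (p : ι → F) (hp0 : p ≠ 0) (hpQ : Q p = 0), p ∈ W ∧
        ∃ g : omegaGL Q, g • mkPoint he0 he = mkPoint he0 he ∧ g • mkPoint hp0 hpQ = Y := by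
    intro Y hY hYp
    obtain ⟨y, hy0, hy, rfl⟩ := exists_mk Y
    rw [perpPt_mk (hQ := hQ)] at hYp
    set p := proj hQ e f y with hp
    have hpW : p ∈ W := proj_mem hQ he hf hef y
    have hpQ : Q p = 0 := by
      have := q_eq_proj hQ he hf hef y
      rw [hy, hYp, mul_zero, zero_add] at this
      exact this.symm
    have hyp : y = p + bform hQ f y • e := by
      simp [hp, proj, hYp, -bform_apply]
    have hp0 : p ≠ 0 := fun h => hY (mkPoint_eq_iff.2 ⟨bform hQ f y, by conv_rhs => rw [hyp, h, zero_add]⟩)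
    obtain ⟨w0, hw0, hw0p⟩ := exists_mem_b_ne_zero hQ (perp_pair_not_mem hQ he hf hef hpW hp0)
    set w := (bform hQ f y / bform hQ w0 p) • w0
    have hwW : w ∈ W := W.smul_mem _ hw0
    have hwp : bform hQ w p = bform hQ f y := by
      rw [map_smul, LinearMap.smul_apply, smul_eq_mul, div_mul_cancel₀ _ hw0p]
    have hew : bform hQ e w = 0 := ((mem_perp_pair hQ).1 hwW).1
    refine ⟨p, hp0, hpQ, hpW, eich hQ hn he hew, smul_mkPoint_eq _ _ _ _ _ (eichler_fix_left hQ he hew), ?_⟩
    refine smul_mkPoint_eq _ _ _ _ _ ?_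
    show (eichler hQ he hew : Matrix ι ι F) *ᵥ p = y
    rw [eichler_mulVec hQ, hwp, ((mem_perp_pair hQ).1 hpW).1]
    conv_rhs => rw [hyp]
    simp
  ext Y
  constructor
  · rintro ⟨g, hgP, rfl⟩
    refine ⟨?_, fun h => hne (smul_left_cancel g (h.trans hgP.symm))⟩
    rw [← hgP, perpPt_smul hQ]
    exact hperp
  · rintro ⟨hYp, hY⟩
    obtain ⟨p, hp0, hpQ, hpW, g, hge, hgp⟩ := hred X hne hperp
    obtain ⟨p', hp0', hpQ', hpW', g', hge', hgp'⟩ := hred Y hY hYp
    obtain ⟨h, hhe, hhp⟩ : ∃ h : omegaGL Q, h • mkPoint he0 he = mkPoint he0 he ∧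
        h • mkPoint hp0 hpQ = mkPoint hp0' hpQ' := by
      by_cases hind : p' ∈ Submodule.span F {p}
      · refine ⟨1, one_smul _ _, ?_⟩
        rw [one_smul]
        obtain ⟨c, hc⟩ := Submodule.mem_span_singleton.1 hind
        exact (mkPoint_eq_iff.2 ⟨c, hc⟩).symm
      · obtain ⟨h, h1, h2⟩ := exists_fix_map hQ h7 he hf hef hpW hpQ hp0 hpW' hpQ' hind
        exact ⟨h, smul_mkPoint_eq _ _ _ _ _ h1, smul_mkPoint_eq _ _ _ _ _ h2⟩
    refine ⟨g' * h * g⁻¹, ?_, ?_⟩
    · rw [mul_smul, mul_smul, inv_smul_eq_iff.2 hge.symm, hhe, hge']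
    · rw [mul_smul, mul_smul, inv_smul_eq_iff.2 hgp.symm, hhp, hgp']

/-- The second hypothesis over the field with two elements. -/
theorem perpOrbits_two_elements (h7 : 7 ≤ Fintype.card ι) (h2 : Fintype.card F = 2) : PerpOrbits Q := by
  classical
  intro P X hne hperp hcard
  have hn : 5 ≤ Fintype.card ι := by omega
  obtain ⟨e, he0, he, rfl⟩ := exists_mk P
  obtain ⟨f, hf, hef⟩ := exists_partner hQ he he0
  set W := perp hQ (Submodule.span F {e} ⊔ Submodule.span F {f})
  have hone : ∀ c : F, c ≠ 0 → c = 1 := fun c hc => by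
    have := FiniteField.pow_card_sub_one_eq_one c hc
    rwa [h2, pow_one] at this
  have htwo : (2 : F) = 0 := by
    have := FiniteField.cast_card_eq_zero F
    rw [h2] at this
    exact_mod_cast this
  set Z : Set (ι → F) := {v | v ∈ W ∧ Q v = 0} with hZ
  have hZ0 : (0 : ι → F) ∈ Z := ⟨W.zero_mem, q_zero hQ⟩
  have hfin : finrank F W + 2 = Fintype.card ι := finrank_perp_hyp hQ hn he hef
  -- the singular vectors of `W` are even in number
  have heven : Even Z.ncard := by
    obtain ⟨a, haW, ha0, ha⟩ := exists_singular hQ (S := W) (by omega)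
    obtain ⟨w, hw, hwa⟩ : ∃ w ∈ W ⊓ perp hQ (Submodule.span F {a}), w ∉ Submodule.span F {a} := by
      by_contra h
      push Not at h
      have h1 := Submodule.finrank_mono (show W ⊓ perp hQ (Submodule.span F {a}) ≤ Submodule.span F {a} from h)
      have h3 := finrank_le_inf_perp hQ W (Submodule.span F {a})
      rw [finrank_span_singleton ha0] at h1 h3
      omega
    have haw : bform hQ a w = 0 := (mem_perp_span_singleton hQ).1 hw.2
    set E := (eichler hQ ha haw : Matrix ι ι F)
    have hE : ∀ v, E *ᵥ v = v + bform hQ w v • a - bform hQ a v • w - (Q w * bform hQ a v) • a :=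
      fun v => eichler_mulVec hQ ha haw v
    have hEE : ∀ v, E *ᵥ (E *ᵥ v) = v := fun v => by
      rw [Matrix.mulVec_mulVec]
      show (eichlerMat Q a w * eichlerMat Q a w) *ᵥ v = v
      rw [eichlerMat_mul hQ ha haw haw, show w + w = 0 by rw [← two_smul F, htwo, zero_smul],
        eichlerMat_zero hQ, Matrix.one_mulVec]
    have haa : a + a = 0 := by rw [← two_smul F, htwo, zero_smul]
    have hEa : ∀ v, bform hQ a (E *ᵥ v) = bform hQ a v := fun v => by
      rw [hE]; simp [haw, b_self_eq_zero hQ ha, -bform_apply]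
    let i : (ι → F) → (ι → F) := fun v => if bform hQ a v = 0 then v + a else E *ᵥ v
    have key : (Z.toFinset.card : ZMod 2) = 0 := by
      rw [Finset.cast_card]
      refine Finset.sum_involution (fun v _ => i v) (fun v _ => by decide) (fun v hv _ => ?_)
        (fun v hv => ?_) (fun v hv => ?_)
      · simp only [i]
        split_ifs with h0
        · exact fun h => ha0 (add_eq_left.1 h)
        · intro h
          rw [hE] at h
          refine hwa (Submodule.mem_span_singleton.2
            ⟨(bform hQ a v)⁻¹ * (bform hQ w v - Q w * bform hQ a v), ?_⟩)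
          rw [mul_smul, inv_smul_eq_iff₀ h0]
          linear_combination (norm := module) h
      · rw [Set.mem_toFinset] at hv ⊢
        simp only [i]
        split_ifs with h0
        · exact ⟨W.add_mem hv.1 haW, by rw [q_add hQ, hv.2, ha, b_symm hQ, h0]; ring⟩
        · refine ⟨?_, ?_⟩
          · rw [hE]
            exact W.sub_mem (W.sub_mem (W.add_mem hv.1 (W.smul_mem _ haW)) (W.smul_mem _ hw.1)) (W.smul_mem _ haW)
          · rw [show E = (eichler hQ ha haw : Matrix ι ι F) from rfl,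
              mem_isometryGroup.1 (eichler_mem_isometryGroup hQ ha haw), hv.2]
      · simp only [i]
        by_cases h0 : bform hQ a v = 0
        · rw [if_pos h0, if_pos (by rw [map_add, h0, b_self_eq_zero hQ ha, add_zero]), add_assoc, haa, add_zero]
        · rw [if_neg h0, if_neg (by rwa [hEa]), hEE]
    rw [ZMod.natCast_eq_zero_iff_even, ← Set.ncard_eq_toFinset_card'] at key
    exact key
  have hcount : (stabOrbit (mkPoint he0 he) X).ncard = 2 * (Z \ {0}).ncard := by
    rw [stabOrbit_perp_of_two hQ h7 hne hperp, ← h2, ← Nat.card_eq_fintype_card, ← Set.ncard_univ, ← Set.ncard_prod]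
    symm
    have hval : ∀ x : F × (ι → F), x ∈ (Set.univ : Set F) ×ˢ (Z \ {0}) →
        Q (x.1 • e + x.2) = 0 ∧ bform hQ e (x.1 • e + x.2) = 0 ∧ x.1 • e + x.2 ≠ 0 ∧
          x.1 • e + x.2 ∉ Submodule.span F {e} := by
      rintro ⟨α, p⟩ ⟨-, ⟨hpW, hpQ⟩, hp0⟩
      obtain ⟨hep, -⟩ := (mem_perp_pair hQ).1 hpW
      have hnot : α • e + p ∉ Submodule.span F {e} := fun hm => by
        have hpe : p ∈ Submodule.span F {e} :=
          (Submodule.add_mem_iff_right _ (Submodule.smul_mem _ α (Submodule.mem_span_singleton_self e))).1 hm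
        obtain ⟨c, hc⟩ := Submodule.mem_span_singleton.1 hpe
        have h := ((mem_perp_pair hQ).1 hpW).2
        rw [← hc, map_smul, b_symm hQ, hef, smul_eq_mul, mul_one] at h
        exact hp0 (by rw [Set.mem_singleton_iff, ← hc, h, zero_smul])
      refine ⟨?_, ?_, fun h => hnot (by rw [h]; exact Submodule.zero_mem _), hnot⟩
      · simp [q_add hQ, q_smul hQ, he, hpQ, hep, -bform_apply]
      · simp [hep, b_self_eq_zero hQ he, -bform_apply]
    refine Set.ncard_congr (fun x hx => mkPoint (hval x hx).2.2.1 (hval x hx).1) (fun x hx => ?_)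
      (fun x y hx hy hxy => ?_) (fun Y hY => ?_)
    · refine ⟨(perpPt_mk (hQ := hQ)).2 (hval x hx).2.1, fun h => (hval x hx).2.2.2 ?_⟩
      obtain ⟨c, hc⟩ := mkPoint_eq_iff.1 h
      exact Submodule.mem_span_singleton.2 ⟨c, hc⟩
    · obtain ⟨α, p⟩ := x
      obtain ⟨β, p'⟩ := y
      obtain ⟨c, hc⟩ := mkPoint_eq_iff.1 hxy
      have hc0 : c ≠ 0 := fun h => by
        rw [h, zero_smul] at hc
        exact (hval _ hx).2.2.1 hc.symm
      rw [hone c hc0, one_smul] at hc
      have h1 := congrArg (bform hQ f) hc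
      rw [map_add, map_add, map_smul, map_smul, b_symm hQ f e, hef, ((mem_perp_pair hQ).1 hx.2.1.1).2,
        ((mem_perp_pair hQ).1 hy.2.1.1).2, smul_eq_mul, smul_eq_mul, mul_one, mul_one, add_zero,
        add_zero] at h1
      simp only at h1
      subst h1
      refine Prod.ext rfl ?_
      simp only at hc ⊢
      first
        | exact add_left_cancel hc
        | exact (add_left_cancel hc).symm
    · obtain ⟨y, hy0, hy, rfl⟩ := exists_mk Y
      obtain ⟨hYp, hYne⟩ := hY
      rw [perpPt_mk (hQ := hQ)] at hYp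
      have hyp : y = bform hQ f y • e + proj hQ e f y := by simp [proj, hYp, -bform_apply]
      refine ⟨(bform hQ f y, proj hQ e f y), ⟨trivial, ⟨proj_mem hQ he hf hef y, ?_⟩, fun h => hYne ?_⟩, ?_⟩
      · have := q_eq_proj hQ he hf hef y
        rw [hy, hYp, mul_zero, zero_add] at this
        exact this.symm
      · replace h : proj hQ e f y = 0 := h
        exact mkPoint_eq_iff.2 ⟨bform hQ f y, by conv_rhs => rw [hyp, h, add_zero]⟩
      · congr 1
        exact hyp.symm
  rw [hcount, h2] at hcard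
  have hdiff := Set.ncard_sdiff_singleton_add_one hZ0 (Set.toFinite Z)
  obtain ⟨k, hk⟩ : ∃ k, Fintype.card ι - 2 = k + 2 := ⟨Fintype.card ι - 4, by omega⟩
  rw [hk, pow_succ, pow_succ] at hcard
  obtain ⟨j, hj⟩ := heven
  omega

/-- All automorphisms are induced by semisimilarities: dimension at least eight, any finite field. -/
theorem isSemisim_of_dim_eight (h8n : 8 ≤ Fintype.card ι)
    (h8 : ∀ W : Submodule F (ι → F), IsTotallySingularQuad Q W → Fintype.card ι = 8 → finrank F W ≤ 3)
    (β : MulAut (Cfsg.POmega F Q)) : IsSemisim Q β := by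
  refine isSemisim_of_orbits hQ (by omega) (by omega) (bigOrbits_of_eight hQ h8n h8) ?_ β
  rcases eq_or_lt_of_le (show 2 ≤ Fintype.card F from Fintype.one_lt_card) with h | h
  · exact perpOrbits_two_elements hQ (by omega) h.symm
  · exact perpOrbits_of hQ (by omega) h

end CfsgLib.AutOrth
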